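import Cfsg.Agent.AutO.RowGF
import Cfsg.Agent.OAut.Conn

/-!
Balance: centralizers in `Aut(PΩ)` of the fixed points of a field automorphism.
-/

set_option autoImplicit false

namespace Cfsg.Agent.AutO

open QuadraticMap Cfsg.Agent.ClassO Cfsg.Agent.AutLie Module
open Cfsg.Agent.Orth hiding map_mul two_ne_zero_of_odd

section gal
/-- automorphisms fixing the fixed field of `σ` are powers of `σ` -/
theorem exists_pow_of_fix {F : Type*} [Field F] [Finite F] {σ τ : RingAut F} (h : ∀ x, σ x = x → τ x = x) :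
    ∃ n : ℕ, τ = σ ^ n := by
  have hfin : Finite (RingAut F) := Finite.of_injective (fun τ : RingAut F => (τ : F → F)) (fun a b h => RingEquiv.ext (congrFun h))
  let G := Subgroup.zpowers σ
  have hsub : ∀ x : FixedPoints.subfield ↥G F, τ (x : F) = x := by
    intro x
    apply h
    exact x.2 ⟨σ, Subgroup.mem_zpowers σ⟩
  let τ' : F ≃ₐ[FixedPoints.subfield ↥G F] F := AlgEquiv.ofRingEquiv (f := τ) (fun x => hsub x)
  obtain ⟨g, hg⟩ := FixedPoints.toAlgAut_surjective ↥G F τ'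
  have h1 : τ = (g : RingAut F) := by
    ext x
    exact (congrArg (fun t : F ≃ₐ[FixedPoints.subfield ↥G F] F => t x) hg).symm
  obtain ⟨n, hn⟩ := (Submonoid.mem_powers_iff _ _).1 (mem_powers_iff_mem_zpowers.2 g.2)
  exact ⟨n, by rw [h1, hn]⟩

end gal

section cent
variable {K F V : Type*} [Field K] [Field F] [Finite F] [AddCommGroup V] [Module F V] [FiniteDimensional F V]
  {κ : Type*} [Fintype κ] [DecidableEq κ] {j : K →+* F} {σ : RingAut F} (hj : ∀ x, σ x = x ↔ x ∈ Set.range j)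
  {S0 : QuadraticForm K (κ → K)} {S : QuadraticForm F (κ → F)} (hS : IsBC j S0 S)
  {Q : QuadraticForm F V} {f : GamO Q} {e : (κ → F) ≃ₗ[F] V} {d : Fˣ} (h : IsFm σ S Q f e d)
  [hG : Good Q] [hG0 : Good S0]

omit [Finite F] [FiniteDimensional F V] hG hG0 in
include hS h in
theorem polX (u w : κ → K) : polar Q (e (bv j u)) (e (bv j w)) = d * j (polar S0 u w) := by
  rw [tr_polar e d h.q, hS.polar]

omit [Finite F] in
theorem EE_eich {w u : κ → K} (hw : S0 w = 0) (hwu : polar S0 w u = 0) :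
    EE hS h (ofS S0 (E S0 w u : OGrp S0)) = ofS Q (E Q (e (bv j w)) (((d⁻¹ : Fˣ) : F) • e (bv j u)) : OGrp Q) := by
  have hd : ((d⁻¹ : Fˣ) : F) * (d : F) = 1 := Units.inv_mul d
  have hw' : Q (e (bv j w)) = 0 := by rw [h.q, hS, hw, map_zero, mul_zero]
  have hwu' : polar Q (e (bv j w)) (((d⁻¹ : Fˣ) : F) • e (bv j u)) = 0 := by
    rw [psr, polX hS h, hwu, map_zero, mul_zero, mul_zero]
  apply sim_ext
  intro v
  obtain ⟨y, rfl⟩ := e.surjective v
  have h1 : (((EE hS h (ofS S0 (E S0 w u : OGrp S0)) : SimG Q) : V ≃ₗ[F] V) : V →ₗ[F] V) ∘ₗ (e : (κ → F) →ₗ[F] V) =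
      (((ofS Q (E Q (e (bv j w)) (((d⁻¹ : Fˣ) : F) • e (bv j u)) : OGrp Q) : SimG Q) : V ≃ₗ[F] V) : V →ₗ[F] V) ∘ₗ (e : (κ → F) →ₗ[F] V) := by
    apply lin_ext_bv j
    intro v
    change sa (EE hS h (ofS S0 (E S0 w u : OGrp S0))) (e (bv j v)) = ap (E Q (e (bv j w)) (((d⁻¹ : Fˣ) : F) • e (bv j u))) (e (bv j v))
    rw [EE_bv, E_apply hw' hwu']
    change e (bv j (ap (E S0 w u) v)) = _
    rw [E_apply hw hwu, psr, polX hS h, polX hS h, qsmul, h.q, hS]
    simp only [sub_eq_add_neg, ← neg_smul, bv_add, bv_smul, map_add, map_smul, map_neg, map_mul, smul_smul]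
    have e1 : ((d⁻¹ : Fˣ) : F) * (d * j (polar S0 v u)) = j (polar S0 v u) := by rw [← mul_assoc, hd, one_mul]
    have e2 : -(↑d * j (polar S0 v w) * ((d⁻¹ : Fˣ) : F)) = - j (polar S0 v w) := by
      linear_combination (-j (polar S0 v w)) * hd
    have e3 : -(((d⁻¹ : Fˣ) : F) * ((d⁻¹ : Fˣ) : F) * (↑d * j (S0 u)) * (↑d * j (polar S0 v w))) = -(j (S0 u) * j (polar S0 v w)) := by
      linear_combination (-(((d⁻¹ : Fˣ) : F) * (d : F) + 1) * j (S0 u) * j (polar S0 v w)) * hd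
    rw [e1, e2, e3]
  exact congrArg (fun t : (κ → F) →ₗ[F] V => t y) h1

omit [FiniteDimensional F V] hG in
/-- auxiliary rational vectors -/
theorem exists_aux {w : κ → K} (hw0 : w ≠ 0) : ∃ y u1 u2 v1 : κ → K, polar S0 w y = 1 ∧ polar S0 w u1 = 0 ∧
    polar S0 u1 y = 0 ∧ u1 ≠ 0 ∧ polar S0 w u2 = 0 ∧ polar S0 u2 y = 0 ∧ u2 ≠ 0 ∧ polar S0 v1 w = 0 ∧ polar S0 v1 u1 = 1 ∧
    polar S0 v1 u2 = 0 := by
  obtain ⟨y, hy⟩ : ∃ y, polar S0 w y = 1 := by
    obtain ⟨y, hy⟩ : ∃ y, polar S0 w y ≠ 0 := by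
      by_contra hcon
      push Not at hcon
      exact hw0 (hG0.nd.1 w hcon)
    exact ⟨(polar S0 w y)⁻¹ • y, by rw [psr, inv_mul_cancel₀ hy]⟩
  have hnot : ∀ u, u ≠ 0 → polar S0 u y = 0 → ∀ c : K, u ≠ c • w := by
    rintro u hu huy c rfl
    rw [psl, hy, mul_one] at huy
    rw [huy, zero_smul] at hu
    exact hu rfl
  obtain ⟨u1, hu1, hu1w, hu1y, _, _⟩ := exists_perp4 (Q := S0) w y y y
  obtain ⟨v1, hv1, hv1'⟩ := exists_perp_not (Q := S0) (hnot u1 hu1 hu1y)
  obtain ⟨u2, hu2, hu2w, hu2v, hu2y, _⟩ := exists_perp4 (Q := S0) w v1 y y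
  exact ⟨y, u1, u2, v1, hy, by rw [pc, hu1w], hu1y, hu1, by rw [pc, hu2w], hu2y, hu2, hv1, hv1', by rw [pc, hu2v]⟩

omit [Finite F] in
/-- a semisimilarity centralizing the rational part fixes the rational singular points -/
theorem line_fix {f' : GamO Q}
    (hc : ∀ t : Om S0, cO Q f' * dO Q (EE hS h (ofS S0 t)) = dO Q (EE hS h (ofS S0 t)) * cO Q f') {w : κ → K} (hw : S0 w = 0) :
    ∃ c : F, (f' : Equiv.Perm V) (e (bv j w)) = c • e (bv j w) := by
  by_cases hw0 : w = 0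
  · subst hw0
    obtain ⟨τ, c, hf⟩ := f'.2
    exact ⟨0, by rw [bv_zero, map_zero, hf.zero, smul_zero]⟩
  obtain ⟨y, u1, u2, v1, hy, hwu1, hu1y, hu1, hwu2, hu2y, hu2, hv1w, hv1u1, hv1u2⟩ := exists_aux (S0 := S0) hw0
  have hd0 : (d : F) ≠ 0 := d.ne_zero
  have hdi : ((d⁻¹ : Fˣ) : F) ≠ 0 := (d⁻¹).ne_zero
  have hw' : Q (e (bv j w)) = 0 := by rw [h.q, hS, hw, map_zero, mul_zero]
  have hX0 : ∀ u : κ → K, u ≠ 0 → e (bv j u) ≠ 0 := fun u hu h0 => bv_ne j hu (e.injective (by rw [h0, map_zero]))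
  obtain ⟨τ, c', hf⟩ := f'.2
  set W := e (bv j w) with hWdef
  set W' := (f' : Equiv.Perm V) W with hW'def
  have hW0 : W ≠ 0 := hX0 w hw0
  have hW'0 : W' ≠ 0 := by
    intro h0; apply hW0; apply (f' : Equiv.Perm V).injective; rw [hf.zero]; exact h0
  have hQW' : Q W' = 0 := by rw [hW'def, hf.q, hw', map_zero, mul_zero]
  by_contra hcon
  push Not at hcon
  -- the elements at `u`
  have key : ∀ u : κ → K, polar S0 w u = 0 → polar S0 u y = 0 → u ≠ 0 →
      ∃ (t c : F), t • W' = ((d⁻¹ : Fˣ) : F) • e (bv j u) + c • W := by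
    intro u hwu huy hu
    have hU : polar Q W (((d⁻¹ : Fˣ) : F) • e (bv j u)) = 0 := by
      rw [psr, hWdef, polX hS h, hwu, map_zero, mul_zero, mul_zero]
    have hne : ∀ c : F, ((d⁻¹ : Fˣ) : F) • e (bv j u) ≠ c • W := by
      intro c hc1
      have h1 := congrArg (fun z => polar Q z (e (bv j y))) hc1
      simp only [psl] at h1
      rw [hWdef, polX hS h, polX hS h, huy, hy, map_zero, map_one, mul_zero, mul_zero, mul_one] at h1
      have hc0 : c = 0 := (mul_eq_zero.1 h1.symm).resolve_right hd0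
      rw [hc0, zero_smul] at hc1
      exact hX0 u hu ((smul_eq_zero.1 hc1).resolve_left hdi)
    have h1 := hc (E S0 w u)
    rw [EE_eich hS h hw hwu] at h1
    have h2 : dO Q (ofS Q (E Q W (((d⁻¹ : Fˣ) : F) • e (bv j u)) : OGrp Q)) = MulAut.conj (mk Q (E Q W (((d⁻¹ : Fˣ) : F) • e (bv j u)))) := by
      change cO Q (toGam Q _) = _
      rw [toGam_ofS, cO_ofO]
    set x := mk Q (E Q W (((d⁻¹ : Fˣ) : F) • e (bv j u))) with hx
    have h3 : cO Q f' x = mk Q (E Q W' (((c'⁻¹ : Fˣ) : F) • (f' : Equiv.Perm V) (((d⁻¹ : Fˣ) : F) • e (bv j u)))) := by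
      rw [hx, cO_mk, cOm_E hf hw' hU]
    have h4 : dO Q (ofS Q (E Q W' (((c'⁻¹ : Fˣ) : F) • (f' : Equiv.Perm V) (((d⁻¹ : Fˣ) : F) • e (bv j u))) : OGrp Q)) =
        dO Q (ofS Q (E Q W (((d⁻¹ : Fˣ) : F) • e (bv j u)) : OGrp Q)) := by
      have h5 : dO Q (ofS Q (E Q W' (((c'⁻¹ : Fˣ) : F) • (f' : Equiv.Perm V) (((d⁻¹ : Fˣ) : F) • e (bv j u))) : OGrp Q)) =
          MulAut.conj (cO Q f' x) := by
        rw [h3]
        change cO Q (toGam Q _) = _
        rw [toGam_ofS, cO_ofO]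
      have h6 : MulAut.conj (cO Q f' x) = cO Q f' * MulAut.conj x * (cO Q f')⁻¹ := by
        apply MulEquiv.ext
        intro z
        change cO Q f' x * z * (cO Q f' x)⁻¹ = cO Q f' (x * ((cO Q f')⁻¹ z) * x⁻¹)
        rw [map_mul, map_mul, map_inv, MulAut.apply_inv_self]
      rw [h5, h6, h2, ← h2, h1, mul_inv_cancel_right]
    obtain ⟨c1, hc1⟩ := (dO_eq_iff _ _).1 h4
    have h7 : mk Q (E Q W' (((c'⁻¹ : Fˣ) : F) • (f' : Equiv.Perm V) (((d⁻¹ : Fˣ) : F) • e (bv j u)))) = x := by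
      rw [hx]
      exact mk_eq_iff.2 ⟨c1, fun v => congrArg (fun t : SimG Q => sa t v) hc1⟩
    have hpol : polar Q W' (((c'⁻¹ : Fˣ) : F) • (f' : Equiv.Perm V) (((d⁻¹ : Fˣ) : F) • e (bv j u))) = 0 := by
      rw [psr, hW'def, hf.polar, hU, map_zero, mul_zero, mul_zero]
    obtain ⟨h8, t, ht⟩ := mem_Rg_inf hw' hQW' hW0 hW'0 hcon ((mem_Rg hw').2 ⟨_, hU, hx⟩) ((mem_Rg hQW').2 ⟨_, hpol, h7.symm⟩)
      (mk_E_ne_one hw' hU hW0 hne)
    obtain ⟨c, hc⟩ := (E_eq_iff hw' hU (by rw [psr, h8, mul_zero]) hW0).1 ht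
    exact ⟨t, c, hc⟩
  obtain ⟨t1, c1, h1⟩ := key u1 hwu1 hu1y hu1
  obtain ⟨t2, c2, h2⟩ := key u2 hwu2 hu2y hu2
  have hpw : polar Q (e (bv j v1)) W = 0 := by rw [hWdef, polX hS h, hv1w, map_zero, mul_zero]
  have h3 := congrArg (fun z => polar Q (e (bv j v1)) z) h1
  have h4 := congrArg (fun z => polar Q (e (bv j v1)) z) h2
  simp only [par, psr] at h3 h4
  rw [hpw, polX hS h, hv1u1, map_one, mul_one, mul_zero, add_zero, Units.inv_mul] at h3
  rw [hpw, polX hS h, hv1u2, map_zero, mul_zero, mul_zero, mul_zero, add_zero] at h4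
  have h5 : t2 = 0 := by
    rcases mul_eq_zero.1 h4 with h5 | h5
    · exact h5
    · rw [h5, mul_zero] at h3; exact absurd h3 zero_ne_one
  rw [h5, zero_smul] at h2
  have h6 := congrArg (fun z => polar Q z (e (bv j y))) h2
  simp only [pal, psl, polar_zero_left] at h6
  rw [hWdef, polX hS h, polX hS h, hu2y, hy, map_zero, map_one, mul_zero, mul_zero, mul_one, zero_add] at h6
  have h7 : c2 = 0 := (mul_eq_zero.1 h6.symm).resolve_right hd0
  rw [h7, zero_smul, add_zero] at h2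
  exact hX0 u2 hu2 ((smul_eq_zero.1 h2.symm).resolve_left hdi)

include hj in
/-- the centralizer of the rational part -/
theorem cent_om {f' : GamO Q}
    (hc : ∀ t : Om S0, cO Q f' * dO Q (EE hS h (ofS S0 t)) = dO Q (EE hS h (ofS S0 t)) * cO Q f') :
    ∃ n : ℕ, cO Q f' = cO Q f ^ n := by
  classical
  obtain ⟨τ, c', hf⟩ := f'.2
  obtain ⟨a, b, hyp⟩ := hG0.hyp
  have hX0 : ∀ u : κ → K, u ≠ 0 → e (bv j u) ≠ 0 := fun u hu h0 => bv_ne j hu (e.injective (by rw [h0, map_zero]))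
  have hyp2 : Hyp S0 (fun i : Fin 2 => a i.castSucc) (fun i : Fin 2 => b i.castSucc) :=
    ⟨fun i => hyp.e0 _, fun i => hyp.f0 _, fun i k => hyp.ee _ _, fun i k => hyp.ff _ _, fun i k => by
      rw [hyp.ef]; simp⟩
  let P : (κ → K) → F := fun w => if hw : S0 w = 0 then (line_fix hS h hc hw).choose else 0
  have hPs : ∀ w, S0 w = 0 → (f' : Equiv.Perm V) (e (bv j w)) = P w • e (bv j w) := by
    intro w hw
    have := (line_fix hS h hc hw).choose_spec
    simp only [P, dif_pos hw]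
    exact this
  have hPe : ∀ v w, S0 v = 0 → S0 w = 0 → polar S0 v w = 0 → LinearIndependent K ![v, w] → P (v + w) = P v := by
    intro v w hv hw hvw hi
    have h1 : S0 (v + w) = 0 := by rw [qadd, hv, hw, hvw]; ring
    have h2 := hPs _ h1
    rw [bv_add, map_add, hf.add, hPs v hv, hPs w hw] at h2
    obtain ⟨y, hy1, hy2⟩ := exists_perp_not (Q := S0) (u := w) (s := v) (by
      rintro c rfl
      rw [LinearIndependent.pair_iff] at hi
      have := hi 1 (-c) (by module)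
      exact one_ne_zero this.1)
    have h3 := congrArg (fun z => polar Q (e (bv j y)) z) h2
    simp only [par, psr] at h3
    rw [polX hS h, polX hS h, hy1, hy2, map_one, map_zero] at h3
    simp only [mul_one, mul_zero, add_zero] at h3
    exact (mul_right_cancel₀ d.ne_zero h3).symm
  have hP : ∀ v w, S0 v = 0 → S0 w = 0 → polar S0 v w = 0 → LinearIndependent K ![v, w] → P v = P w := by
    intro v w hv hw hvw hi
    rw [← hPe v w hv hw hvw hi, add_comm v w, hPe w v hw hv (by rw [pc, hvw])]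
    rw [LinearIndependent.pair_iff] at hi ⊢
    intro s t hst
    exact (hi t s (by rw [← hst]; abel)).symm
  set lam := P (a 0) with hlam
  have hsing : ∀ w, S0 w = 0 → (f' : Equiv.Perm V) (e (bv j w)) = lam • e (bv j w) := by
    intro w hw
    by_cases hw0 : w = 0
    · rw [hw0, bv_zero, map_zero, hf.zero, smul_zero]
    · rw [hPs w hw, OAut.const_of_perp hyp2 P hP hw hw0]; rfl
  have hall : ∀ z, (f' : Equiv.Perm V) (e (bv j z)) = lam • e (bv j z) := by
    intro z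
    obtain ⟨s, t, u, hu, rfl⟩ := exists_sing (hyp.e0 0) (hyp.f0 0) (by rw [hyp.ef, if_pos rfl]) z
    rw [bv_add, bv_add, e.map_add, e.map_add, hf.add, hf.add, hsing u hu, hsing (s • a 0) (by rw [qsmul, hyp.e0, mul_zero]),
      hsing (t • b 0) (by rw [qsmul, hyp.f0, mul_zero]), smul_add, smul_add]
  -- the field part
  have ha0 : a 0 ≠ 0 := hyp.e_ne 0
  have hτ : ∀ x, σ x = x → τ x = x := by
    intro x hx
    obtain ⟨y, rfl⟩ := (hj x).1 hx
    have h1 := hall (y • a 0)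
    rw [bv_smul, map_smul, hf.smul, hall, smul_smul, smul_smul] at h1
    have hlam0 : lam ≠ 0 := by
      intro h0
      have h2 := hall (a 0)
      rw [h0, zero_smul] at h2
      exact hX0 _ ha0 ((f' : Equiv.Perm V).injective (h2.trans hf.zero.symm))
    have h2 : (τ (j y) * lam - lam * j y) • e (bv j (a 0)) = 0 := by rw [sub_smul, h1, sub_self]
    have h3 := (smul_eq_zero.1 h2).resolve_right (hX0 _ ha0)
    exact mul_left_cancel₀ hlam0 (by linear_combination h3)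
  obtain ⟨n, hn⟩ := exists_pow_of_fix hτ
  refine ⟨n, ?_⟩
  have hτj : ∀ y, τ.symm (j y) = j y := fun y => by
    rw [RingEquiv.symm_apply_eq]
    exact (hτ _ ((hj _).2 ⟨y, rfl⟩)).symm
  let L : (κ → F) →ₗ[F] V :=
    { toFun := fun y => (f' : Equiv.Perm V) (e (fun k => τ.symm (y k)))
      map_add' := fun x y => by
        rw [← hf.add, ← map_add]
        congr 2
        funext k; exact map_add τ.symm _ _
      map_smul' := fun c x => by
        have h1 : (fun k => τ.symm ((c • x) k)) = τ.symm c • (fun k => τ.symm (x k)) := by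
          funext k; exact map_mul τ.symm _ _
        rw [h1, map_smul, hf.smul, RingHom.id_apply]
        congr 1
        exact τ.apply_symm_apply c }
  have hL : L = lam • (e : (κ → F) →ₗ[F] V) := by
    apply lin_ext_bv j
    intro w
    change (f' : Equiv.Perm V) (e (fun k => τ.symm (bv j w k))) = lam • e (bv j w)
    have h1 : (fun k => τ.symm (bv j w k)) = bv j w := funext fun k => hτj _
    rw [h1, hall]
  have hlam0 : lam ≠ 0 := by
    intro h0
    have h2 := hall (a 0)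
    rw [h0, zero_smul] at h2
    exact hX0 _ ha0 ((f' : Equiv.Perm V).injective (h2.trans hf.zero.symm))
  have h4 : f' = scl Q (Units.mk0 lam hlam0) * f ^ n := by
    apply gam_ext
    intro v
    obtain ⟨y, rfl⟩ := e.surjective v
    change _ = lam • ((f ^ n : GamO Q) : Equiv.Perm V) (e y)
    rw [h.pow, ← hn]
    have h5 := congrArg (fun t : (κ → F) →ₗ[F] V => t (fun k => τ (y k))) hL
    change (f' : Equiv.Perm V) (e (fun k => τ.symm (τ (y k)))) = lam • e (fun k => τ (y k)) at h5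
    have h6 : (fun k => τ.symm (τ (y k))) = y := funext fun k => τ.symm_apply_apply _
    rw [h6] at h5
    exact h5
  rw [h4, map_mul, cO_scl, one_mul, map_pow]

end cent

section inn
variable {K F V : Type*} [Field K] [Fintype K] [Field F] [Fintype F] [AddCommGroup V] [Module F V] [FiniteDimensional F V]
  {κ : Type*} [Fintype κ] [DecidableEq κ] {j : K →+* F} {σ : RingAut F} (hj : ∀ x, σ x = x ↔ x ∈ Set.range j)
  {S0 : QuadraticForm K (κ → K)} {S : QuadraticForm F (κ → F)} (hS : IsBC j S0 S)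
  {Q : QuadraticForm F V} {f : GamO Q} {e : (κ → F) ≃ₗ[F] V} {d : Fˣ} (h : IsFm σ S Q f e d)
  [hG : EvG Q] [hG0 : EvG S0] [hGS : EvG S]

/-- scalars times Ω -/
def PO (Q : QuadraticForm F V) : Subgroup (SimG Q) where
  carrier := {g | ∃ (c : Fˣ) (t : Om Q), g = sc Q c * ofS Q t}
  one_mem' := ⟨1, 1, by rw [map_one]; rfl⟩
  mul_mem' := by
    rintro _ _ ⟨c, t, rfl⟩ ⟨c', t', rfl⟩
    exact ⟨c * c', t * t', by rw [sc_ofS_mul]; rfl⟩
  inv_mem' := by
    rintro _ ⟨c, t, rfl⟩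
    exact ⟨c⁻¹, t⁻¹, by rw [sc_ofS_inv]; rfl⟩

theorem mem_PO {Q : QuadraticForm F V} {g : SimG Q} : g ∈ PO Q ↔ ∃ (c : Fˣ) (t : Om Q), g = sc Q c * ofS Q t := Iff.rfl

theorem PO_map {Q : QuadraticForm F V} [hG : Good Q] : (PO Q).map (dO Q) = Cfsg.Inn (T Q) := by
  ext x
  constructor
  · rintro ⟨g, ⟨c, t, rfl⟩, rfl⟩
    exact (dO_mem_inn _).2 ⟨c, t, rfl⟩
  · rintro ⟨y, rfl⟩
    obtain ⟨t, rfl⟩ := mk_surjective _ y
    refine ⟨ofS Q t, ⟨1, t, by rw [map_one, one_mul]⟩, ?_⟩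
    change cO Q (toGam Q _) = _
    rw [toGam_ofS, cO_ofO]

include hj in
/-- inner automorphisms centralizing a field automorphism of odd degree -/
theorem EE_mem_PO {r : ℕ} (hr : Odd r) (hc : Fintype.card F = Fintype.card K ^ r) (g0 : SimG S0) :
    EE hS h g0 ∈ PO Q ↔ g0 ∈ PO S0 := by
  have hsq := isSquare_ext_odd j hr hc
  constructor
  · rintro ⟨b, k, hk⟩
    have hk' := (mem_commutator_iff_homs hG.nd hG.rg (k : OGrp Q)).1 k.2
    have hsg : sg S0 g0 = 1 := by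
      rw [← sg_EE hS h g0, hk, map_mul, sg_sc, one_mul, sg_ofS, hk'.1]
    have hmu : IsSquare ((mu S0 g0 : Kˣ) : K) := by
      rw [hsq]
      have h1 := mu_EE hS h g0
      rw [hk, map_mul, mu_sc, mu_ofS, mul_one] at h1
      have h2 := congrArg Units.val h1
      rw [Units.val_pow_eq_pow_val, Units.coe_map] at h2
      exact ⟨b, by rw [← pow_two, h2]; rfl⟩
    obtain ⟨b0, k0, hk0, hk0'⟩ := nf_sq hsg hmu
    have h1 : sc Q b * ofS Q k = sc Q (Units.map (j : K →* F) b0) * ofS Q (trO e d h.q (extO hS k0)) := by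
      rw [← hk, hk0, map_mul, EE_sc, EE_ofS]
    set b1 : Fˣ := Units.map (j : K →* F) b0 with hb1
    have h3 : sc Q (b1⁻¹ * b) = ofS _ (trO e d h.q (extO hS k0) * (k : OGrp Q)⁻¹) := by
      rw [map_mul, map_mul, map_inv, map_inv, inv_mul_eq_iff_eq_mul, ← mul_assoc, ← h1, mul_inv_cancel_right]
    have h4 : (b1⁻¹ * b) ^ 2 = 1 := by rw [← mu_sc (Q := Q), h3, mu_ofS]
    have h5 : ((b1⁻¹ * b : Fˣ) : F) = 1 ∨ ((b1⁻¹ * b : Fˣ) : F) = -1 := by
      have := congrArg Units.val h4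
      rw [Units.val_pow_eq_pow_val, Units.val_one, pow_two] at this
      exact mul_self_eq_one_iff.1 this
    rcases h5 with h5 | h5
    · rw [show b1⁻¹ * b = 1 from Units.ext h5, map_one, ← map_one (ofS Q)] at h3
      have h6 := ofS_injective Q h3
      have h7 : trO e d h.q (extO hS k0) = k := mul_inv_eq_one.1 h6.symm
      have h8 : spinHom hG0.nd hG0.rg k0 = 1 := by rw [← spin_EE hS h hsq hk0', h7, hk'.2]
      obtain ⟨t, ht⟩ := exists_om hG0.nd hG0.rg hk0' h8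
      exact ⟨b0, t, by rw [hk0, ht]⟩
    · obtain ⟨n0, hn0⟩ := exists_ofS (g := sc S0 (-1)) (by rw [mu_sc, neg_one_sq])
      have hn0p : parityHom hG0.nd hG0.rg n0 = 1 := by rw [← sg_ofS, ← hn0, sg_sc]
      have hp : parityHom hG0.nd hG0.rg (n0 * k0) = 1 := by rw [map_mul, hn0p, hk0', one_mul]
      have hg0 : g0 = sc S0 (-b0) * ofS S0 (n0 * k0) := by
        rw [map_mul, ← hn0, ← mul_assoc, ← map_mul, neg_mul_neg, mul_one, hk0]
      have hb : b = Units.map (j : K →* F) (-b0) := by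
        have h6 : b1⁻¹ * b = -1 := Units.ext h5
        have h7 : b = -b1 := by rw [inv_mul_eq_iff_eq_mul.1 h6, mul_neg_one]
        rw [h7, hb1]
        apply Units.ext
        simp
      have h9 : trO e d h.q (extO hS (n0 * k0)) = k := by
        apply ofS_injective Q
        have h10 := hk
        rw [hg0, map_mul, EE_sc, EE_ofS, ← hb] at h10
        exact mul_left_cancel h10
      have h8 : spinHom hG0.nd hG0.rg (n0 * k0) = 1 := by rw [← spin_EE hS h hsq hp, h9, hk'.2]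
      obtain ⟨t, ht⟩ := exists_om hG0.nd hG0.rg hp h8
      exact ⟨-b0, t, by rw [hg0, ht]⟩
  · rintro ⟨b0, t0, rfl⟩
    have ht := (mem_commutator_iff_homs hG0.nd hG0.rg (t0 : OGrp S0)).1 t0.2
    obtain ⟨t, ht'⟩ := exists_om hG.nd hG.rg ((parity_EE hS h (t0 : OGrp S0)).trans ht.1)
      ((spin_EE hS h hsq ht.1).trans ht.2)
    exact ⟨_, t, by rw [map_mul, EE_sc, EE_ofS, ht']⟩

end inn

end Cfsg.Agent.AutO
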