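import Cfsg.Agent.AutO.Bal

/-!
Balance: the field case.
-/

set_option autoImplicit false

namespace Cfsg.Agent.AutO

open QuadraticMap Cfsg.Agent.ClassO Cfsg.Agent.AutLie Module
open Cfsg.Agent.Orth hiding map_mul two_ne_zero_of_odd

section grp
variable {X Y : Type*} [Group X] [Group Y]

/-- the `p'`-core of a subgroup, seen in the group -/
def HasCore (p : ℕ) (B : Subgroup X) : Prop :=
  ∃ N : Subgroup X, N ≤ B ∧ (∀ b ∈ B, ∀ n ∈ N, b * n * b⁻¹ ∈ N) ∧ (Nat.card N).Coprime p ∧ N ≠ ⊥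

theorem hasCore_iff (p : ℕ) (B : Subgroup X) : Cfsg.pPrimeCore p ↥B ≠ ⊥ ↔ HasCore p B := by
  constructor
  · intro h
    have h1 : ∃ N : Subgroup ↥B, (N.Normal ∧ (Nat.card N).Coprime p) ∧ N ≠ ⊥ := by
      by_contra hcon
      push Not at hcon
      apply h
      rw [Cfsg.pPrimeCore, sSup_eq_bot]
      intro N hN
      exact hcon N hN
    obtain ⟨N, ⟨hN, hc⟩, hne⟩ := h1
    refine ⟨N.map B.subtype, ?_, ?_, ?_, ?_⟩
    · rintro _ ⟨n, _, rfl⟩; exact n.2
    · rintro b hb _ ⟨n, hn, rfl⟩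
      exact ⟨_, hN.conj_mem n hn ⟨b, hb⟩, rfl⟩
    · rw [Nat.card_congr (N.equivMapOfInjective B.subtype B.subtype_injective).toEquiv.symm]
      exact hc
    · intro h0
      exact hne ((Subgroup.map_eq_bot_iff_of_injective N B.subtype_injective).1 h0)
  · rintro ⟨N, hNB, hn, hc, hne⟩ h0
    apply hne
    have h1 : N.subgroupOf B ≤ Cfsg.pPrimeCore p ↥B := by
      apply le_sSup
      refine ⟨⟨fun n hn' b => ?_⟩, ?_⟩
      · exact hn _ b.2 _ hn'
      · rw [Nat.card_congr (Subgroup.subgroupOfEquivOfLe hNB).toEquiv]; exact hc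
    rw [h0, le_bot_iff, Subgroup.subgroupOf_eq_bot] at h1
    rw [eq_bot_iff]
    intro x hx
    exact (Subgroup.disjoint_def.1 h1) hx (hNB hx)

theorem hasCore_map' (p : ℕ) (e : X ≃* Y) (B : Subgroup X) (h : HasCore p B) : HasCore p (B.map e.toMonoidHom) := by
  obtain ⟨N, hNB, hn, hc, hne⟩ := h
  refine ⟨N.map e.toMonoidHom, Subgroup.map_mono hNB, ?_, ?_, ?_⟩
  · rintro _ ⟨b, hb, rfl⟩ _ ⟨n, hn', rfl⟩
    exact ⟨_, hn b hb n hn', by simp⟩
  · rw [Nat.card_congr (N.equivMapOfInjective e.toMonoidHom e.injective).toEquiv.symm]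
    exact hc
  · intro h0
    exact hne ((Subgroup.map_eq_bot_iff_of_injective N e.injective).1 h0)

theorem hasCore_map (p : ℕ) (e : X ≃* Y) (B : Subgroup X) : HasCore p (B.map e.toMonoidHom) ↔ HasCore p B := by
  refine ⟨fun h => ?_, hasCore_map' p e B⟩
  have h1 := hasCore_map' p e.symm _ h
  rw [Subgroup.map_map] at h1
  have h2 : e.symm.toMonoidHom.comp e.toMonoidHom = MonoidHom.id X := MonoidHom.ext fun x => e.symm_apply_apply x
  rwa [h2, Subgroup.map_id] at h1

/-- fixed points and inner automorphisms -/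
theorem card_fixed (hc : ∀ y : X, (∀ z, y * z = z * y) → y = 1) (x : MulAut X) :
    Nat.card ↥(MonoidHom.eqLocus x.toMonoidHom (MonoidHom.id X)) = Nat.card ↥(Cfsg.Inn X ⊓ Subgroup.centralizer {x}) := by
  have hconj : ∀ y : X, MulAut.conj (x y) = x * MulAut.conj y * x⁻¹ := by
    intro y
    apply MulEquiv.ext
    intro z
    change x y * z * (x y)⁻¹ = x (y * (x⁻¹ z) * y⁻¹)
    rw [map_mul, map_mul, map_inv, MulAut.apply_inv_self]
  have hinj : Function.Injective (MulAut.conj : X →* MulAut X) := by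
    rw [injective_iff_map_eq_one]
    intro y hy
    apply hc
    intro z
    have := congrArg (fun t : MulAut X => t z) hy
    change y * z * y⁻¹ = z at this
    rw [mul_inv_eq_iff_eq_mul] at this
    exact this
  refine Nat.card_congr (Equiv.ofBijective (fun y => ⟨MulAut.conj (y : X), ⟨(y : X), rfl⟩, ?_⟩) ⟨?_, ?_⟩)
  · refine Subgroup.mem_centralizer_singleton_iff.2 ?_
    have h1 := hconj (y : X)
    rw [show x (y : X) = y from y.2] at h1
    rw [eq_mul_inv_iff_mul_eq] at h1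
    exact h1
  · intro a b hab
    exact Subtype.ext (hinj (congrArg Subtype.val hab))
  · rintro ⟨_, ⟨y, rfl⟩, hy⟩
    have hy := Subgroup.mem_centralizer_singleton_iff.1 hy
    refine ⟨⟨y, ?_⟩, rfl⟩
    apply hinj
    change MulAut.conj (x y) = MulAut.conj y
    rw [hconj]
    exact mul_inv_eq_iff_eq_mul.2 hy.symm

theorem centerless_of_simple (hs : IsSimpleGroup X) {a b : X} (hab : a * b ≠ b * a) (y : X) (hy : ∀ z, y * z = z * y) : y = 1 := by
  rcases hs.eq_bot_or_eq_top_of_normal (Subgroup.center X) inferInstance with h | h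
  · rw [← Subgroup.mem_bot, ← h, Subgroup.mem_center_iff]
    exact fun g => (hy g).symm
  · exfalso
    apply hab
    have := Subgroup.mem_center_iff.1 (show b ∈ Subgroup.center X by rw [h]; trivial) a
    exact this

/-- the group-theoretic heart of the field case -/
theorem core_bot {x : X} {I D N : Subgroup X} {p : ℕ} (hp : p.Prime) (hord : orderOf x = p) (hI : I.Normal)
    (hD : D = I ⊓ Subgroup.centralizer {x}) (hs : IsSimpleGroup ↥D) (hpD : ¬ (Nat.card D).Coprime p)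
    (hN : N ≤ Subgroup.centralizer {x}) (hDN : ∀ b ∈ D, ∀ n ∈ N, b * n * b⁻¹ ∈ N) (hc : (Nat.card N).Coprime p)
    (hcent : ∀ n, (∀ b ∈ D, b * n = n * b) → ∃ k : ℕ, n = x ^ k) : N = ⊥ := by
  have h1 : N ⊓ D = ⊥ := by
    have hnorm : (N.subgroupOf D).Normal := ⟨fun n hn b => hDN _ b.2 _ hn⟩
    rcases hs.eq_bot_or_eq_top_of_normal _ hnorm with h | h
    · rw [Subgroup.subgroupOf_eq_bot] at h
      exact h.eq_bot
    · exfalso
      apply hpD
      exact Nat.Coprime.coprime_dvd_left (Subgroup.card_dvd_of_le (Subgroup.subgroupOf_eq_top.1 h)) hc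
  rw [eq_bot_iff]
  intro n hn
  rw [Subgroup.mem_bot]
  have hcomm : ∀ b ∈ D, b * n = n * b := by
    intro b hb
    have h2 : b * n * b⁻¹ * n⁻¹ ∈ N ⊓ D := by
      refine ⟨N.mul_mem (hDN b hb n hn) (N.inv_mem hn), ?_⟩
      have hb' := hb
      rw [hD] at hb' ⊢
      refine ⟨?_, ?_⟩
      · have := hI.conj_mem _ (I.inv_mem hb'.1) n
        rw [mul_assoc, mul_assoc, ← mul_assoc n]
        exact I.mul_mem hb'.1 this
      · exact (Subgroup.centralizer {x}).mul_mem ((Subgroup.centralizer {x}).mul_mem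
          ((Subgroup.centralizer {x}).mul_mem hb'.2 (hN hn)) ((Subgroup.centralizer {x}).inv_mem hb'.2))
          ((Subgroup.centralizer {x}).inv_mem (hN hn))
    rw [h1, Subgroup.mem_bot] at h2
    rw [mul_inv_eq_one, mul_inv_eq_iff_eq_mul] at h2
    exact h2
  obtain ⟨k, rfl⟩ := hcent n hcomm
  have h3 : orderOf (x ^ k) ∣ p := by
    rw [← hord]; exact orderOf_pow_dvd k
  have h4 : orderOf (x ^ k) ∣ Nat.card N := by
    have := orderOf_dvd_natCard (⟨x ^ k, hn⟩ : N)
    rwa [← Subgroup.orderOf_coe] at this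
  have h5 := Nat.Coprime.eq_one_of_dvd (Nat.Coprime.coprime_dvd_left h4 hc) h3
  exact orderOf_eq_one_iff.1 h5

end grp

section simple
variable {F V : Type*} [Field F] [AddCommGroup V] [Module F V] [FiniteDimensional F V] {Q : QuadraticForm F V} [hG : Good Q]

theorem simple_T : IsSimpleGroup (T Q) := by
  obtain ⟨e, f, h⟩ := hG.hyp
  exact isSimple_abs hG.nd hG.rg h (commutator (OGrp Q)) (commutator_eq_EGrp hG.nd hG.rg h)

theorem exists_noncomm_T : ∃ a b : T Q, a * b ≠ b * a := by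
  obtain ⟨e, f, h⟩ := hG.hyp
  by_contra hcon
  push Not at hcon
  have h1 : mk Q (E Q (e 0) (e 1)) ≠ 1 := by
    refine mk_E_ne_one (h.e0 0) (h.ee 0 1) (h.e_ne 0) ?_
    intro c hc
    have := congrArg (fun z => polar Q z (f 1)) hc
    simp [psl, h.ef] at this
  have h2 : dO Q (ofS Q (E Q (e 0) (e 1) : OGrp Q)) = 1 := by
    change cO Q (toGam Q _) = 1
    rw [toGam_ofS, cO_ofO]
    apply MulEquiv.ext
    intro z
    change mk Q (E Q (e 0) (e 1)) * z * (mk Q (E Q (e 0) (e 1)))⁻¹ = z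
    rw [hcon (mk Q (E Q (e 0) (e 1))) z, mul_inv_cancel_right]
  obtain ⟨c, hc⟩ := (dO_eq_one_iff _).1 h2
  exact h1 (mk_eq_one_iff.2 ⟨c, fun v => congrArg (fun t : SimG Q => sa t v) hc⟩)

theorem simple_inn : IsSimpleGroup ↥(Cfsg.Inn (T Q)) := by
  have h1 : IsSimpleGroup (T Q) := simple_T
  obtain ⟨a, b, hab⟩ := exists_noncomm_T (Q := Q)
  have hinj : Function.Injective (MulAut.conj : T Q →* MulAut (T Q)) := by
    rw [injective_iff_map_eq_one]
    intro y hy
    apply centerless_of_simple h1 hab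
    intro z
    have := congrArg (fun t : MulAut (T Q) => t z) hy
    change y * z * y⁻¹ = z at this
    rw [mul_inv_eq_iff_eq_mul] at this
    exact this
  exact (MonoidHom.ofInjective hinj).symm.isSimpleGroup

end simple

section field
variable {K F V : Type*} [Field K] [Fintype K] [Field F] [Fintype F] [AddCommGroup V] [Module F V] [FiniteDimensional F V]
  {κ : Type*} [Fintype κ] [DecidableEq κ] {j : K →+* F} {σ : RingAut F} (hj : ∀ x, σ x = x ↔ x ∈ Set.range j)
  {S0 : QuadraticForm K (κ → K)} {S : QuadraticForm F (κ → F)} (hS : IsBC j S0 S)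
  {Q : QuadraticForm F V} {f : GamO Q} {e : (κ → F) ≃ₗ[F] V} {d : Fˣ} (h : IsFm σ S Q f e d)
  [hG : EvG Q] [hG0 : EvG S0] [hGS : EvG S]

include hj hS h in
theorem bal_field (hall : ∀ α : MulAut (T Q), ∃ f : GamO Q, α = cO Q f) {p : ℕ} (hp : p.Prime) (hodd : Odd p)
    (hord : orderOf (cO Q f) = p) (hc : Fintype.card F = Fintype.card K ^ p) (A : Subgroup (MulAut (T Q)))
    (hA : Cfsg.Inn (T Q) ≤ A) :
    HasCore p (A ⊓ Subgroup.centralizer {cO Q f}) ↔ (Nat.card ↥(Cfsg.Inn (T Q) ⊓ Subgroup.centralizer {cO Q f})).Coprime p := by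
  have hN : (Cfsg.Inn (T Q)).Normal := AutPSL.normal_inn
  obtain ⟨e1⟩ := cent_iso hj hS h (PO S0) (PO Q) (EE_mem_PO hj hS h hodd hc) (fun c => ⟨c, 1, by simp⟩)
  rw [PO_map, PO_map] at e1
  have hs : IsSimpleGroup ↥(Cfsg.Inn (T Q) ⊓ Subgroup.centralizer {cO Q f}) := by
    have := simple_inn (Q := S0)
    exact e1.isSimpleGroup
  constructor
  · rintro ⟨N, hNB, hn, hcp, hne⟩
    by_contra hcon
    apply hne
    refine core_bot hp hord hN rfl hs hcon (hNB.trans inf_le_right) (fun b hb => hn b ⟨hA hb.1, hb.2⟩) hcp ?_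
    intro n hn'
    obtain ⟨f', rfl⟩ := hall n
    refine cent_om hj hS h (fun t => ?_)
    refine (hn' _ ⟨(dO_mem_inn _).2 ?_, ?_⟩).symm
    · obtain ⟨c, t', ht'⟩ := (EE_mem_PO hj hS h hodd hc (ofS S0 (t : OGrp S0))).2 ⟨1, t, by rw [map_one, one_mul]⟩
      exact ⟨c, t', ht'⟩
    · refine Subgroup.mem_centralizer_singleton_iff.2 ?_
      change cO Q (toGam Q _) * cO Q f = cO Q f * cO Q (toGam Q _)
      rw [← map_mul, ← map_mul, EE_comm hj hS h]
  · intro hcp
    refine ⟨_, inf_le_inf_right _ hA, ?_, hcp, ?_⟩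
    · rintro b hb n hn
      exact ⟨hN.conj_mem _ hn.1 b, (Subgroup.centralizer {cO Q f}).mul_mem ((Subgroup.centralizer {cO Q f}).mul_mem hb.2 hn.2)
        ((Subgroup.centralizer {cO Q f}).inv_mem hb.2)⟩
    · intro h0
      rw [h0] at hs
      obtain ⟨a, b, hab⟩ := hs.exists_pair_ne
      exact hab (Subsingleton.elim _ _)

end field

end Cfsg.Agent.AutO
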