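import Cfsg.Agent.AutO.Claw

/-!
Groups of odd order normalized by Eichler elements of a subspace of odd dimension.
-/

set_option autoImplicit false

namespace Cfsg.Agent.AutO

open QuadraticMap Cfsg.Agent.Orth Cfsg.Agent.ClassO

section grp
variable {G : Type*} [Group G]

theorem odd_sq_one {N : Subgroup G} (hN : Odd (Nat.card N)) {n : G} (hn : n ∈ N) (h2 : n * n = 1) : n = 1 := by
  have h3 : orderOf n ∣ 2 := orderOf_dvd_of_pow_eq_one (by rw [pow_two, h2])
  have h4 : orderOf n ∣ Nat.card N := by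
    have := orderOf_dvd_natCard (⟨n, hn⟩ : N)
    rwa [← Subgroup.orderOf_coe] at this
  have h5 : Nat.Coprime (Nat.card N) 2 := Nat.coprime_two_right.2 hN
  exact orderOf_eq_one_iff.1 (Nat.Coprime.eq_one_of_dvd (Nat.Coprime.coprime_dvd_left h4 h5) h3)

theorem odd_trick {N : Subgroup G} (hN : Odd (Nat.card N)) {f a b n : G} (hf : f ∈ N) (ha : ∀ n ∈ N, a * n * a⁻¹ ∈ N)
    (hb : ∀ n ∈ N, b * n * b⁻¹ ∈ N) (hab : a * b = b * a) {r : ℕ} (hr : Odd r) (har : a ^ r = 1) (hbr : b ^ r = 1)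
    (hn2 : n * n = 1) (hn : n = a * (f * b * f⁻¹) * a) : n = 1 := by
  have ht : ∀ x ∈ N, (a * b * a) * x * (a * b * a)⁻¹ ∈ N := by
    intro x hx
    have := ha _ (hb _ (ha x hx))
    have e : (a * b * a) * x * (a * b * a)⁻¹ = a * (b * (a * x * a⁻¹) * b⁻¹) * a⁻¹ := by group
    rw [e]; exact this
  have htr : (a * b * a) ^ r = 1 := by
    have e : a * b * a = (a * a) * b := by rw [mul_assoc, ← hab, mul_assoc]
    rw [e, (show Commute (a * a) b from (Commute.mul_left hab hab)).mul_pow, hbr, mul_one,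
      (show Commute a a from Commute.refl a).mul_pow, har, mul_one]
  have hν : a * (f * (b * f⁻¹ * b⁻¹)) * a⁻¹ ∈ N := ha _ (N.mul_mem hf (hb _ (N.inv_mem hf)))
  have hnt : n = (a * (f * (b * f⁻¹ * b⁻¹)) * a⁻¹) * (a * b * a) := by rw [hn]; group
  generalize a * b * a = t at ht htr hnt
  generalize a * (f * (b * f⁻¹ * b⁻¹)) * a⁻¹ = u at hν hnt
  have htk : ∀ (k : ℕ), ∀ x ∈ N, t ^ k * x * (t ^ k)⁻¹ ∈ N := by
    intro k
    induction k with
    | zero => intro x hx; simpa using hx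
    | succ k ih =>
      intro x hx
      have h1 := ht _ (ih x hx)
      have e : t ^ (k + 1) * x * (t ^ (k + 1))⁻¹ = t * (t ^ k * x * (t ^ k)⁻¹) * t⁻¹ := by
        rw [pow_succ']; group
      rw [e]; exact h1
  have hk : ∀ k : ℕ, ∃ x ∈ N, n ^ k = x * t ^ k := by
    intro k
    induction k with
    | zero => exact ⟨1, N.one_mem, by simp⟩
    | succ k ih =>
      obtain ⟨x, hx, he⟩ := ih
      refine ⟨x * (t ^ k * u * (t ^ k)⁻¹), N.mul_mem hx (htk k _ hν), ?_⟩
      rw [pow_succ, he, hnt, pow_succ]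
      group
  obtain ⟨x, hx, he⟩ := hk r
  rw [htr, mul_one] at he
  obtain ⟨s, hs⟩ := hr
  have hnn : n ^ r = n := by
    rw [hs, pow_succ, pow_mul, pow_two, hn2, one_pow, one_mul]
  rw [hnn] at he
  rw [he] at hn2 ⊢
  exact odd_sq_one hN hx hn2

end grp

section ex
variable {E W : Type*} [Field E] [AddCommGroup W] [Module E W]

open Classical in
/-- Eichler elements, total function -/
noncomputable def ex (S : QuadraticForm E W) (a b : W) : OGrp S :=
  if h : S a = 0 ∧ polar S a b = 0 then eich S a b h.1 h.2 else 1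

variable {S : QuadraticForm E W}

theorem ex_eq {a b : W} (ha : S a = 0) (hab : polar S a b = 0) : ex S a b = eich S a b ha hab := by
  rw [ex, dif_pos ⟨ha, hab⟩]

theorem ex_apply {a b : W} (ha : S a = 0) (hab : polar S a b = 0) (x : W) :
    (ex S a b : W ≃ₗ[E] W) x = x + polar S x b • a - polar S x a • b - (S b * polar S x a) • a := by
  rw [ex_eq ha hab, eich_apply]

theorem ex_mul {a b c : W} (ha : S a = 0) (hab : polar S a b = 0) (hac : polar S a c = 0) :
    ex S a b * ex S a c = ex S a (b + c) := by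
  rw [ex_eq ha hab, ex_eq ha hac, ex_eq ha (by rw [par, hab, hac, add_zero]), eich_mul]

theorem ex_zero {a : W} (ha : S a = 0) : ex S a 0 = 1 := by
  rw [ex_eq ha (polar_zero_right S a)]
  apply OGrp_ext
  intro x
  rw [eich_apply]; simp

theorem ex_pow {a b : W} (ha : S a = 0) (hab : polar S a b = 0) (n : ℕ) : ex S a b ^ n = ex S a (n • b) := by
  induction n with
  | zero => rw [pow_zero, zero_smul, ex_zero ha]
  | succ n ih =>
    have : polar S a (n • b) = 0 := by rw [← Nat.cast_smul_eq_nsmul E, psr, hab, mul_zero]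
    rw [pow_succ, ih, ex_mul ha this hab, succ_nsmul]

theorem ex_conj (g : OGrp S) {a b : W} (ha : S a = 0) (hab : polar S a b = 0) :
    g * ex S a b * g⁻¹ = ex S ((g : W ≃ₗ[E] W) a) ((g : W ≃ₗ[E] W) b) := by
  rw [ex_eq ha hab, ex_eq (by rw [OGrp_q, ha]) (by rw [OGrp_polar, hab]), eich_conj]

theorem ex_inv {a b : W} (ha : S a = 0) (hab : polar S a b = 0) : (ex S a b)⁻¹ = ex S a (-b) := by
  rw [inv_eq_iff_mul_eq_one, ex_mul ha hab (by rw [polar_neg_right, hab, neg_zero]), add_neg_cancel, ex_zero ha]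

theorem ex_smul {a b : W} (c : E) (ha : S a = 0) (hab : polar S a b = 0) : ex S (c • a) b = ex S a (c • b) := by
  apply OGrp_ext; intro x
  rw [ex_apply (by rw [qsmul, ha, mul_zero]) (by rw [psl, hab, mul_zero]), ex_apply ha (by rw [psr, hab, mul_zero])]
  simp only [qsmul, psr]
  module

theorem ex_mem {P : Submodule E W} {a b : W} (ha : S a = 0) (hab : polar S a b = 0) (haP : a ∈ P) (hbP : b ∈ P) {x : W}
    (hx : x ∈ P) : (ex S a b : W ≃ₗ[E] W) x ∈ P := by
  rw [ex_apply ha hab]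
  exact P.sub_mem (P.sub_mem (P.add_mem hx (P.smul_mem _ haP)) (P.smul_mem _ hbP)) (P.smul_mem _ haP)

/-- the Weyl element -/
theorem weyl_apply {w v y : W} (hw : S w = 0) (hv : S v = 0) (hwv : polar S w v = 1) (hwy : polar S w y = 0)
    (hvy : polar S v y = 0) (hy : S y ≠ 0) (z : W) :
    ((ex S w y * ex S v ((S y)⁻¹ • y) * ex S w y : OGrp S) : W ≃ₗ[E] W) z =
      z - (polar S z v + S y * polar S z w) • w - (polar S z w + (S y)⁻¹ * polar S z v) • v - ((S y)⁻¹ * polar S z y) • y := by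
  have hvy' : polar S v ((S y)⁻¹ • y) = 0 := by rw [psr, hvy, mul_zero]
  have hvw : polar S v w = 1 := by rw [pc, hwv]
  have hyw : polar S y w = 0 := by rw [pc, hwy]
  have hyv : polar S y v = 0 := by rw [pc, hvy]
  have hyy : polar S y y = 2 * S y := pself S y
  have hww : polar S w w = 0 := by rw [pself, hw, mul_zero]
  have hvv : polar S v v = 0 := by rw [pself, hv, mul_zero]
  rw [coe_mul_apply, coe_mul_apply, ex_apply hw hwy, ex_apply hv hvy', ex_apply hw hwy]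
  simp only [pal, pdl, psl, psr, qsmul, hvy, hvw, hyw, hyv, hyy, hww, hvv, hwv, hwy]
  have hi : (S y)⁻¹ * S y = 1 := inv_mul_cancel₀ hy
  have hi' : (S y)⁻¹ * (S y)⁻¹ * S y = (S y)⁻¹ := by rw [mul_assoc, hi, mul_one]
  match_scalars
  all_goals (field_simp; try ring)

theorem weyl_sq {w v y : W} (hw : S w = 0) (hv : S v = 0) (hwv : polar S w v = 1) (hwy : polar S w y = 0)
    (hvy : polar S v y = 0) (hy : S y ≠ 0) :
    (ex S w y * ex S v ((S y)⁻¹ • y) * ex S w y) * (ex S w y * ex S v ((S y)⁻¹ • y) * ex S w y) = 1 := by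
  have hvw : polar S v w = 1 := by rw [pc, hwv]
  have hyw : polar S y w = 0 := by rw [pc, hwy]
  have hyv : polar S y v = 0 := by rw [pc, hvy]
  have hyy : polar S y y = 2 * S y := pself S y
  have hww : polar S w w = 0 := by rw [pself, hw, mul_zero]
  have hvv : polar S v v = 0 := by rw [pself, hv, mul_zero]
  apply OGrp_ext
  intro z
  rw [coe_mul_apply, weyl_apply hw hv hwv hwy hvy hy, weyl_apply hw hv hwv hwy hvy hy, coe_one_apply]
  simp only [pal, pdl, psl, psr, qsmul, hvy, hvw, hyw, hyv, hyy, hww, hvv, hwv, hwy]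
  match_scalars
  all_goals (field_simp; try ring)

end ex

section ex12
variable {F V : Type*} [Field F] [AddCommGroup V] [Module F V] [FiniteDimensional F V] {Q : QuadraticForm F V} {P : Submodule F V}

theorem exists_y1 (hP : P ⊓ perp Q P = ⊥) (h3 : 3 ≤ Module.finrank F P) {w v : V} (hw : w ∈ P) (hv : v ∈ P) (hqw : Q w = 0)
    (hqv : Q v = 0) (hwv : polar Q w v = 1) : ∃ y ∈ P, polar Q w y = 0 ∧ polar Q v y = 0 ∧ Q y ≠ 0 := by
  obtain ⟨P', hle, hnd, hd, hmem⟩ := split_pair hP hw hv hqw hqv hwv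
  obtain ⟨y, hy, hqy⟩ := sub_nonsing hnd (by omega)
  obtain ⟨h1, h2, h3⟩ := (hmem y).1 hy
  exact ⟨y, h1, by rw [pc, h2], by rw [pc, h3], hqy⟩

theorem exists_y2 (hP : P ⊓ perp Q P = ⊥) (hodd : Odd (Module.finrank F P)) {w v : V} (hw : w ∈ P) (hv : v ∈ P)
    (hqw : Q w = 0) (hqv : Q v = 0) (hwv : polar Q w v = 0) (hw0 : w ≠ 0) (hvw : ∀ c : F, v ≠ c • w) :
    ∃ u ∈ P, Q u = 0 ∧ polar Q w u = 0 ∧ polar Q v u = 1 ∧ ∃ y ∈ P, polar Q w y = 0 ∧ polar Q v y = 0 ∧ polar Q u y = 0 ∧ Q y ≠ 0 := by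
  obtain ⟨z, hz1, hz2⟩ := exists_ortho_not (nondegenerate_restrict hP) (Submodule.span F {(⟨w, hw⟩ : P)}) (x := (⟨v, hv⟩ : P))
    (by
      intro h
      obtain ⟨c, hc⟩ := Submodule.mem_span_singleton.1 h
      exact hvw c (congrArg Subtype.val hc).symm)
  have hz1' : polar Q (z : V) w = 0 := hz1 _ (Submodule.mem_span_singleton_self _)
  have hz2' : polar Q (z : V) v = 1 := hz2
  set u : V := (z : V) - Q z • v with hu
  have huP : u ∈ P := P.sub_mem z.2 (P.smul_mem _ hv)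
  have hqu : Q u = 0 := by rw [hu, qsub, qsmul, psr, hqv, hz2']; ring
  have hwu : polar Q w u = 0 := by rw [hu, pdr, psr, pc Q w z, hz1', hwv]; ring
  have hvu : polar Q v u = 1 := by rw [hu, pdr, psr, pc Q v z, hz2', pself, hqv]; ring
  obtain ⟨P1, hle1, hnd1, hd1, hmem1⟩ := split_pair hP hv huP hqv hqu hvu
  obtain ⟨w2, hw2, hqw2, hww2⟩ := Cfsg.Agent.OMax.sub_partner hnd1 ((hmem1 w).2 ⟨hw, hwv, hwu⟩) hqw hw0
  obtain ⟨P2, hle2, hnd2, hd2, hmem2⟩ := split_pair hnd1 ((hmem1 w).2 ⟨hw, hwv, hwu⟩) hw2 hqw hqw2 hww2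
  obtain ⟨k, hk⟩ := hodd
  obtain ⟨y, hy, hqy⟩ := sub_nonsing hnd2 (by omega)
  obtain ⟨h1, h2, h3⟩ := (hmem2 y).1 hy
  obtain ⟨h4, h5, h6⟩ := (hmem1 y).1 h1
  exact ⟨u, huP, hqu, hwu, hvu, y, h4, by rw [pc, h2], by rw [pc, h5], by rw [pc, h6], hqy⟩

end ex12

section mv
variable {E W G : Type*} [Field E] [AddCommGroup W] [Module E W] [FiniteDimensional E W] [Group G] {S : QuadraticForm E W}
  (ι : OGrp S →* G) (P : Submodule E W)

/-- `f` moves the root group of `w` to the root group of `v` -/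
structure Mv (f : G) (w v : W) : Prop where
  fw : ∀ u ∈ P, polar S w u = 0 → ∃ b ∈ P, polar S v b = 0 ∧ f * ι (ex S w u) * f⁻¹ = ι (ex S v b)
  bw : ∀ b ∈ P, polar S v b = 0 → ∃ u ∈ P, polar S w u = 0 ∧ f * ι (ex S w u) * f⁻¹ = ι (ex S v b)

variable {ι P} {N : Subgroup G} (hN : Odd (Nat.card N)) (hker : ∀ g, ι g = 1 → ∃ c : E, ∀ v, (g : W ≃ₗ[E] W) v = c • v)
  (hnorm : ∀ a ∈ P, ∀ b ∈ P, S a = 0 → polar S a b = 0 → ∀ n ∈ N, ι (ex S a b) * n * (ι (ex S a b))⁻¹ ∈ N)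
  {r : ℕ} (hr : Odd r) (hr0 : (r : E) = 0)
  (hP : P ⊓ perp S P = ⊥) (h3 : 3 ≤ Module.finrank E P)

include hN hker hnorm hr hr0 hP h3 in
theorem mv_perp {f : G} (hf : f ∈ N) {w v : W} (hw : w ∈ P) (hv : v ∈ P) (hqw : S w = 0) (hqv : S v = 0)
    (hfro : ∀ b ∈ P, polar S v b = 0 → ∃ u ∈ P, polar S w u = 0 ∧ f * ι (ex S w u) * f⁻¹ = ι (ex S v b)) : polar S w v = 0 := by
  by_contra hk
  set k := polar S w v with hkdef
  have hqv' : S (k⁻¹ • v) = 0 := by rw [qsmul, hqv, mul_zero]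
  have hwv' : polar S w (k⁻¹ • v) = 1 := by rw [psr, ← hkdef, inv_mul_cancel₀ hk]
  obtain ⟨y, hy, hwy, hvy, hqy⟩ := exists_y1 hP h3 hw (P.smul_mem _ hv) hqw hqv' hwv'
  have hvy0 : polar S v y = 0 := by
    rw [psl] at hvy
    exact (mul_eq_zero.1 hvy).resolve_left (inv_ne_zero hk)
  have hB : ex S (k⁻¹ • v) ((S y)⁻¹ • y) = ex S v (k⁻¹ • (S y)⁻¹ • y) := ex_smul _ hqv (by rw [psr, hvy0, mul_zero])
  obtain ⟨u, hu, hwu, huf⟩ := hfro (k⁻¹ • (S y)⁻¹ • y) (P.smul_mem _ (P.smul_mem _ hy)) (by rw [psr, psr, hvy0, mul_zero, mul_zero])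
  have hrsm : ∀ z : W, r • z = 0 := fun z => by rw [← Nat.cast_smul_eq_nsmul E, hr0, zero_smul]
  have h1 : ι (ex S w y * ex S (k⁻¹ • v) ((S y)⁻¹ • y) * ex S w y) = 1 := by
    refine odd_trick hN hf (hnorm w hw y hy hqw hwy) (hnorm w hw u hu hqw hwu) ?_ hr ?_ ?_ ?_ ?_
    · rw [← map_mul, ← map_mul, ex_mul hqw hwy hwu, ex_mul hqw hwu hwy, add_comm]
    · rw [← map_pow, ex_pow hqw hwy, hrsm, ex_zero hqw, map_one]
    · rw [← map_pow, ex_pow hqw hwu, hrsm, ex_zero hqw, map_one]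
    · rw [← map_mul, weyl_sq hqw hqv' hwv' hwy hvy hqy, map_one]
    · rw [huf, map_mul, map_mul, hB]
  obtain ⟨c, hc⟩ := hker _ h1
  have h2 := hc w
  rw [weyl_apply hqw hqv' hwv' hwy hvy hqy] at h2
  have h4 := congrArg (fun z => polar S w z) h2
  simp only [pdr, psr] at h4
  rw [hwy, pself, hqw, ← hkdef, inv_mul_cancel₀ hk] at h4
  have h5 : (S y)⁻¹ = 0 := by linear_combination -h4
  exact inv_ne_zero hqy h5

include hN hker hnorm hr hr0 hP h3 in
theorem mv_par (hodd : Odd (Module.finrank E P)) {f : G} (hf : f ∈ N) {w v : W} (hw : w ∈ P) (hv : v ∈ P) (hqw : S w = 0)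
    (hqv : S v = 0) (hw0 : w ≠ 0) (hM : Mv ι P f w v) : ∃ c : E, v = c • w := by
  by_contra hcon
  push Not at hcon
  have hwv := mv_perp hN hker hnorm hr hr0 hP h3 hf hw hv hqw hqv hM.bw
  obtain ⟨u', hu', hqu', hwu', hvu', y, hy, hwy, hvy, huy, hqy⟩ := exists_y2 hP hodd hw hv hqw hqv hwv hw0 hcon
  set k := ex S u' y with hk
  have hkw : (k : W ≃ₗ[E] W) w = w := by rw [hk, ex_apply hqu' huy, hwy, hwu']; simp
  have hkv : (k : W ≃ₗ[E] W) v = v - y - S y • u' := by rw [hk, ex_apply hqu' huy, hvy, hvu']; simp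
  have hkP : ∀ x ∈ P, (k : W ≃ₗ[E] W) x ∈ P := fun x hx => ex_mem hqu' huy hu' hy hx
  have huy' : polar S u' (-y) = 0 := by rw [polar_neg_right, huy, neg_zero]
  have hkinv : k⁻¹ = ex S u' (-y) := ex_inv hqu' huy
  have hkP' : ∀ x ∈ P, ((k⁻¹ : OGrp S) : W ≃ₗ[E] W) x ∈ P := fun x hx => by
    rw [hkinv]; exact ex_mem hqu' huy' hu' (P.neg_mem hy) hx
  have hkn := hnorm u' hu' y hy hqu' huy
  have hf2 : ι k * f * (ι k)⁻¹ * f⁻¹ ∈ N := N.mul_mem (hkn f hf) (N.inv_mem hf)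
  have h5 := mv_perp hN hker hnorm hr hr0 hP h3 hf2 hv (hkP v hv) hqv (by rw [OGrp_q, hqv]) (by
    intro b hb hvb
    have hb0 : polar S v (((k⁻¹ : OGrp S) : W ≃ₗ[E] W) b) = 0 := by
      rw [← OGrp_polar k, coe_apply_inv_self, hvb]
    obtain ⟨u0, hu0, hwu0, he0⟩ := hM.bw _ (hkP' b hb) hb0
    have hwu1 : polar S w ((k : W ≃ₗ[E] W) u0) = 0 := by rw [← hkw, OGrp_polar, hwu0]
    obtain ⟨b1, hb1, hvb1, he1⟩ := hM.fw _ (hkP u0 hu0) hwu1
    refine ⟨b1, hb1, hvb1, ?_⟩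
    have h6 : ex S w ((k : W ≃ₗ[E] W) u0) = k * ex S w u0 * k⁻¹ := by
      rw [ex_conj k hqw hwu0, hkw]
    have h7 : ex S ((k : W ≃ₗ[E] W) v) b = k * ex S v (((k⁻¹ : OGrp S) : W ≃ₗ[E] W) b) * k⁻¹ := by
      rw [ex_conj k hqv hb0, coe_apply_inv_self]
    rw [h7, map_mul, map_mul, ← he0, ← he1, h6, map_mul, map_mul, map_inv]
    group)
  rw [hkv, pdr, pdr, psr, hvu', hvy, pself, hqv] at h5
  apply hqy
  linear_combination -h5

end mv

section scal
variable {E W : Type*} [Field E] [Finite E] [AddCommGroup W] [Module E W] [FiniteDimensional E W] {S : QuadraticForm E W}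
  {P : Submodule E W}

theorem scal_of_fix (hP : P ⊓ perp S P = ⊥) (h3 : 3 ≤ Module.finrank E P) {φ : W → W} {σ : RingAut E} {c : E}
    (hadd : ∀ x y, φ (x + y) = φ x + φ y) (hsm : ∀ (a : E) x, φ (a • x) = σ a • φ x) (hinj : Function.Injective φ)
    (hpol : ∀ x y, polar S (φ x) (φ y) = c * σ (polar S x y)) (hmem : ∀ x ∈ P, φ x ∈ P)
    (hfix : ∀ w ∈ P, S w = 0 → ∃ c : E, φ w = c • w) : ∃ lam : E, lam ≠ 0 ∧ σ = 1 ∧ ∀ x ∈ P, φ x = lam • x := by
  obtain ⟨a, ha, b, hb, hqa, hqb, hab⟩ := sub_pair hP h3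
  obtain ⟨P', hle, hnd, hd, hmem'⟩ := split_pair hP ha hb hqa hqb hab
  have hba : polar S b a = 1 := by rw [pc, hab]
  have h0 : φ 0 = 0 := by
    have := hadd 0 0
    rw [add_zero] at this
    simpa using this
  have ha0 : a ≠ 0 := by rintro rfl; rw [polar_zero_left] at hab; exact zero_ne_one hab
  have hb0 : b ≠ 0 := by rintro rfl; rw [polar_zero_right] at hab; exact zero_ne_one hab
  obtain ⟨la, hla⟩ := hfix a ha hqa
  obtain ⟨lb, hlb⟩ := hfix b hb hqb
  have hla0 : la ≠ 0 := by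
    rintro rfl
    rw [zero_smul] at hla
    exact ha0 (hinj (hla.trans h0.symm))
  have hlb0 : lb ≠ 0 := by
    rintro rfl
    rw [zero_smul] at hlb
    exact hb0 (hinj (hlb.trans h0.symm))
  have key : ∀ u ∈ P', φ u = la • u ∧ σ (S u) * lb = la * S u := by
    intro u hu
    obtain ⟨huP, hua, hub⟩ := (hmem' u).1 hu
    have hua' : polar S (φ u) a = 0 := by
      have := hpol u a
      rw [hla, psr, hua, map_zero, mul_zero] at this
      exact (mul_eq_zero.1 this).resolve_left hla0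
    have hub' : polar S (φ u) b = 0 := by
      have := hpol u b
      rw [hlb, psr, hub, map_zero, mul_zero] at this
      exact (mul_eq_zero.1 this).resolve_left hlb0
    have hqv : S (a + u + (-(S u)) • b) = 0 := by
      rw [qadd, qadd, qsmul, hqa, hqb, psr, pal, pc S a u, hua, hab, hub]; ring
    obtain ⟨mu, hmu⟩ := hfix _ (P.add_mem (P.add_mem ha huP) (P.smul_mem _ hb)) hqv
    rw [hadd, hadd, hsm, hla, hlb] at hmu
    have h1 := congrArg (fun z => polar S z b) hmu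
    simp only [pal, psl] at h1
    rw [hab, hub', hub, pself, hqb] at h1
    have h2 := congrArg (fun z => polar S z a) hmu
    simp only [pal, psl] at h2
    rw [hba, hua', hua, pself, hqa, map_neg] at h2
    have h3 : mu = la := by linear_combination -h1
    subst h3
    have h4 : σ (S u) * lb = mu * S u := by linear_combination -h2
    refine ⟨?_, h4⟩
    have h5 : φ u = mu • u + (mu * -(S u) - σ (-(S u)) * lb) • b := by
      have : φ u = (mu • a + φ u + σ (-(S u)) • lb • b) - mu • a - σ (-(S u)) • lb • b := by abel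
      rw [this, hmu]; module
    rw [h5, map_neg]
    have : mu * -(S u) - -σ (S u) * lb = 0 := by linear_combination h4
    rw [this, zero_smul, add_zero]
  obtain ⟨u0, hu0, hqu0⟩ := sub_nonsing hnd (by omega)
  have hu00 : u0 ≠ 0 := by rintro rfl; exact hqu0 (QuadraticMap.map_zero S)
  have hσ : σ = 1 := by
    ext t
    have h1 := (key (t • u0) (P'.smul_mem _ hu0)).1
    rw [hsm, (key u0 hu0).1, smul_smul, smul_smul] at h1
    have h2 : (σ t * la - la * t) • u0 = 0 := by rw [sub_smul, h1, sub_self]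
    have h3 := (smul_eq_zero.1 h2).resolve_right hu00
    change σ t = t
    exact mul_left_cancel₀ hla0 (by linear_combination h3)
  have hlab : lb = la := by
    have h1 := (key u0 hu0).2
    rw [hσ] at h1
    change S u0 * lb = la * S u0 at h1
    exact mul_right_cancel₀ hqu0 (by linear_combination h1)
  refine ⟨la, hla0, hσ, fun x hx => ?_⟩
  have hx' : x - polar S x b • a - polar S x a • b ∈ P' := by
    rw [hmem']
    refine ⟨P.sub_mem (P.sub_mem hx (P.smul_mem _ ha)) (P.smul_mem _ hb), ?_, ?_⟩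
    · rw [pdl, pdl, psl, psl, pself, hqa, hba]; ring
    · rw [pdl, pdl, psl, psl, pself, hqb, hab]; ring
  have hxx : x = (x - polar S x b • a - polar S x a • b) + polar S x b • a + polar S x a • b := by abel
  conv_lhs => rw [hxx]
  conv_rhs => rw [hxx]
  rw [hadd, hadd, hsm, hsm, (key _ hx').1, hla, hlb, hσ, hlab]
  change _ + polar S x b • la • a + polar S x a • la • b = _
  module

end scal

end Cfsg.Agent.AutO
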