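import Cfsg.Agent.AutO.Bal2
import Cfsg.Agent.AutO.OddN

/-!
Balance: involutions with eigenspaces of odd dimension.
-/

set_option autoImplicit false

namespace Cfsg.Agent.AutO

open QuadraticMap Cfsg.Agent.ClassO Cfsg.Agent.AutLie Module
open Cfsg.Agent.Orth hiding map_mul two_ne_zero_of_odd

section lin
variable {F V : Type*} [Field F] [AddCommGroup V] [Module F V] [FiniteDimensional F V]

theorem det_invol (h2 : (2 : F) ≠ 0) (h : V →ₗ[F] V) (hh : ∀ v, h (h v) = v) : ∃ P M : Submodule F V,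
    (∀ v, v ∈ P ↔ h v = v) ∧ (∀ v, v ∈ M ↔ h v = -v) ∧ (∀ v, ∃ a ∈ P, ∃ b ∈ M, v = a + b) ∧
    finrank F P + finrank F M = finrank F V ∧ LinearMap.det h = (-1) ^ finrank F M := by
  let P := LinearMap.ker (h - LinearMap.id)
  let M := LinearMap.ker (h + LinearMap.id)
  have hPm : ∀ v, v ∈ P ↔ h v = v := fun v => by
    rw [LinearMap.mem_ker, LinearMap.sub_apply, LinearMap.id_apply, sub_eq_zero]
  have hMm : ∀ v, v ∈ M ↔ h v = -v := fun v => by
    rw [LinearMap.mem_ker, LinearMap.add_apply, LinearMap.id_apply, add_eq_zero_iff_eq_neg]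
  have hdec : ∀ v, ∃ a ∈ P, ∃ b ∈ M, v = a + b := by
    intro v
    refine ⟨(2 : F)⁻¹ • (v + h v), ?_, (2 : F)⁻¹ • (v - h v), ?_, ?_⟩
    · rw [hPm, map_smul, map_add, hh, add_comm]
    · rw [hMm, map_smul, map_sub, hh, ← smul_neg, neg_sub]
    · rw [← smul_add]
      have : v + h v + (v - h v) = (2 : F) • v := by module
      rw [this, smul_smul, inv_mul_cancel₀ h2, one_smul]
  have hcompl : IsCompl P M := by
    refine ⟨?_, ?_⟩
    · rw [Submodule.disjoint_def]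
      intro x h1 h3
      rw [hPm] at h1
      rw [hMm, h1] at h3
      have : (2 : F) • x = 0 := by rw [two_smul]; nth_rw 1 [h3]; exact neg_add_cancel x
      exact (smul_eq_zero.1 this).resolve_left h2
    · rw [codisjoint_iff, eq_top_iff]
      intro v _
      obtain ⟨a, ha, b, hb, rfl⟩ := hdec v
      exact Submodule.add_mem_sup ha hb
  refine ⟨P, M, hPm, hMm, hdec, Submodule.finrank_add_eq_of_isCompl hcompl, ?_⟩
  let e := Submodule.prodEquivOfIsCompl P M hcompl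
  have h1 : (e.symm : V →ₗ[F] P × M) ∘ₗ h ∘ₗ (e : (P × M) →ₗ[F] V) = LinearMap.prodMap LinearMap.id (-LinearMap.id) := by
    apply LinearMap.ext
    rintro ⟨a, b⟩
    change e.symm (h (e (a, b))) = _
    rw [LinearEquiv.symm_apply_eq]
    change h ((a : V) + (b : V)) = (a : V) + ((-b : M) : V)
    rw [map_add, (hPm _).1 a.2, (hMm _).1 b.2]; rfl
  have h3 : LinearMap.det ((e.symm : V →ₗ[F] P × M) ∘ₗ h ∘ₗ (e : (P × M) →ₗ[F] V)) = LinearMap.det h := by
    have := LinearMap.det_conj h e.symm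
    rw [← this]; rfl
  rw [← h3, h1, LinearMap.det_prodMap, LinearMap.det_id, one_mul]
  have h4 : (-LinearMap.id : M →ₗ[F] M) = (-1 : F) • LinearMap.id := LinearMap.ext fun x => by simp
  rw [h4, LinearMap.det_smul, LinearMap.det_id, mul_one]

end lin

section ev
variable {F V : Type*} [Field F] [Finite F] [AddCommGroup V] [Module F V] [FiniteDimensional F V] {Q : QuadraticForm F V}
  [hG : EvG Q]

/-- isometries as inner-diagonal automorphisms -/
noncomputable abbrev io (Q : QuadraticForm F V) : OGrp Q →* MulAut (T Q) := (dO Q).comp (ofS Q)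

omit [Finite F] in
theorem io_ker {g : OGrp Q} (h : io Q g = 1) : ∃ c : F, ∀ v, (g : V ≃ₗ[F] V) v = c • v := by
  obtain ⟨c, hc⟩ := (dO_eq_one_iff _).1 h
  exact ⟨c, fun v => congrArg (fun t : SimG Q => sa t v) hc⟩

omit [Finite F] [FiniteDimensional F V] hG in
theorem io_conj (f : GamO Q) (g : OGrp Q) : cO Q f * io Q g * (cO Q f)⁻¹ = io Q (conjO Q f g) := by
  change cO Q f * cO Q (toGam Q (ofS Q g)) * (cO Q f)⁻¹ = cO Q (toGam Q (ofS Q (conjO Q f g)))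
  rw [← map_inv, ← map_mul, ← map_mul, toGam_ofS, toGam_ofS, conj_ofO]

omit [Finite F] [FiniteDimensional F V] hG in
theorem conjO_ex {f : GamO Q} {σ : RingAut F} {c : Fˣ} (hf : IsSemi Q (f : Equiv.Perm V) σ c) {a b : V} (ha : Q a = 0)
    (hab : polar Q a b = 0) :
    conjO Q f (ex Q a b) = ex Q ((f : Equiv.Perm V) a) (((c⁻¹ : Fˣ) : F) • (f : Equiv.Perm V) b) := by
  have ha' : Q ((f : Equiv.Perm V) a) = 0 := by rw [hf.q, ha, map_zero, mul_zero]
  have hab' : polar Q ((f : Equiv.Perm V) a) (((c⁻¹ : Fˣ) : F) • (f : Equiv.Perm V) b) = 0 := by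
    rw [psr, hf.polar, hab, map_zero, mul_zero, mul_zero]
  apply OGrp_ext
  intro x
  rw [conjO_apply, ex_apply ha hab, ex_apply ha' hab']
  obtain ⟨y, rfl⟩ : ∃ y, x = (f : Equiv.Perm V) y := ⟨_, (gam_apply_inv f x).symm⟩
  rw [gam_inv_apply, hf.sub, hf.sub, hf.add, hf.smul, hf.smul, hf.smul, qsmul, psr, hf.polar, hf.polar, hf.q]
  have hc : ((c⁻¹ : Fˣ) : F) * (c : F) = 1 := Units.inv_mul c
  have e1 : ((c⁻¹ : Fˣ) : F) * (c * σ (polar Q y b)) = σ (polar Q y b) := by rw [← mul_assoc, hc, one_mul]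
  have e2 : ((c⁻¹ : Fˣ) : F) * ((c⁻¹ : Fˣ) : F) * (c * σ (Q b)) * (c * σ (polar Q y a)) = σ (Q b * polar Q y a) := by
    rw [map_mul]
    linear_combination (((c⁻¹ : Fˣ) : F) * (c : F) + 1) * σ (Q b) * σ (polar Q y a) * hc
  have e3 : (c : F) * σ (polar Q y a) * ((c⁻¹ : Fˣ) : F) = σ (polar Q y a) := by
    linear_combination σ (polar Q y a) * hc
  rw [e1, e2, smul_smul, e3]

omit [Finite F] in
/-- commuting with an involution -/
theorem comm_of_odd (h2 : (2 : F) ≠ 0) {h : OGrp Q} (hh : h * h = 1) {N : Subgroup (MulAut (T Q))} (hN : Odd (Nat.card N))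
    {f : GamO Q} (hf : cO Q f ∈ N) (hc : cO Q f * io Q h = io Q h * cO Q f) :
    ∀ v, (f : Equiv.Perm V) ((h : V ≃ₗ[F] V) v) = (h : V ≃ₗ[F] V) ((f : Equiv.Perm V) v) := by
  obtain ⟨σ, c, hfs⟩ := f.2
  obtain ⟨v0, hv0⟩ := exists_q_ne (Q := Q)
  have hv00 : v0 ≠ 0 := by rintro rfl; exact hv0 (QuadraticMap.map_zero Q)
  have h1 : io Q (conjO Q f h * h⁻¹) = 1 := by
    rw [map_mul, ← io_conj, hc, mul_inv_cancel_right, map_inv, mul_inv_cancel]
  obtain ⟨s, hs⟩ := io_ker h1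
  have hs' : ∀ v, (f : Equiv.Perm V) ((h : V ≃ₗ[F] V) v) = s • (h : V ≃ₗ[F] V) ((f : Equiv.Perm V) v) := by
    intro v
    have h3 := hs ((h : V ≃ₗ[F] V) ((f : Equiv.Perm V) v))
    rw [coe_mul_apply, coe_inv_apply_self, conjO_apply, gam_inv_apply] at h3
    exact h3
  have hhv : ∀ v, (h : V ≃ₗ[F] V) ((h : V ≃ₗ[F] V) v) = v := fun v => by
    rw [← coe_mul_apply, hh, coe_one_apply]
  have hs2 : s * s = 1 := by
    have h3 := hs' ((h : V ≃ₗ[F] V) v0)
    rw [hhv, hs', map_smul, hhv, smul_smul] at h3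
    have hfv : (f : Equiv.Perm V) v0 ≠ 0 := fun h0 => hv00 ((f : Equiv.Perm V).injective (h0.trans hfs.zero.symm))
    have h4 : (s * s - 1) • (f : Equiv.Perm V) v0 = 0 := by rw [sub_smul, one_smul, ← h3, sub_self]
    exact sub_eq_zero.1 ((smul_eq_zero.1 h4).resolve_right hfv)
  rcases mul_self_eq_one_iff.1 hs2 with h3 | h3
  · intro v; rw [hs', h3, one_smul]
  · exfalso
    subst h3
    have hk : ∀ (k : ℕ) (v : V), ((f ^ k : GamO Q) : Equiv.Perm V) ((h : V ≃ₗ[F] V) v) =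
        ((-1 : F)) ^ k • (h : V ≃ₗ[F] V) (((f ^ k : GamO Q) : Equiv.Perm V) v) := by
      intro k
      induction k with
      | zero => intro v; rw [pow_zero, pow_zero, one_smul]; rfl
      | succ k ih =>
        intro v
        rw [pow_succ' f]
        change (f : Equiv.Perm V) (((f ^ k : GamO Q) : Equiv.Perm V) _) = _ • (h : V ≃ₗ[F] V) ((f : Equiv.Perm V) (((f ^ k : GamO Q) : Equiv.Perm V) v))
        rw [ih, hfs.smul, hs', smul_smul, map_pow, map_neg, map_one, pow_succ]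
    have hN1 : cO Q (f ^ Nat.card N) = 1 := by
      rw [map_pow]
      have := pow_card_eq_one' (x := (⟨cO Q f, hf⟩ : N))
      exact congrArg Subtype.val this
    obtain ⟨b, hb⟩ := (cO_eq_one_iff _).1 hN1
    have h4 := hk (Nat.card N) v0
    rw [hb, hN.neg_one_pow, scl_apply, scl_apply, map_smul, neg_smul, one_smul] at h4
    have h5 : (2 : F) • ((b : F) • (h : V ≃ₗ[F] V) v0) = 0 := by
      rw [two_smul]; nth_rw 1 [h4]; exact neg_add_cancel _
    rcases smul_eq_zero.1 h5 with h6 | h6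
    · exact h2 h6
    · rcases smul_eq_zero.1 h6 with h7 | h7
      · exact b.ne_zero h7
      · exact hv00 ((h : V ≃ₗ[F] V).map_eq_zero_iff.1 h7)

/-- scalars on an eigenspace -/
theorem scal_on (h2 : (2 : F) ≠ 0) {h : OGrp Q} {N : Subgroup (MulAut (T Q))} (hN : Odd (Nat.card N))
    (hnorm : ∀ b ∈ Cfsg.Inn (T Q) ⊓ Subgroup.centralizer {io Q h}, ∀ n ∈ N, b * n * b⁻¹ ∈ N)
    {P : Submodule F V} (hP : P ⊓ perp Q P = ⊥) (hodd : Odd (finrank F P)) (h3 : 3 ≤ finrank F P) {ε : F} (hε : ε * ε = 1)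
    (hPm : ∀ v ∈ P, (h : V ≃ₗ[F] V) v = ε • v)
    {f : GamO Q} (hf : cO Q f ∈ N) {σ : RingAut F} {c : Fˣ} (hfs : IsSemi Q (f : Equiv.Perm V) σ c)
    (hfP : ∀ v, v ∈ P ↔ (f : Equiv.Perm V) v ∈ P) :
    ∃ lam : F, lam ≠ 0 ∧ σ = 1 ∧ ∀ x ∈ P, (f : Equiv.Perm V) x = lam • x := by
  obtain ⟨r, hcr⟩ := CharP.exists F
  have hrp : r.Prime := CharP.char_is_prime F r
  have hr2 : r ≠ 2 := by
    rintro rfl
    apply h2
    exact_mod_cast CharP.cast_eq_zero F 2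
  have hr : Odd r := hrp.odd_of_ne_two hr2
  have hn : ∀ a ∈ P, ∀ b ∈ P, Q a = 0 → polar Q a b = 0 → ∀ n ∈ N, io Q (ex Q a b) * n * (io Q (ex Q a b))⁻¹ ∈ N := by
    intro a ha b hb hqa hab
    apply hnorm
    refine ⟨(dO_mem_inn _).2 ⟨1, ⟨ex Q a b, ?_⟩, by rw [map_one, one_mul]⟩, Subgroup.mem_centralizer_singleton_iff.2 ?_⟩
    · rw [ex_eq hqa hab]; exact eich_mem_om hqa hab
    · rw [← map_mul, ← map_mul]
      have h5 : h * ex Q a b * h⁻¹ = ex Q a b := by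
        rw [ex_conj h hqa hab, hPm a ha, hPm b hb, ex_smul _ hqa (by rw [psr, hab, mul_zero]), smul_smul, hε, one_smul]
      rw [mul_inv_eq_iff_eq_mul] at h5
      rw [h5]
  refine scal_of_fix (c := (c : F)) hP h3 hfs.add hfs.smul (f : Equiv.Perm V).injective hfs.polar (fun x hx => (hfP x).1 hx) ?_
  intro w hw hqw
  by_cases hw0 : w = 0
  · exact ⟨1, by rw [hw0, hfs.zero, smul_zero]⟩
  refine mv_par hN (fun g hg => io_ker hg) hn hr (CharP.cast_eq_zero F r) hP h3 hodd hf hw ((hfP w).1 hw) hqw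
    (by rw [hfs.q, hqw, map_zero, mul_zero]) hw0 ⟨?_, ?_⟩
  · intro u hu hwu
    refine ⟨((c⁻¹ : Fˣ) : F) • (f : Equiv.Perm V) u, P.smul_mem _ ((hfP u).1 hu), by rw [psr, hfs.polar, hwu, map_zero, mul_zero, mul_zero], ?_⟩
    rw [io_conj, conjO_ex hfs hqw hwu]
  · intro b hb hvb
    have hcb : (f : Equiv.Perm V) (((f⁻¹ : GamO Q) : Equiv.Perm V) ((c : F) • b)) = (c : F) • b := gam_apply_inv _ _
    have hwu : polar Q w (((f⁻¹ : GamO Q) : Equiv.Perm V) ((c : F) • b)) = 0 := by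
      have h5 := hfs.polar w (((f⁻¹ : GamO Q) : Equiv.Perm V) ((c : F) • b))
      rw [hcb, psr, hvb, mul_zero] at h5
      exact (map_eq_zero_iff σ σ.injective).1 ((mul_eq_zero.1 h5.symm).resolve_left c.ne_zero)
    refine ⟨_, (hfP _).2 (by rw [hcb]; exact P.smul_mem _ hb), hwu, ?_⟩
    rw [io_conj, conjO_ex hfs hqw hwu, hcb, smul_smul, Units.inv_mul, one_smul]

/-- the case of an involutory isometry -/
theorem core_invol (hall : ∀ α : MulAut (T Q), ∃ f : GamO Q, α = cO Q f) (h2 : (2 : F) ≠ 0) {h : OGrp Q} (hh : h * h = 1)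
    (hs : sg Q (ofS Q h) = -1) {N : Subgroup (MulAut (T Q))} (hN : Odd (Nat.card N))
    (hNc : N ≤ Subgroup.centralizer {io Q h})
    (hnorm : ∀ b ∈ Cfsg.Inn (T Q) ⊓ Subgroup.centralizer {io Q h}, ∀ n ∈ N, b * n * b⁻¹ ∈ N) : N = ⊥ := by
  have hhv : ∀ v, (h : V ≃ₗ[F] V) ((h : V ≃ₗ[F] V) v) = v := fun v => by
    rw [← coe_mul_apply, hh, coe_one_apply]
  obtain ⟨P, M, hPm, hMm, hdec, hsum, hdet⟩ := det_invol h2 ((h : V ≃ₗ[F] V) : V →ₗ[F] V) hhv
  have hPm' : ∀ v, v ∈ P ↔ (h : V ≃ₗ[F] V) v = v := hPm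
  have hMm' : ∀ v, v ∈ M ↔ (h : V ≃ₗ[F] V) v = -v := hMm
  have hM : Odd (finrank F M) := by
    by_contra hcon
    rw [Nat.not_odd_iff_even] at hcon
    rw [hcon.neg_one_pow] at hdet
    have h5 : sg Q (ofS Q h) = 1 := by
      rw [sg_odd_iff h2, uu_apply, mu_ofS, one_pow, div_one]
      apply Units.ext
      rw [LinearEquiv.coe_det]
      exact hdet
    rw [h5] at hs
    exact absurd hs (by decide)
  have hev := hG.ev
  have hdim := hG.dim
  have hPo : Odd (finrank F P) := by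
    rw [← Nat.not_even_iff_odd]
    intro h5
    rw [← hsum] at hev
    exact (Nat.not_even_iff_odd.2 (h5.add_odd hM)) hev
  have hPM : ∀ a ∈ P, ∀ b ∈ M, polar Q a b = 0 := by
    intro a ha b hb
    have h5 := OGrp_polar h a b
    rw [(hPm' a).1 ha, (hMm' b).1 hb, polar_neg_right] at h5
    have h6 : (2 : F) * polar Q a b = 0 := by linear_combination -h5
    exact (mul_eq_zero.1 h6).resolve_left h2
  have hPn : P ⊓ perp Q P = ⊥ := by
    rw [eq_bot_iff]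
    rintro x ⟨hx1, hx2⟩
    apply hG.nd.1 x
    intro y
    obtain ⟨a, ha, b, hb, rfl⟩ := hdec y
    change polar Q x (a + b) = 0
    rw [par, hPM x hx1 b hb, pc, show polar Q a x = 0 from hx2 a ha, add_zero]
  have hMn : M ⊓ perp Q M = ⊥ := by
    rw [eq_bot_iff]
    rintro x ⟨hx1, hx2⟩
    apply hG.nd.1 x
    intro y
    obtain ⟨a, ha, b, hb, rfl⟩ := hdec y
    change polar Q x (a + b) = 0
    rw [par, pc Q x a, hPM a ha x hx1, pc, show polar Q b x = 0 from hx2 b hb, add_zero]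
  rw [eq_bot_iff]
  intro n hn
  rw [Subgroup.mem_bot]
  obtain ⟨f, rfl⟩ := hall n
  have hcomm := comm_of_odd h2 hh hN hn ((Subgroup.mem_centralizer_singleton_iff.1 (hNc hn)))
  obtain ⟨σ, c, hfs⟩ := f.2
  have hfP : ∀ v, v ∈ P ↔ (f : Equiv.Perm V) v ∈ P := by
    intro v
    rw [hPm', hPm', ← hcomm]
    exact (f : Equiv.Perm V).injective.eq_iff.symm
  have hfM : ∀ v, v ∈ M ↔ (f : Equiv.Perm V) v ∈ M := by
    intro v
    rw [hMm', hMm', ← hcomm, ← hfs.neg]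
    exact (f : Equiv.Perm V).injective.eq_iff.symm
  have hPP : ∀ (h3 : 3 ≤ finrank F P), ∃ lam : F, lam ≠ 0 ∧ σ = 1 ∧ ∀ x ∈ P, (f : Equiv.Perm V) x = lam • x := fun h3 =>
    scal_on h2 (h := h) hN hnorm hPn hPo h3 (ε := 1) (one_mul 1) (fun v hv => by rw [(hPm' v).1 hv, one_smul]) hn hfs hfP
  have hMM : ∀ (h3 : 3 ≤ finrank F M), ∃ lam : F, lam ≠ 0 ∧ σ = 1 ∧ ∀ x ∈ M, (f : Equiv.Perm V) x = lam • x := fun h3 =>
    scal_on h2 (h := h) hN hnorm hMn hM h3 (ε := -1) (by ring) (fun v hv => by rw [(hMm' v).1 hv, neg_smul, one_smul]) hn hfs hfM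
  have hone : ∀ (W : Submodule F V), Odd (finrank F W) → ¬ 3 ≤ finrank F W → (∀ v, v ∈ W ↔ (f : Equiv.Perm V) v ∈ W) → σ = 1 →
      ∃ lam : F, ∀ x ∈ W, (f : Equiv.Perm V) x = lam • x := by
    intro W hWo hW3 hfW hσ
    obtain ⟨k, hk⟩ := hWo
    have hW1 : finrank F W = 1 := by omega
    obtain ⟨w, hw, hw'⟩ := finrank_eq_one_iff'.1 hW1
    obtain ⟨lam, hlam⟩ := hw' ⟨(f : Equiv.Perm V) w, (hfW _).1 w.2⟩
    refine ⟨lam, fun x hx => ?_⟩
    obtain ⟨t, ht⟩ := hw' ⟨x, hx⟩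
    have ht' : x = t • (w : V) := (congrArg Subtype.val ht).symm
    have hl' : (f : Equiv.Perm V) (w : V) = lam • (w : V) := (congrArg Subtype.val hlam).symm
    rw [ht', hfs.smul, hσ, hl', smul_comm]; rfl
  obtain ⟨hσ, ⟨l1, hl1⟩, ⟨l2, hl2⟩⟩ : σ = 1 ∧ (∃ lam : F, ∀ x ∈ P, (f : Equiv.Perm V) x = lam • x) ∧
      (∃ lam : F, ∀ x ∈ M, (f : Equiv.Perm V) x = lam • x) := by
    by_cases hP3 : 3 ≤ finrank F P
    · obtain ⟨l1, _, hσ, hl1⟩ := hPP hP3
      by_cases hM3 : 3 ≤ finrank F M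
      · obtain ⟨l2, _, _, hl2⟩ := hMM hM3
        exact ⟨hσ, ⟨l1, hl1⟩, ⟨l2, hl2⟩⟩
      · exact ⟨hσ, ⟨l1, hl1⟩, hone M hM hM3 hfM hσ⟩
    · by_cases hM3 : 3 ≤ finrank F M
      · obtain ⟨l2, _, hσ, hl2⟩ := hMM hM3
        exact ⟨hσ, hone P hPo hP3 hfP hσ, ⟨l2, hl2⟩⟩
      · exfalso; omega
  have hsq : ∀ (W : Submodule F V), W ⊓ perp Q W = ⊥ → Odd (finrank F W) → ∀ lam : F, (∀ x ∈ W, (f : Equiv.Perm V) x = lam • x) →
      lam * lam = c := by
    intro W hW hWo lam hlam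
    obtain ⟨x, hx, hqx⟩ := sub_nonsing hW hWo.pos
    have h5 := hfs.q x
    rw [hlam x hx, qsmul, hσ] at h5
    exact mul_right_cancel₀ hqx h5
  have hff : f * f = scl Q c := by
    apply gam_ext
    intro v
    obtain ⟨a, ha, b, hb, rfl⟩ := hdec v
    change (f : Equiv.Perm V) ((f : Equiv.Perm V) (a + b)) = (c : F) • (a + b)
    rw [hfs.add, hfs.add, hl1 a ha, hl2 b hb, hfs.smul, hfs.smul, hσ, hl1 a ha, hl2 b hb, smul_smul, smul_smul]
    change (l1 * l1) • a + (l2 * l2) • b = _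
    rw [hsq P hPn hPo l1 hl1, hsq M hMn hM l2 hl2, smul_add]
  exact odd_sq_one hN hn (by rw [← map_mul, hff, cO_scl])

end ev

end Cfsg.Agent.AutO
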