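import Cfsg.Agent.AutO.Bal3
import Mathlib.Algebra.QuadraticAlgebra.NormDeterminant
import Mathlib.RingTheory.Norm.Transitivity

/-!
Balance: similarities whose square is a non-square scalar.
-/

set_option autoImplicit false

namespace Cfsg.Agent.AutO

open QuadraticMap Cfsg.Agent.ClassO Cfsg.Agent.AutLie Module
open Cfsg.Agent.Orth hiding map_mul two_ne_zero_of_odd

section semil
variable {E V : Type*} [Field E] [Finite E] [AddCommGroup V] [Module E V]

theorem exists_semil {φ : V → V} (hinj : Function.Injective φ) (hadd : ∀ x y, φ (x + y) = φ x + φ y) {x0 : V} (hx0 : x0 ≠ 0)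
    (h : ∀ z : E, ∃ z' : E, ∀ x, φ (z • x) = z' • φ x) : ∃ σ : RingAut E, ∀ (z : E) (x : V), φ (z • x) = σ z • φ x := by
  choose s hs using h
  have h0 : φ 0 = 0 := by
    have := hadd 0 0
    rw [add_zero] at this
    simpa using this
  have hφ : φ x0 ≠ 0 := fun h1 => hx0 (hinj (h1.trans h0.symm))
  have hu : ∀ a b : E, a • φ x0 = b • φ x0 → a = b := by
    intro a b hab
    have : (a - b) • φ x0 = 0 := by rw [sub_smul, hab, sub_self]
    exact sub_eq_zero.1 ((smul_eq_zero.1 this).resolve_right hφ)
  let S : E →+* E :=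
    { toFun := s
      map_one' := hu _ _ (by rw [← hs, one_smul, one_smul])
      map_mul' := fun a b => hu _ _ (by rw [← hs, mul_smul, hs, hs, mul_smul])
      map_zero' := hu _ _ (by rw [← hs, zero_smul, zero_smul, h0])
      map_add' := fun a b => hu _ _ (by rw [← hs, add_smul, hadd, hs, hs, add_smul]) }
  have hbij : Function.Bijective S := Finite.injective_iff_bijective.1 S.injective
  exact ⟨RingEquiv.ofBijective S hbij, fun z x => hs z x⟩

end semil

section sa
variable {F V : Type*} [Field F] [AddCommGroup V] [Module F V] {Q : QuadraticForm F V}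

theorem sa_add (g : SimG Q) (x y : V) : sa g (x + y) = sa g x + sa g y := map_add (g : V ≃ₗ[F] V) x y

theorem sa_smul (g : SimG Q) (a : F) (x : V) : sa g (a • x) = a • sa g x := map_smul (g : V ≃ₗ[F] V) a x

end sa

section quad
variable {F E V : Type*} [Field F] [Finite F] [Field E] [Finite E] [Algebra F E] [AddCommGroup V] [Module F V] [Module E V]
  [IsScalarTower F E V] [FiniteDimensional F V] {Q : QuadraticForm F V} [hG : EvG Q] {γ : E} {c : Fˣ}
  (hγ : γ * γ = algebraMap F E c) (hre : ∀ z : E, ∃ a b : F, z = algebraMap F E a + algebraMap F E b * γ)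
  (hun : ∀ a b : F, algebraMap F E a + algebraMap F E b * γ = 0 → a = 0 ∧ b = 0)
  {g : SimG Q} (hg : ∀ v, sa g v = γ • v) (hmu : ∀ v, Q (sa g v) = c * Q v)

omit [Finite F] [Finite E] [FiniteDimensional F V] hG in
include hγ hg in
theorem gg_apply (v : V) : sa g (sa g v) = (c : F) • v := by
  rw [hg, hg, smul_smul, hγ, algebraMap_smul]

omit [Finite F] [Finite E] [FiniteDimensional F V] hG in
include hγ hg hmu in
theorem g_adj (v w : V) : polar Q (sa g v) w = polar Q v (sa g w) := by
  have h1 : polar Q (sa g v) (sa g (sa g w)) = c * polar Q v (sa g w) := by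
    have : ∀ x y, polar Q (sa g x) (sa g y) = c * polar Q x y := fun x y => by
      simp only [QuadraticMap.polar]
      rw [← map_add (g : V ≃ₗ[F] V), hmu, hmu, hmu]; ring
    exact this _ _
  rw [gg_apply hγ hg, psr] at h1
  exact mul_left_cancel₀ c.ne_zero h1

omit [Finite F] [Finite E] [FiniteDimensional F V] hG in
include hmu in
theorem g_pol (v w : V) : polar Q (sa g v) (sa g w) = c * polar Q v w := by
  simp only [QuadraticMap.polar]
  rw [← map_add (g : V ≃ₗ[F] V), hmu, hmu, hmu]; ring

omit [Finite F] [Finite E] [FiniteDimensional F V] hG in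
include hg in
theorem smul_re (a b : F) (v : V) : (algebraMap F E a + algebraMap F E b * γ) • v = a • v + b • sa g v := by
  rw [add_smul, mul_smul, hg, algebraMap_smul, algebraMap_smul]

/-- the form over the quadratic extension -/
noncomputable def BE (hγ : γ * γ = algebraMap F E c) (hre : ∀ z : E, ∃ a b : F, z = algebraMap F E a + algebraMap F E b * γ)
    (hg : ∀ v, sa g v = γ • v) (hmu : ∀ v, Q (sa g v) = c * Q v) : LinearMap.BilinForm E V :=
  LinearMap.mk₂ E (fun v w => algebraMap F E (polar Q v (sa g w)) + algebraMap F E (polar Q v w) * γ)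
    (fun x y w => by rw [pal, pal, map_add, map_add]; ring)
    (fun z v w => by
      obtain ⟨a, b, rfl⟩ := hre z
      rw [smul_re hg, pal, pal, psl, psl, psl, psl, g_pol hmu, g_adj hγ hg hmu, smul_eq_mul]
      simp only [map_add, map_mul]
      linear_combination (-(algebraMap F E b) * (algebraMap F E (polar Q v w))) * hγ)
    (fun v x y => by rw [sa_add, par, par, map_add, map_add]; ring)
    (fun z v w => by
      obtain ⟨a, b, rfl⟩ := hre z
      rw [smul_re hg, sa_add, sa_smul, sa_smul, gg_apply hγ hg, par, par, psr, psr, psr, psr, psr, smul_eq_mul]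
      simp only [map_add, map_mul]
      linear_combination (-(algebraMap F E b) * (algebraMap F E (polar Q v w))) * hγ)

omit [Finite F] [Finite E] [FiniteDimensional F V] hG in
theorem BE_apply (v w : V) : BE hγ hre hg hmu v w = algebraMap F E (polar Q v (sa g w)) + algebraMap F E (polar Q v w) * γ := rfl

/-- the quadratic form over the quadratic extension -/
noncomputable def SE (hγ : γ * γ = algebraMap F E c) (hre : ∀ z : E, ∃ a b : F, z = algebraMap F E a + algebraMap F E b * γ)
    (hg : ∀ v, sa g v = γ • v) (hmu : ∀ v, Q (sa g v) = c * Q v) : QuadraticForm E V :=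
  LinearMap.BilinMap.toQuadraticMap (BE hγ hre hg hmu)

omit [Finite F] [Finite E] [FiniteDimensional F V] hG in
theorem SE_apply (v : V) : SE hγ hre hg hmu v = algebraMap F E (polar Q v (sa g v)) + algebraMap F E (2 * Q v) * γ := by
  change BE hγ hre hg hmu v v = _
  rw [BE_apply, pself]

omit [Finite F] [Finite E] [FiniteDimensional F V] hG in
theorem SE_polar (v w : V) : polar (SE hγ hre hg hmu) v w =
    2 * (algebraMap F E (polar Q v (sa g w)) + algebraMap F E (polar Q v w) * γ) := by
  have h1 : polar (SE hγ hre hg hmu) v w = BE hγ hre hg hmu v w + BE hγ hre hg hmu w v := by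
    change BE hγ hre hg hmu (v + w) (v + w) - BE hγ hre hg hmu v v - BE hγ hre hg hmu w w = _
    rw [LinearMap.map_add₂, map_add, map_add]; ring
  rw [h1, BE_apply, BE_apply, pc Q w (sa g v), g_adj hγ hg hmu, pc Q w v]; ring

omit [Finite F] [Finite E] [FiniteDimensional F V] in
include hun in
theorem SE_nd (h2 : (2 : F) ≠ 0) : (polarBilin (SE hγ hre hg hmu)).Nondegenerate := by
  have h2E : (2 : E) ≠ 0 := fun h => h2 ((two_bc (algebraMap F E)).1 h)
  have key : ∀ x : V, (∀ y, polar (SE hγ hre hg hmu) x y = 0) → x = 0 := by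
    intro x hx
    apply hG.nd.1 x
    intro y
    have h1 := hx y
    rw [SE_polar] at h1
    exact (hun _ _ ((mul_eq_zero.1 h1).resolve_left h2E)).2
  refine ⟨fun x hx => key x hx, fun x hx => key x fun y => ?_⟩
  rw [pc]; exact hx y

/-- restriction of scalars for isometries -/
def resE (h2 : (2 : F) ≠ 0) (hun : ∀ a b : F, algebraMap F E a + algebraMap F E b * γ = 0 → a = 0 ∧ b = 0) :
    OGrp (SE hγ hre hg hmu) →* OGrp Q where
  toFun h := ⟨(h : V ≃ₗ[E] V).restrictScalars F, fun v => by
    have h1 : SE hγ hre hg hmu ((h : V ≃ₗ[E] V) v) = SE hγ hre hg hmu v := OGrp_q h v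
    rw [SE_apply, SE_apply] at h1
    have h3 : algebraMap F E (polar Q ((h : V ≃ₗ[E] V) v) (sa g ((h : V ≃ₗ[E] V) v)) - polar Q v (sa g v)) +
        algebraMap F E (2 * Q ((h : V ≃ₗ[E] V) v) - 2 * Q v) * γ = 0 := by
      rw [map_sub, map_sub]; linear_combination h1
    have h4 := (hun _ _ h3).2
    change Q ((h : V ≃ₗ[E] V) v) = Q v
    exact mul_left_cancel₀ h2 (sub_eq_zero.1 h4)⟩
  map_one' := rfl
  map_mul' a b := rfl

theorem resE_apply (h2 : (2 : F) ≠ 0) (h : OGrp (SE hγ hre hg hmu)) (v : V) :
    (resE hγ hre hg hmu h2 hun h : V ≃ₗ[F] V) v = (h : V ≃ₗ[E] V) v := rfl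

end quad

end Cfsg.Agent.AutO
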