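import Cfsg.Agent.AutO.Bal4

/-!
Balance: involutory outer-diagonal automorphisms.
-/

set_option autoImplicit false

namespace Cfsg.Agent.AutO

open QuadraticMap Cfsg.Agent.ClassO Cfsg.Agent.AutLie Module
open Cfsg.Agent.Orth hiding map_mul two_ne_zero_of_odd

section ext
variable {F E V : Type*} [Field F] [Finite F] [Field E] [Finite E] [Algebra F E] [AddCommGroup V] [Module F V] [Module E V]
  [IsScalarTower F E V] [FiniteDimensional F V] {Q : QuadraticForm F V} [hG : EvG Q] {γ : E} {c : Fˣ}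
  (hγ : γ * γ = algebraMap F E c) (hre : ∀ z : E, ∃ a b : F, z = algebraMap F E a + algebraMap F E b * γ)
  (hun : ∀ a b : F, algebraMap F E a + algebraMap F E b * γ = 0 → a = 0 ∧ b = 0)
  {g : SimG Q} (hg : ∀ v, sa g v = γ • v) (hmu : ∀ v, Q (sa g v) = c * Q v)

omit [Finite F] in
include hγ hre hg hmu hun in
/-- semisimilarities commuting with `g` up to scalars are semisimilarities over the extension -/
theorem semi_E (h2 : (2 : F) ≠ 0) {f : GamO Q} {σ : RingAut F} {d : Fˣ} (hfs : IsSemi Q (f : Equiv.Perm V) σ d) {s : F}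
    (hfg : ∀ v, (f : Equiv.Perm V) (sa g v) = s • sa g ((f : Equiv.Perm V) v)) :
    ∃ (τ : RingAut E) (C : Eˣ), IsSemi (SE hγ hre hg hmu) (f : Equiv.Perm V) τ C ∧ ∀ a : F, τ (algebraMap F E a) = algebraMap F E (σ a) := by
  obtain ⟨v0, hv0⟩ := exists_q_ne (Q := Q)
  have hv00 : v0 ≠ 0 := by rintro rfl; exact hv0 (QuadraticMap.map_zero Q)
  have hs0 : s ≠ 0 := by
    rintro rfl
    have h1 := hfg v0
    rw [zero_smul] at h1
    have h3 : sa g v0 = 0 := (f : Equiv.Perm V).injective (h1.trans hfs.zero.symm)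
    exact hv00 ((g : V ≃ₗ[F] V).map_eq_zero_iff.1 h3)
  obtain ⟨τ, hτ⟩ := exists_semil (E := E) (φ := (f : Equiv.Perm V)) (f : Equiv.Perm V).injective hfs.add hv00 (by
    intro z
    obtain ⟨a, b, rfl⟩ := hre z
    refine ⟨algebraMap F E (σ a) + algebraMap F E (σ b * s) * γ, fun x => ?_⟩
    rw [smul_re hg, smul_re hg, hfs.add, hfs.smul, hfs.smul, hfg, smul_smul])
  have hfv : (f : Equiv.Perm V) v0 ≠ 0 := fun h0 => hv00 ((f : Equiv.Perm V).injective (h0.trans hfs.zero.symm))
  have hu : ∀ a b : E, a • (f : Equiv.Perm V) v0 = b • (f : Equiv.Perm V) v0 → a = b := by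
    intro a b hab
    have : (a - b) • (f : Equiv.Perm V) v0 = 0 := by rw [sub_smul, hab, sub_self]
    exact sub_eq_zero.1 ((smul_eq_zero.1 this).resolve_right hfv)
  have hτa : ∀ a : F, τ (algebraMap F E a) = algebraMap F E (σ a) := fun a => hu _ _ (by
    rw [← hτ, algebraMap_smul, algebraMap_smul, hfs.smul])
  have hτγ : τ γ = algebraMap F E s * γ := hu _ _ (by
    rw [← hτ, ← hg, hfg, mul_smul, ← hg, algebraMap_smul])
  have hgf : ∀ v, sa g ((f : Equiv.Perm V) v) = s⁻¹ • (f : Equiv.Perm V) (sa g v) := fun v => by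
    rw [hfg, smul_smul, inv_mul_cancel₀ hs0, one_smul]
  have hC : algebraMap F E (s⁻¹ * d) ≠ 0 := by
    rw [ne_eq, map_eq_zero_iff _ (algebraMap F E).injective]
    exact mul_ne_zero (inv_ne_zero hs0) d.ne_zero
  refine ⟨τ, Units.mk0 _ hC, ⟨hfs.add, hτ, fun v => ?_⟩, hτa⟩
  rw [SE_apply, SE_apply, map_add, map_mul τ, hτa, hτa, hτγ, hgf, psr, hfs.polar, hfs.q, Units.val_mk0]
  have hss : algebraMap F E s * algebraMap F E s⁻¹ = 1 := by rw [← map_mul, mul_inv_cancel₀ hs0, map_one]
  simp only [map_mul, map_ofNat]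
  linear_combination (-(2 * algebraMap F E d * algebraMap F E (σ (Q v)) * γ)) * hss

/-- Eichler elements over the extension are inner and commute with `g` -/
theorem resE_ex_mem (h2 : (2 : F) ≠ 0) {r : ℕ} (hr : Odd r) (hr0 : (r : F) = 0) {a b : V}
    (ha : SE hγ hre hg hmu a = 0) (hab : polar (SE hγ hre hg hmu) a b = 0) :
    io Q (resE hγ hre hg hmu h2 hun (ex (SE hγ hre hg hmu) a b)) ∈ Cfsg.Inn (T Q) ⊓ Subgroup.centralizer {dO Q g} := by
  have hrsm : r • b = 0 := by rw [← Nat.cast_smul_eq_nsmul F, hr0, zero_smul]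
  have hpow : (resE hγ hre hg hmu h2 hun (ex (SE hγ hre hg hmu) a b)) ^ r = 1 := by
    rw [← map_pow, ex_pow ha hab, hrsm, ex_zero ha, map_one]
  have hz : ∀ z : ℤˣ, z ^ r = 1 → z = 1 := by
    intro z hz
    rcases Int.units_eq_one_or z with h | h
    · exact h
    · rw [h, hr.neg_one_pow] at hz; exact absurd hz (by decide)
  refine ⟨?_, ?_⟩
  · have h1 : parityHom hG.nd hG.rg (resE hγ hre hg hmu h2 hun (ex (SE hγ hre hg hmu) a b)) = 1 := hz _ (by
      rw [← map_pow, hpow, map_one])
    have h3 : spinHom hG.nd hG.rg (resE hγ hre hg hmu h2 hun (ex (SE hγ hre hg hmu) a b)) = 1 := hz _ (by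
      rw [← map_pow, hpow, map_one])
    obtain ⟨t, ht⟩ := exists_om hG.nd hG.rg h1 h3
    exact (dO_mem_inn _).2 ⟨1, t, by rw [map_one, one_mul, ht]⟩
  · refine Subgroup.mem_centralizer_singleton_iff.2 ?_
    change dO Q _ * dO Q g = dO Q g * dO Q _
    rw [← map_mul, ← map_mul]
    congr 1
    apply sim_ext
    intro v
    change ((ex (SE hγ hre hg hmu) a b : OGrp _) : V ≃ₗ[E] V) (sa g v) = sa g (((ex (SE hγ hre hg hmu) a b : OGrp _) : V ≃ₗ[E] V) v)
    rw [hg, hg, map_smul]

omit [Finite F] in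
/-- conjugating Eichler elements over the extension -/
theorem conjO_resE (h2 : (2 : F) ≠ 0) {f : GamO Q} {τ : RingAut E} {C : Eˣ}
    (hf : IsSemi (SE hγ hre hg hmu) (f : Equiv.Perm V) τ C) {a b : V}
    (ha : SE hγ hre hg hmu a = 0) (hab : polar (SE hγ hre hg hmu) a b = 0) :
    conjO Q f (resE hγ hre hg hmu h2 hun (ex (SE hγ hre hg hmu) a b)) =
      resE hγ hre hg hmu h2 hun (ex (SE hγ hre hg hmu) ((f : Equiv.Perm V) a) (((C⁻¹ : Eˣ) : E) • (f : Equiv.Perm V) b)) := by
  let f' : GamO (SE hγ hre hg hmu) := ⟨(f : Equiv.Perm V), τ, C, hf⟩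
  have h1 := conjO_ex (f := f') hf ha hab
  apply OGrp_ext
  intro v
  exact congrArg (fun t : OGrp (SE hγ hre hg hmu) => (t : V ≃ₗ[E] V) v) h1

include hγ hre hg hmu hun in
/-- the case of a nonsplit torus -/
theorem core_ext (hall : ∀ α : MulAut (T Q), ∃ f : GamO Q, α = cO Q f) (h2 : (2 : F) ≠ 0)
    (hodd : Odd (finrank E V)) (h3 : 3 ≤ finrank E V) {N : Subgroup (MulAut (T Q))} (hN : Odd (Nat.card N))
    (hNc : N ≤ Subgroup.centralizer {dO Q g})
    (hnorm : ∀ b ∈ Cfsg.Inn (T Q) ⊓ Subgroup.centralizer {dO Q g}, ∀ n ∈ N, b * n * b⁻¹ ∈ N) : N = ⊥ := by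
  have hfd : FiniteDimensional E V := Module.Finite.of_restrictScalars_finite F E V
  obtain ⟨r, hcr⟩ := CharP.exists F
  have hrp : r.Prime := CharP.char_is_prime F r
  have hr2 : r ≠ 2 := by
    rintro rfl
    apply h2
    exact_mod_cast CharP.cast_eq_zero F 2
  have hr : Odd r := hrp.odd_of_ne_two hr2
  have hr0 : (r : F) = 0 := CharP.cast_eq_zero F r
  have hr0E : (r : E) = 0 := by rw [← map_natCast (algebraMap F E) r, hr0, map_zero]
  have h2E : (2 : E) ≠ 0 := fun h => h2 ((two_bc (algebraMap F E)).1 h)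
  set S := SE hγ hre hg hmu with hSdef
  have hSnd : (polarBilin S).Nondegenerate := SE_nd hγ hre hun hg hmu h2
  let ι : OGrp S →* MulAut (T Q) := (io Q).comp (resE hγ hre hg hmu h2 hun)
  have hker : ∀ t : OGrp S, ι t = 1 → ∃ c : E, ∀ v, (t : V ≃ₗ[E] V) v = c • v := by
    intro t ht
    obtain ⟨c, hc⟩ := io_ker ht
    exact ⟨algebraMap F E c, fun v => by rw [algebraMap_smul]; exact hc v⟩
  have hn : ∀ a ∈ (⊤ : Submodule E V), ∀ b ∈ (⊤ : Submodule E V), S a = 0 → polar S a b = 0 →
      ∀ n ∈ N, ι (ex S a b) * n * (ι (ex S a b))⁻¹ ∈ N := by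
    intro a _ b _ ha hab
    exact hnorm _ (resE_ex_mem hγ hre hun hg hmu h2 hr hr0 ha hab)
  have htop : (⊤ : Submodule E V) ⊓ perp S ⊤ = ⊥ := by
    rw [eq_bot_iff]
    rintro x ⟨_, hx⟩
    apply hSnd.1 x
    intro y
    change polar S x y = 0
    rw [pc]
    exact hx y trivial
  have hodd' : Odd (finrank E (⊤ : Submodule E V)) := by rw [finrank_top]; exact hodd
  have h3' : 3 ≤ finrank E (⊤ : Submodule E V) := by rw [finrank_top]; exact h3
  rw [eq_bot_iff]
  intro n hnN
  rw [Subgroup.mem_bot]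
  obtain ⟨f, rfl⟩ := hall n
  obtain ⟨σ, d, hfs⟩ := f.2
  obtain ⟨v0, hv0⟩ := exists_q_ne (Q := Q)
  have hv00 : v0 ≠ 0 := by rintro rfl; exact hv0 (QuadraticMap.map_zero Q)
  -- commuting with g
  obtain ⟨s, hs⟩ : ∃ s : F, ∀ v, (f : Equiv.Perm V) (sa g v) = s • sa g ((f : Equiv.Perm V) v) := by
    have h5 := Subgroup.mem_centralizer_singleton_iff.1 (hNc hnN)
    have h6 : cO Q (f * toGam Q g * f⁻¹ * (toGam Q g)⁻¹) = 1 := by
      rw [map_mul, map_mul, map_mul, map_inv, map_inv]
      change cO Q f * dO Q g * (cO Q f)⁻¹ * (dO Q g)⁻¹ = 1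
      rw [h5, mul_inv_cancel_right, mul_inv_cancel]
    obtain ⟨s, hs⟩ := (cO_eq_one_iff _).1 h6
    refine ⟨s, fun v => ?_⟩
    have h7 : f * toGam Q g = scl Q s * toGam Q g * f := by
      rw [← hs]; group
    exact congrArg (fun t : GamO Q => (t : Equiv.Perm V) v) h7
  obtain ⟨τ, C, hfE, hτ⟩ := semi_E hγ hre hun hg hmu h2 hfs hs
  obtain ⟨lam, _, hτ1, hlam⟩ := scal_of_fix (S := S) (P := ⊤) (σ := τ) (c := (C : E)) htop h3' hfE.add hfE.smul
    (f : Equiv.Perm V).injective hfE.polar (fun x _ => trivial) (by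
      intro w hw hqw
      by_cases hw0 : w = 0
      · exact ⟨1, by rw [hw0, hfs.zero, smul_zero]⟩
      refine mv_par hN hker hn hr hr0E htop h3' hodd' hnN trivial trivial hqw (by rw [hfE.q, hqw, map_zero, mul_zero]) hw0
        ⟨?_, ?_⟩
      · intro u _ hwu
        refine ⟨((C⁻¹ : Eˣ) : E) • (f : Equiv.Perm V) u, trivial, by rw [psr, hfE.polar, hwu, map_zero, mul_zero, mul_zero], ?_⟩
        change cO Q f * io Q _ * (cO Q f)⁻¹ = io Q _
        rw [io_conj, conjO_resE hγ hre hun hg hmu h2 hfE hqw hwu]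
      · intro b _ hvb
        have hcb : (f : Equiv.Perm V) (((f⁻¹ : GamO Q) : Equiv.Perm V) ((C : E) • b)) = (C : E) • b := gam_apply_inv _ _
        have hwu : polar S w (((f⁻¹ : GamO Q) : Equiv.Perm V) ((C : E) • b)) = 0 := by
          have h5 := hfE.polar w (((f⁻¹ : GamO Q) : Equiv.Perm V) ((C : E) • b))
          rw [hcb, psr, hvb, mul_zero] at h5
          exact (map_eq_zero_iff τ τ.injective).1 ((mul_eq_zero.1 h5.symm).resolve_left C.ne_zero)
        refine ⟨_, trivial, hwu, ?_⟩
        change cO Q f * io Q _ * (cO Q f)⁻¹ = io Q _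
        rw [io_conj, conjO_resE hγ hre hun hg hmu h2 hfE hqw hwu, hcb, smul_smul, Units.inv_mul, one_smul])
  have hlam' : ∀ x, (f : Equiv.Perm V) x = lam • x := fun x => hlam x trivial
  have hσ : ∀ a : F, σ a = a := fun a => by
    apply (algebraMap F E).injective
    rw [← hτ, hτ1]; rfl
  obtain ⟨a, b, hab⟩ := hre lam
  have hfab : ∀ x, (f : Equiv.Perm V) x = a • x + b • sa g x := fun x => by rw [hlam', hab, smul_re hg]
  have hzero : a * b = 0 := by
    by_contra hne
    have h5 : ∀ x, (a * b) * polar Q x (sa g x) = ((d : F) - a * a - b * b * c) * Q x := by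
      intro x
      have h6 := hfs.q x
      rw [hfab, hσ, qadd, qsmul, qsmul, hmu, psl, psr] at h6
      linear_combination h6
    have h6 : ∀ x y, 2 * (a * b) * polar Q x (sa g y) = ((d : F) - a * a - b * b * c) * polar Q x y := by
      intro x y
      have h7 := h5 (x + y)
      rw [sa_add, pal, par, par, qadd] at h7
      have h8 : polar Q y (sa g x) = polar Q x (sa g y) := by rw [pc, g_adj hγ hg hmu]
      linear_combination h7 - h5 x - h5 y - (a * b) * h8
    have h7 : ∀ y, (2 * (a * b)) • sa g y = ((d : F) - a * a - b * b * c) • y := by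
      intro y
      rw [← sub_eq_zero]
      apply hG.nd.2
      intro x
      change polar Q x _ = 0
      rw [pdr, psr, psr, h6, sub_self]
    have h8 := h7 v0
    rw [hg, ← algebraMap_smul E (2 * (a * b)), ← algebraMap_smul E ((d : F) - a * a - b * b * c), smul_smul] at h8
    have h9 : (algebraMap F E (2 * (a * b)) * γ - algebraMap F E ((d : F) - a * a - b * b * c)) • v0 = 0 := by
      rw [sub_smul, h8, sub_self]
    have h10 := (smul_eq_zero.1 h9).resolve_right hv00
    have h11 := hun (-((d : F) - a * a - b * b * c)) (2 * (a * b)) (by rw [map_neg]; linear_combination h10)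
    exact (mul_ne_zero h2 hne) h11.2
  have hc0 : a * a + b * b * c ≠ 0 := by
    intro h0
    have h5 : lam * lam = 0 := by
      rw [hab]
      have h6 : algebraMap F E (a * a + b * b * c) = 0 := by rw [h0, map_zero]
      have h7 : algebraMap F E (a * b) = 0 := by rw [hzero, map_zero]
      simp only [map_add, map_mul] at h6 h7
      linear_combination h6 + 2 * γ * h7 + (algebraMap F E b) * (algebraMap F E b) * hγ
    have h6 : lam = 0 := mul_self_eq_zero.1 h5
    have h7 := hlam' v0
    rw [h6, zero_smul] at h7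
    exact hv00 ((f : Equiv.Perm V).injective (h7.trans hfs.zero.symm))
  have hff : f * f = scl Q (Units.mk0 _ hc0) := by
    apply gam_ext
    intro v
    change (f : Equiv.Perm V) ((f : Equiv.Perm V) v) = (a * a + b * b * c) • v
    rw [hfab, hfab, sa_add, sa_smul, sa_smul, gg_apply hγ hg]
    have : a • (a • v + b • sa g v) + b • (a • sa g v + b • (c : F) • v) = (a * a + b * b * c) • v + (2 * (a * b)) • sa g v := by
      module
    rw [this, hzero, mul_zero, zero_smul, add_zero]
  exact odd_sq_one hN hnN (by rw [← map_mul, hff, cO_scl])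

end ext

section main
variable {F V : Type*} [Field F] [Finite F] [AddCommGroup V] [Module F V] [FiniteDimensional F V] {Q : QuadraticForm F V}
  [hG : EvG Q]

/-- **outer-diagonal involutions** -/
theorem core_two (hall : ∀ α : MulAut (T Q), ∃ f : GamO Q, α = cO Q f) (h2 : (2 : F) ≠ 0) {g : SimG Q} (hsg : sg Q g = -1)
    (hgg : dO Q g * dO Q g = 1) {N : Subgroup (MulAut (T Q))} (hN : Odd (Nat.card N))
    (hNc : N ≤ Subgroup.centralizer {dO Q g})
    (hnorm : ∀ b ∈ Cfsg.Inn (T Q) ⊓ Subgroup.centralizer {dO Q g}, ∀ n ∈ N, b * n * b⁻¹ ∈ N) : N = ⊥ := by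
  have hev := hG.ev
  have hdim := hG.dim
  have hsg1 : sg Q g ≠ 1 := by rw [hsg]; decide
  rw [← map_mul] at hgg
  obtain ⟨c, hc⟩ := (dO_eq_one_iff _).1 hgg
  have hcv : ∀ v, sa g (sa g v) = (c : F) • v := fun v => congrArg (fun t : SimG Q => sa t v) hc
  have hmu2 : mu Q g * mu Q g = c * c := by rw [← map_mul, hc, mu_sc, pow_two]
  by_cases hsq : IsSquare ((c : Fˣ) : F)
  · obtain ⟨b, hb⟩ := hsq
    have hb0 : b ≠ 0 := by rintro rfl; rw [mul_zero] at hb; exact c.ne_zero hb
    set B : Fˣ := Units.mk0 b hb0 with hB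
    have hBc : c = B * B := Units.ext hb
    set k := sc Q B⁻¹ * g with hk
    have hkk : k * k = 1 := by
      have : k * k = sc Q (B⁻¹ * B⁻¹) * (g * g) := by
        rw [hk, map_mul, mul_assoc, ← mul_assoc g, sc_comm, mul_assoc (sc Q B⁻¹) g g, ← mul_assoc]
      rw [this, hc, ← map_mul, hBc]
      have : B⁻¹ * B⁻¹ * (B * B) = 1 := by group
      rw [this, map_one]
    have hkd : dO Q k = dO Q g := by rw [hk, map_mul, (dO_eq_one_iff (sc Q B⁻¹)).2 ⟨_, rfl⟩, one_mul]
    have hks : sg Q k = -1 := by rw [hk, map_mul, sg_sc, one_mul, hsg]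
    have hmk : mu Q k * mu Q k = 1 := by rw [← map_mul, hkk, map_one]
    have hmk' : ((mu Q k : Fˣ) : F) = 1 ∨ ((mu Q k : Fˣ) : F) = -1 := by
      have := congrArg Units.val hmk
      rw [Units.val_mul, Units.val_one] at this
      exact mul_self_eq_one_iff.1 this
    rcases hmk' with hm | hm
    · obtain ⟨h, hh⟩ := exists_ofS (g := k) (Units.ext hm)
      have hhh : h * h = 1 := ofS_injective Q (by rw [map_mul, ← hh, hkk, map_one])
      have hio : io Q h = dO Q g := by
        change dO Q (ofS Q h) = _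
        rw [← hh, hkd]
      rw [← hio] at hNc hnorm
      exact core_invol hall h2 hhh (by rw [← hh, hks]) hN hNc hnorm
    · exfalso
      have hkv : ∀ v, ((k : V ≃ₗ[F] V) : V →ₗ[F] V) (((k : V ≃ₗ[F] V) : V →ₗ[F] V) v) = v := fun v =>
        congrArg (fun t : SimG Q => sa t v) hkk
      obtain ⟨P, M, hPm, hMm, hdec, hsum, hdet⟩ := det_invol h2 ((k : V ≃ₗ[F] V) : V →ₗ[F] V) hkv
      have hkq : ∀ v, Q (((k : V ≃ₗ[F] V) : V →ₗ[F] V) v) = - Q v := fun v => by
        have := mu_spec k v
        rw [hm, neg_one_mul] at this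
        exact this
      have h2q : ∀ v, Q v = - Q v → Q v = 0 := fun v hv => by
        have : (2 : F) * Q v = 0 := by linear_combination hv
        exact (mul_eq_zero.1 this).resolve_left h2
      have hPT : TS Q P := fun v hv => h2q v (by rw [← hkq, (hPm v).1 hv])
      have hMT : TS Q M := fun v hv => h2q v (by rw [← hkq, (hMm v).1 hv, QuadraticMap.map_neg])
      have hbd : ∀ W : Submodule F V, TS Q W → 2 * finrank F W ≤ finrank F V := by
        intro W hW
        have h1 := Submodule.finrank_mono hW.le_perp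
        have h3 := finrank_perp hG.nd W
        omega
      have h5 := hbd P hPT
      have h6 := hbd M hMT
      have h7 : finrank F M = finrank F V / 2 := by omega
      apply absurd hks
      intro h8
      apply hsg1
      rw [← show sg Q k = sg Q g by rw [hks, hsg], sg_odd_iff h2, uu_apply, div_eq_one]
      apply Units.ext
      rw [LinearEquiv.coe_det, hdet, h7, Units.val_pow_eq_pow_val, hm]
  · -- the non-square case
    have hfact : Fact (∀ r : F, r ^ 2 ≠ (c : F) + 0 * r) := ⟨fun r hr => hsq ⟨r, by rw [← pow_two, hr, zero_mul, add_zero]⟩⟩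
    let E := QuadraticAlgebra F (c : F) 0
    have hfinE : Finite E := Module.finite_of_finite F
    let u : {u : Module.End F V // u * u = (c : F) • 1 + (0 : F) • u} := ⟨((g : V ≃ₗ[F] V) : V →ₗ[F] V), by
      apply LinearMap.ext
      intro v
      change sa g (sa g v) = (c : F) • v + (0 : F) • sa g v
      rw [hcv, zero_smul, add_zero]⟩
    let ψ : E →ₐ[F] Module.End F V := QuadraticAlgebra.lift u
    letI hmod : Module E V := Module.compHom V ψ.toRingHom
    have hsm : ∀ (z : E) (v : V), z • v = ψ z v := fun z v => rfl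
    have htow : IsScalarTower F E V := ⟨fun a z v => by
      rw [hsm, hsm, map_smul]; rfl⟩
    let γ : E := QuadraticAlgebra.omega
    have hψ : ∀ (z : E) (v : V), z • v = z.re • v + z.im • sa g v := fun z v => rfl
    have hg : ∀ v, sa g v = γ • v := fun v => by
      rw [hψ]
      change sa g v = (0 : F) • v + (1 : F) • sa g v
      rw [zero_smul, one_smul, zero_add]
    have hγ : γ * γ = algebraMap F E c := by
      have := QuadraticAlgebra.omega_mul_omega_eq_algebraMap (R := F) (a := (c : F)) (b := 0)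
      rw [map_zero, zero_mul, add_zero] at this
      exact this
    have hre : ∀ z : E, ∃ a b : F, z = algebraMap F E a + algebraMap F E b * γ := by
      rintro ⟨x, y⟩
      exact ⟨x, y, by rw [QuadraticAlgebra.mk_eq_add_smul_omega, Algebra.smul_def]⟩
    have hun : ∀ a b : F, algebraMap F E a + algebraMap F E b * γ = 0 → a = 0 ∧ b = 0 := by
      intro a b hab
      have h1 : (⟨a, b⟩ : E) = 0 := by rw [QuadraticAlgebra.mk_eq_add_smul_omega, Algebra.smul_def]; exact hab
      exact ⟨congrArg QuadraticAlgebra.re h1, congrArg QuadraticAlgebra.im h1⟩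
    have hdimE : 2 * finrank E V = finrank F V := by
      rw [← Module.finrank_mul_finrank F E V, QuadraticAlgebra.finrank_eq_two]
    have hdet : LinearMap.det (((g : V ≃ₗ[F] V)) : V →ₗ[F] V) = (-(c : F)) ^ finrank E V := by
      have h1 : (((g : V ≃ₗ[F] V)) : V →ₗ[F] V) = ((γ • LinearMap.id : V →ₗ[E] V).restrictScalars F) := by
        apply LinearMap.ext
        intro v
        exact hg v
      rw [h1, LinearMap.det_restrictScalars, LinearMap.det_smul, LinearMap.det_id, mul_one, map_pow]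
      congr 1
      have h3 := QuadraticAlgebra.det_toLinearMap_eq_norm γ
      rw [QuadraticAlgebra.norm_def] at h3
      have h4 : Algebra.norm F γ = LinearMap.det (DistribSMul.toLinearMap F E γ) := rfl
      rw [h4, h3]
      change (0 : F) * 0 + 0 * 0 * 1 - (c : F) * 1 * 1 = _
      ring
    have hn : finrank F V / 2 = finrank E V := by omega
    have hmu' : mu Q g = c ∨ mu Q g = -c := by
      have h1 := congrArg Units.val hmu2
      rw [Units.val_mul, Units.val_mul] at h1
      rcases mul_self_eq_mul_self_iff.1 h1 with h3 | h3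
      · left; exact Units.ext h3
      · right; exact Units.ext (by rw [h3, Units.val_neg])
    rcases hmu' with hm | hm
    · have hodd : Odd (finrank E V) := by
        by_contra hcon
        rw [Nat.not_odd_iff_even] at hcon
        apply hsg1
        rw [sg_odd_iff h2, uu_apply, div_eq_one]
        apply Units.ext
        rw [LinearEquiv.coe_det, hdet, hn, hm, Units.val_pow_eq_pow_val, hcon.neg_pow]
      exact core_ext hγ hre hun hg (fun v => by rw [mu_spec, hm]) hall h2 hodd (by
        obtain ⟨k, hk⟩ := hodd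
        omega) hN hNc hnorm
    · exfalso
      apply hsg1
      rw [sg_odd_iff h2, uu_apply, div_eq_one]
      apply Units.ext
      rw [LinearEquiv.coe_det, hdet, hn, hm, Units.val_pow_eq_pow_val, Units.val_neg]

end main

end Cfsg.Agent.AutO
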