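import Cfsg.Agent.AutO.Bal5

/-!
Balance failure for `PΩ⁻`.
-/

set_option autoImplicit false

namespace Cfsg.Agent.AutO

open QuadraticMap Cfsg.Agent.ClassO Cfsg.Agent.AutLie Module
open Cfsg.Agent.Orth hiding map_mul two_ne_zero_of_odd

section tr
variable {X Y : Type*} [Group X] [Group Y]

theorem map_inf_cent (e : X ≃* Y) (A : Subgroup X) (x : X) :
    (A ⊓ Subgroup.centralizer {x}).map e.toMonoidHom = A.map e.toMonoidHom ⊓ Subgroup.centralizer {e x} := by
  ext y
  constructor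
  · rintro ⟨z, hz, rfl⟩
    refine ⟨⟨z, hz.1, rfl⟩, Subgroup.mem_centralizer_singleton_iff.2 ?_⟩
    have := Subgroup.mem_centralizer_singleton_iff.1 hz.2
    change e z * e x = e x * e z
    rw [← map_mul, this, map_mul]
  · rintro ⟨⟨z, hz, rfl⟩, hy⟩
    refine ⟨z, ⟨hz, Subgroup.mem_centralizer_singleton_iff.2 (e.injective ?_)⟩, rfl⟩
    have := Subgroup.mem_centralizer_singleton_iff.1 hy
    rw [map_mul, map_mul]
    exact this

theorem card_eqLocus_congr (e : X ≃* Y) (x : MulAut X) :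
    Nat.card ↥(MonoidHom.eqLocus x.toMonoidHom (MonoidHom.id X)) =
      Nat.card ↥(MonoidHom.eqLocus (MulAut.congr e x).toMonoidHom (MonoidHom.id Y)) := by
  refine Nat.card_congr ⟨fun z => ⟨e z, ?_⟩, fun z => ⟨e.symm z, ?_⟩, fun z => ?_, fun z => ?_⟩
  · change e (x (e.symm (e z))) = e z
    rw [e.symm_apply_apply, show x (z : X) = z from z.2]
  · change x (e.symm z) = e.symm z
    rw [MulEquiv.eq_symm_apply]
    exact z.2
  · exact Subtype.ext (e.symm_apply_apply _)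
  · exact Subtype.ext (e.apply_symm_apply _)

theorem congr_chain_symm {A A' B B' : Type*} [Group A] [Group A'] [Group B] [Group B'] (pA : A ≃* B) (pA' : A' ≃* B')
    (t : B' ≃* B) (x : MulAut A) :
    MulAut.congr t (MulAut.congr pA' (((pA.trans (t.symm.trans pA'.symm)).symm.trans x).trans (pA.trans (t.symm.trans pA'.symm)))) =
      MulAut.congr pA x := by
  apply MulEquiv.ext
  intro y
  change t (pA' (pA'.symm (t.symm (pA (x (pA.symm (t (pA' (pA'.symm (t.symm y)))))))))) = pA (x (pA.symm y))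
  rw [MulEquiv.apply_symm_apply, MulEquiv.apply_symm_apply, MulEquiv.apply_symm_apply, MulEquiv.apply_symm_apply]

end tr

section good
variable {F V : Type*} [Field F] [Finite F] [AddCommGroup V] [Module F V] [FiniteDimensional F V] {Q : QuadraticForm F V}
  [hG : EvG Q]

theorem hasCore_two (hall : ∀ α : MulAut (T Q), ∃ f : GamO Q, α = cO Q f) (h2 : (2 : F) ≠ 0) {g : SimG Q} (hsg : sg Q g ≠ 1)
    {p : ℕ} (hp : p.Prime) (hord : orderOf (dO Q g) = p) (A : Subgroup (MulAut (T Q))) (hA : Cfsg.Inn (T Q) ≤ A) :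
    ¬ HasCore p (A ⊓ Subgroup.centralizer {dO Q g}) := by
  have hg1 : sg Q g = -1 := units_int_ne_one hsg
  have hgp : dO Q g ^ p = 1 := by rw [← hord, pow_orderOf_eq_one]
  have hp2 : p = 2 := by
    rcases hp.eq_two_or_odd' with h | h
    · exact h
    · exfalso
      rw [← map_pow] at hgp
      obtain ⟨c, hc⟩ := (dO_eq_one_iff _).1 hgp
      have h1 := congrArg (sg Q) hc
      rw [map_pow, sg_sc, hg1, h.neg_one_pow] at h1
      exact absurd h1 (by decide)
  subst hp2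
  rintro ⟨N, hNB, hn, hc, hne⟩
  apply hne
  refine core_two hall h2 hg1 (by rw [← pow_two, hgp]) ?_ (hNB.trans inf_le_right) (fun b hb => hn b ⟨hA hb.1, hb.2⟩)
  exact Nat.coprime_two_right.1 hc

end good

section fld
variable {F : Type*} [Field F] [Fintype F] {m : ℕ} {a b : F}

theorem isFMR_of {a' b' : F} (hab' : ∀ z₁ z₂ : F, z₁ ^ 2 + a' * z₁ * z₂ + b' * z₂ ^ 2 = 0 → z₁ = 0 ∧ z₂ = 0)
    {σ : RingAut F} (hσ : σ ≠ 1) (ha' : σ a' = a') (hb' : σ b' = b')
    {f : GamO (qfMinus m F a b)} {e : ((Fin m ⊕ Fin m) ⊕ Fin 2 → F) ≃ₗ[F] ((Fin m ⊕ Fin m) ⊕ Fin 2 → F)} {d : Fˣ}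
    (h : IsFm σ (qfMinus m F a' b') (qfMinus m F a b) f e d) {x : MulAut (Cfsg.POmega F ⇑(qfMinus m F a b))}
    (hx : aE _ x = cO _ f) : IsFMR (fun a b => ⇑(qfMinus m F a b)) a b x := by
  have hstd : ∀ v, qfMinus m F a' b' (fun i => σ (v i)) = σ (qfMinus m F a' b' v) := by
    intro v
    rw [qfMinus_apply, qfMinus_apply]
    simp only [map_add, map_mul, map_sum, map_pow, ha', hb']
  obtain ⟨f', hf'⟩ := exists_gam (Q := qfMinus m F a' b') (1 : GL _ F) σ ⟨1, fun v => by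
    rw [Units.val_one, Matrix.one_mulVec, hstd, Units.val_one, one_mul]⟩
  have hff : trG e d h.q f' = f := by
    apply gam_ext
    intro v
    obtain ⟨w, rfl⟩ := e.surjective v
    rw [trG_apply, h.f, hf', Units.val_one, Matrix.one_mulVec]
  let t := TT e d h.q
  let ψ : Cfsg.POmega F ⇑(qfMinus m F a b) ≃* Cfsg.POmega F ⇑(qfMinus m F a' b') :=
    (pomE (qfMinus m F a b)).trans (t.symm.trans (pomE (qfMinus m F a' b')).symm)
  refine ⟨a', b', ψ, σ, hab', hσ, ha', hb', ?_⟩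
  have h1 : aE (qfMinus m F a' b') ((ψ.symm.trans x).trans ψ) = cO _ f' := by
    apply (MulAut.congr t).injective
    rw [congr_TT, hff, ← hx]
    exact congr_chain_symm _ _ _ _
  have h3 := (induced_iff f' (1 : GL _ F) σ hf' _).2 h1
  intro s s' hs
  refine h3 s s' ?_
  rw [hs, inv_one, Units.val_one, one_mul, mul_one]

set_option maxHeartbeats 1600000 in
theorem row_bal_minus {r : ℕ} [Fact r.Prime] [CharP F r] (hm : 3 ≤ m)
    (hab : ∀ z₁ z₂ : F, z₁ ^ 2 + a * z₁ * z₂ + b * z₂ ^ 2 = 0 → z₁ = 0 ∧ z₂ = 0)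
    (hall : ∀ α : MulAut (T (qfMinus m F a b)), ∃ f : GamO (qfMinus m F a b), α = cO _ f)
    (A : Subgroup (MulAut (Cfsg.POmega F ⇑(qfMinus m F a b))))
    (hinn : ∀ k : Cfsg.POmega F ⇑(qfMinus m F a b), MulAut.conj k ∈ A) {p : ℕ} (hp : p.Prime) (hpr : p ≠ r)
    (x : MulAut (Cfsg.POmega F ⇑(qfMinus m F a b))) (hord : orderOf x = p)
    (hnot : ¬ ∃ g : Matrix.GeneralLinearGroup ((Fin m ⊕ Fin m) ⊕ Fin 2) F,
      g ∈ Cfsg.Geo.quadSimilarityGroup (F := F) ⇑(qfMinus m F a b) ∧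
      Cfsg.PreservesSingularClassesMinus m a b (g : Matrix ((Fin m ⊕ Fin m) ⊕ Fin 2) ((Fin m ⊕ Fin m) ⊕ Fin 2) F) ∧
      Cfsg.IsInducedBySemilinearPOmega ⇑(qfMinus m F a b) g (RingEquiv.refl F) x) :
    Cfsg.pPrimeCore p ↥(A ⊓ Subgroup.centralizer {x}) ≠ ⊥ ↔ (IsFMR (fun a b => ⇑(qfMinus m F a b)) a b x ∧
      Nat.Coprime p (Nat.card ↥(MonoidHom.eqLocus x.toMonoidHom (MonoidHom.id (Cfsg.POmega F ⇑(qfMinus m F a b)))))) := by
  have hd := disc_ne_zero_of_aniso hab
  have hG : EvG (qfMinus m F a b) := evG_minus hm hd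
  rw [hasCore_iff, ← hasCore_map p (aE (qfMinus m F a b)), map_inf_cent, card_eqLocus_congr (pomE (qfMinus m F a b)) x]
  have hA : Cfsg.Inn (T (qfMinus m F a b)) ≤ A.map (aE (qfMinus m F a b)).toMonoidHom := by
    rw [← inn_map_congr (pomE (qfMinus m F a b))]
    apply Subgroup.map_mono
    rintro _ ⟨k, rfl⟩
    exact hinn k
  have hxo : orderOf (aE (qfMinus m F a b) x) = p := by rw [orderOf_aE, hord]
  generalize hB : A.map (aE (qfMinus m F a b)).toMonoidHom = B at hA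
  obtain ⟨y1, y2, hy12⟩ := exists_noncomm_T (Q := qfMinus m F a b)
  rw [show MulAut.congr (pomE (qfMinus m F a b)) x = aE (qfMinus m F a b) x from rfl,
    card_fixed (fun y hy => centerless_of_simple simple_T hy12 y hy)]
  obtain ⟨f0, hf0x⟩ := hall (aE (qfMinus m F a b) x)
  obtain ⟨σ, c0, hf0⟩ := f0.2
  by_cases hσ : σ = 1
  · subst hσ
    obtain ⟨g, hg, hgq⟩ := exists_toGam hf0
    have hxg : aE (qfMinus m F a b) x = dO _ g := by rw [hf0x, hg]; rfl
    have hsg : sg _ g ≠ 1 := by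
      intro hsg
      apply hnot
      obtain ⟨g', hg', hgk⟩ := exists_matOf g
      exact ⟨g', hg', (pscM_iff hm hab hgk).2 hsg, (inducedSim_iff hgk x).2 hxg⟩
    have h2 : (2 : F) ≠ 0 := by
      intro h2
      -- `p = 2`
      have hr2 : r = 2 := by
        have h1 := (CharP.cast_eq_zero_iff F r 2).1 (by exact_mod_cast h2)
        exact (Nat.prime_dvd_prime_iff_eq (Fact.out : r.Prime) Nat.prime_two).1 h1
      have hgp : dO _ g ^ p = 1 := by rw [← hxg, ← hxo, pow_orderOf_eq_one]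
      rcases hp.eq_two_or_odd' with h | h
      · exact hpr (h.trans hr2.symm)
      · rw [← map_pow] at hgp
        obtain ⟨c, hc⟩ := (dO_eq_one_iff _).1 hgp
        have h1 := congrArg (sg _) hc
        rw [map_pow, sg_sc, units_int_ne_one hsg, h.neg_one_pow] at h1
        exact absurd h1 (by decide)
    rw [hxg] at hxo ⊢
    refine ⟨fun h => absurd h (hasCore_two hall h2 hsg hp hxo B hA), fun h => ?_⟩
    exfalso
    obtain ⟨f1, τ, c1, hτ, h1, h3⟩ := minus_f0 hab hall h.1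
    rw [hxg] at h1
    have h4 : cO _ (f1 * (toGam _ g)⁻¹) = 1 := by
      rw [map_mul, map_inv, ← h1, mul_inv_eq_one]; rfl
    obtain ⟨s, hs⟩ := (cO_eq_one_iff _).1 h4
    have h5 : f1 = scl _ s * toGam _ g := by rw [← hs, inv_mul_cancel_right]
    obtain ⟨c2, hc2⟩ := semi_scl_mul s (isSemi_toGam hgq)
    rw [← h5] at hc2
    exact hτ (IsSemi.uniq h3 hc2 (Module.nontrivial_of_finrank_pos (R := F) (by have := hG.dim; omega)))
  · have hx2' : (cO (qfMinus m F a b) f0) ^ p = 1 := by rw [← hf0x, ← hxo, pow_orderOf_eq_one]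
    have hordσ : orderOf σ = p := orderOf_of_prime hf0 hσ hp hx2'
    obtain ⟨b0, hb0⟩ := AutO.exists_adjust hf0 (by rw [hordσ]; exact hx2')
    obtain ⟨c0', hf0'⟩ := semi_scl_mul b0 hf0
    have h1' : aE _ x = cO _ (scl _ b0 * f0) := by rw [map_mul, cO_scl, one_mul, hf0x]
    obtain ⟨⟨n, hn0⟩, _, hF⟩ := FiniteField.card F r
    have hF' : Fintype.card F = r ^ n := hF
    have hrf : p ∣ n := hordσ ▸ AutLie.orderOf_ringAut_dvd hF' σ
    have hnp : n / p ≠ 0 := (Nat.div_pos (Nat.le_of_dvd hn0 hrf) hp.pos).ne'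
    let K := GaloisField r (n / p)
    have hfinK : Fintype K := Fintype.ofFinite K
    have hKc : Fintype.card K = r ^ (n / p) := by
      rw [← Nat.card_eq_fintype_card]; exact GaloisField.card r (n / p) hnp
    obtain ⟨j, hj⟩ := AutLie.exists_embedding hF' σ K (by rw [hordσ]; exact hKc)
    have hcard : Fintype.card F = Fintype.card K ^ p := by
      rw [hF', hKc, ← pow_mul, Nat.div_mul_cancel hrf]
    obtain ⟨ζ, hζ⟩ := exists_zeta K
    obtain ⟨e, d, h⟩ := fm_minus j hj hζ hab hf0' hb0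
    have hodd : Odd p := by
      rcases hp.eq_two_or_odd' with h5 | h5
      · exfalso
        subst h5
        obtain ⟨ρ, hρ⟩ := exists_rho hζ j hcard
        have hU : TS (qfMinus m F a b) ((Urho m ρ).map (e : ((Fin m ⊕ Fin m) ⊕ Fin 2 → F) →ₗ[F] _)) := by
          rintro _ ⟨u, hu, rfl⟩
          change qfMinus m F a b (e u) = 0
          rw [h.q, TS_Urho hρ u hu, mul_zero]
        have h6 := hU.finrank_le_minus hd hab
        rw [LinearEquiv.finrank_map_eq, finrank_Urho] at h6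
        omega
      · exact h5
    have hdK := disc_ne_zero_of_aniso (aniso_of_root hζ)
    have hG0 : EvG (qfMinus m K 1 ζ) := evG_minus hm hdK
    have hGS : EvG (qfMinus m F (j 1) (j ζ)) := evG_minus hm (disc_bc j hdK)
    have hkey := bal_field hj (isBC_minus j m 1 ζ) h hall hp hodd (by rw [← h1', hxo]) hcard B hA
    rw [← h1'] at hkey
    rw [hkey, Nat.coprime_comm]
    refine ⟨fun h5 => ⟨?_, h5⟩, fun h5 => h5.2⟩
    refine isFMR_of (a' := j 1) (b' := j ζ) ?_ hσ (fix_j j hj _) (fix_j j hj _) h h1'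
    -- anisotropy over `F`
    intro z₁ z₂ hz
    have hz2 : z₂ = 0 := by
      by_contra hz2
      have hρ : (-z₁ / z₂) ^ 2 - j 1 * (-z₁ / z₂) + j ζ = 0 := by
        field_simp
        linear_combination hz
      have hU : TS (qfMinus m F a b) ((Urho m (-z₁ / z₂)).map (e : ((Fin m ⊕ Fin m) ⊕ Fin 2 → F) →ₗ[F] _)) := by
        rintro _ ⟨u, hu, rfl⟩
        change qfMinus m F a b (e u) = 0
        rw [h.q, TS_Urho hρ u hu, mul_zero]
      have h6 := hU.finrank_le_minus hd hab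
      rw [LinearEquiv.finrank_map_eq, finrank_Urho] at h6
      omega
    subst hz2
    refine ⟨?_, rfl⟩
    have : z₁ ^ 2 = 0 := by linear_combination hz
    exact pow_eq_zero_iff (two_ne_zero) |>.1 this

end fld

end Cfsg.Agent.AutO
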