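import Cfsg.Agent.AutO.Transp
import Cfsg.Agent.AutO.Cent
import Cfsg.Agent.OAut.OutC

/-!
Counting the classes of similarities of sign one in a class of semisimilarities.
-/

set_option autoImplicit false

namespace Cfsg.Agent.AutO

open QuadraticMap Cfsg.Agent.ClassO Cfsg.Agent.AutLie Module
open Cfsg.Agent.Orth hiding map_mul two_ne_zero_of_odd

section base
variable {F V : Type*} [Field F] [Finite F] [AddCommGroup V] [Module F V] [FiniteDimensional F V] {Q : QuadraticForm F V}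
  [hG : EvG Q] {f : GamO Q}

theorem om_mem_sg (t : Om Q) : ofS Q t ∈ (sg Q).ker := by
  rw [MonoidHom.mem_ker, sg_ofS]
  exact ((mem_commutator_iff_homs hG.nd hG.rg (t : OGrp Q)).1 t.2).1

/-- the subgroup controlling the splitting -/
noncomputable abbrev spS (f : GamO Q) : Subgroup ↥(sg Q).ker := splR ((dO Q).comp (sg Q).ker.subtype) (Cfsg.Inn (T Q)) (cO Q f)

theorem count_index (f : GamO Q) :
    Cfsg.splitClassCount ((sg Q).ker.map (dO Q)) (Cfsg.Inn (T Q)) (cO Q f) = (spS f).index := by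
  have hN : (Cfsg.Inn (T Q)).Normal := AutPSL.normal_inn
  refine splitClassCount_eq_index' ((dO Q).comp (sg Q).ker.subtype) _ _ (by rw [MonoidHom.range_comp, Subgroup.range_subtype]) ?_ _
  rintro _ ⟨x, rfl⟩
  obtain ⟨t, rfl⟩ := mk_surjective _ x
  exact ⟨ofS _ t, om_mem_sg t, by
    change cO _ (toGam _ _) = _
    rw [toGam_ofS, cO_ofO]⟩

theorem mem_spS_of {g : ↥(sg Q).ker} {b : Fˣ} {k : OGrp Q} (hg : (g : SimG Q) = sc _ b * ofS _ k)
    (h1 : parityHom hG.nd hG.rg k = 1) (h2 : spinHom hG.nd hG.rg k = 1) : g ∈ spS f := by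
  have hN : (Cfsg.Inn (T Q)).Normal := AutPSL.normal_inn
  obtain ⟨t, ht⟩ := exists_om hG.nd hG.rg h1 h2
  exact (mem_splR _ _ _ _).2 ⟨1, g, by rw [map_one, one_mul, mul_one], (dO_mem_inn _).2 ⟨b, t, by rw [ht]; exact hg⟩, (one_mul _).symm⟩

omit [Finite F] in
theorem sqc_mul_of_ns {a b : F} [Fintype F] (ha : ¬ IsSquare a) (hb : ¬ IsSquare b) : IsSquare (a * b) := by
  have ha0 : a ≠ 0 := by rintro rfl; exact ha IsSquare.zero
  have hb0 : b ≠ 0 := by rintro rfl; exact hb IsSquare.zero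
  have h1 := sqc_mul ha0 hb0
  rw [show sqc a = -1 from if_neg ha, show sqc b = -1 from if_neg hb] at h1
  by_contra h
  rw [show sqc (a * b) = -1 from if_neg h] at h1
  exact absurd h1 (by decide)

theorem spin_two (h2 : (2 : F) = 0) (k : OGrp Q) : spinHom hG.nd hG.rg k = 1 := by
  have h : spinHom hG.nd hG.rg = 1 := by
    apply hom_ext_refl hG.rg
    intro v hv
    rw [spinHom_refl, sqc, if_pos]
    · rfl
    · exact ⟨rt h2 (Units.mk0 _ hv), by rw [← pow_two, ← Units.val_pow_eq_pow_val, rt_sq]; rfl⟩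
  rw [h]; rfl

omit [Finite F] [FiniteDimensional F V] hG in
theorem sc_ofS_mul (b b' : Fˣ) (k k' : OGrp Q) : (sc Q b * ofS Q k) * (sc Q b' * ofS Q k') = sc Q (b * b') * ofS Q (k * k') := by
  rw [map_mul, map_mul, mul_assoc, ← mul_assoc (ofS Q k), sc_comm]
  simp only [mul_assoc]

omit [Finite F] [FiniteDimensional F V] hG in
theorem sc_ofS_inv (b : Fˣ) (k : OGrp Q) : (sc Q b * ofS Q k)⁻¹ = sc Q b⁻¹ * ofS Q k⁻¹ := by
  rw [inv_eq_iff_mul_eq_one, sc_ofS_mul, mul_inv_cancel, mul_inv_cancel, map_one, map_one, one_mul]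

/-- uniqueness of the spinor norm in the normal form -/
theorem spin_uniq {n1 : OGrp Q} (hn1 : ofS Q n1 = sc Q (-1)) (hn : spinHom hG.nd hG.rg n1 = 1) {b b' : Fˣ} {k k' : OGrp Q}
    (h : sc Q b * ofS Q k = sc Q b' * ofS Q k') : spinHom hG.nd hG.rg k = spinHom hG.nd hG.rg k' := by
  have h3 : sc Q (b'⁻¹ * b) = ofS _ (k' * k⁻¹) := by
    rw [map_mul, map_mul, map_inv, map_inv, inv_mul_eq_iff_eq_mul, ← mul_assoc, ← h, mul_inv_cancel_right]
  have h4 : (b'⁻¹ * b) ^ 2 = 1 := by rw [← mu_sc (Q := Q), h3, mu_ofS]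
  have h5 : ((b'⁻¹ * b : Fˣ) : F) = 1 ∨ ((b'⁻¹ * b : Fˣ) : F) = -1 := by
    have := congrArg Units.val h4
    rw [Units.val_pow_eq_pow_val, Units.val_one, pow_two] at this
    exact mul_self_eq_one_iff.1 this
  rcases h5 with h5 | h5
  · rw [show b'⁻¹ * b = 1 from Units.ext h5, map_one, ← map_one (ofS Q)] at h3
    have h6 := ofS_injective Q h3
    rw [mul_inv_eq_one.1 h6.symm]
  · rw [show b'⁻¹ * b = -1 from Units.ext h5, ← hn1] at h3
    have h6 := ofS_injective Q h3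
    have h7 : k' = n1 * k := by rw [h6, inv_mul_cancel_right]
    rw [h7, map_mul, hn, one_mul]

end base

section cnt
variable {K F V : Type*} [Field K] [Fintype K] [Field F] [Fintype F] [AddCommGroup V] [Module F V] [FiniteDimensional F V]
  {κ : Type*} [Fintype κ] [DecidableEq κ] {j : K →+* F} {σ : RingAut F} (hj : ∀ x, σ x = x ↔ x ∈ Set.range j)
  {S0 : QuadraticForm K (κ → K)} {S : QuadraticForm F (κ → F)} (hS : IsBC j S0 S)
  {Q : QuadraticForm F V} {f : GamO Q} {e : (κ → F) ≃ₗ[F] V} {d : Fˣ} (h : IsFm σ S Q f e d)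
  [hG : EvG Q] [hG0 : EvG S0] [hGS : EvG S]

omit [Fintype K] [Fintype F] in
theorem sg_EE [Finite K] [Finite F] (g : SimG S0) : sg Q (EE hS h g) = sg S0 g := by
  change sg Q (trS e d h.q (extS hS g)) = _
  rw [sg_trS, sg_extS]

omit [Fintype K] [Fintype F] in
theorem mu_EE (g : SimG S0) : mu Q (EE hS h g) = Units.map (j : K →* F) (mu S0 g) := by
  change mu Q (trS e d h.q (extS hS g)) = _
  rw [mu_trS, mu_extS]

omit [Fintype K] [Fintype F] in
theorem parity_EE [Finite K] [Finite F] (k : OGrp S0) :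
    parityHom hG.nd hG.rg (trO e d h.q (extO hS k)) = parityHom hG0.nd hG0.rg k := by
  rw [parity_trO, parity_extO]

theorem spin_EE (hsq : ∀ x : K, IsSquare x ↔ IsSquare (j x)) {k : OGrp S0} (hk : parityHom hG0.nd hG0.rg k = 1) :
    spinHom hG.nd hG.rg (trO e d h.q (extO hS k)) = spinHom hG0.nd hG0.rg k := by
  rw [spin_trO e d h.q (by rw [parity_extO, hk]), spin_extO hS hsq]

theorem spin_EE_one (hsq : ∀ x : K, IsSquare (j x)) {k : OGrp S0} (hk : parityHom hG0.nd hG0.rg k = 1) :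
    spinHom hG.nd hG.rg (trO e d h.q (extO hS k)) = 1 := by
  rw [spin_trO e d h.q (by rw [parity_extO, hk]), spin_extO_one hS hsq]

include hj in
theorem EE_mem_spS {g0 : SimG S0} (hg0 : EE hS h g0 ∈ (sg Q).ker) : (⟨EE hS h g0, hg0⟩ : ↥(sg Q).ker) ∈ spS f := by
  have hN : (Cfsg.Inn (T Q)).Normal := AutPSL.normal_inn
  refine (mem_splR _ _ _ _).2 ⟨⟨EE hS h g0, hg0⟩, 1, ?_, by rw [map_one]; exact one_mem _, (mul_one _).symm⟩
  change cO Q (toGam Q (EE hS h g0)) * cO Q f = cO Q f * cO Q (toGam Q (EE hS h g0))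
  rw [← map_mul, ← map_mul, EE_comm hj hS h]

include hj hS h in
/-- the class does not split -/
theorem count_one {r : ℕ} (hr : Odd r ∨ (2 : F) = 0) (hc : Fintype.card F = Fintype.card K ^ r)
    (hex : (2 : K) ≠ 0 → ∃ G0 : SimG S0, sg S0 G0 = 1 ∧ ¬ IsSquare ((mu S0 G0 : Kˣ) : K)) :
    Cfsg.splitClassCount ((sg Q).ker.map (dO Q)) (Cfsg.Inn (T Q)) (cO Q f) = 1 := by
  rw [count_index, Subgroup.index_eq_one, eq_top_iff]
  have hdim0 := hG0.dim
  have claim1 : ∀ g : ↥(sg Q).ker, IsSquare ((mu Q g : Fˣ) : F) → g ∈ spS f := by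
    intro g hg
    obtain ⟨b, k, hk, hk1⟩ := nf_sq g.2 hg
    by_cases hs : spinHom hG.nd hG.rg k = 1
    · exact mem_spS_of hk hk1 hs
    · have h2 : (2 : F) ≠ 0 := fun h2 => hs (spin_two h2 k)
      have hr' : Odd r := hr.resolve_right h2
      have h2K : (2 : K) ≠ 0 := fun h => h2 ((two_bc j).2 h)
      obtain ⟨k0, hk0, hk0'⟩ := exists_spin_neg h2K hG0.nd hG0.rg (by omega)
      have h5 := (parity_EE hS h k0).trans hk0
      have h6 := (spin_EE hS h (isSquare_ext_odd j hr' hc) hk0).trans hk0'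
      have hmem : EE hS h (ofS _ k0) ∈ (sg Q).ker := by rw [MonoidHom.mem_ker, EE_ofS, sg_ofS]; exact h5
      have h8 : (⟨EE hS h (ofS _ k0), hmem⟩ : ↥(sg Q).ker)⁻¹ * g ∈ spS f := by
        refine mem_spS_of (b := b) (k := (trO e d h.q (extO hS k0))⁻¹ * k) ?_
          (by rw [map_mul, map_inv, h5, hk1]; rfl) (by rw [map_mul, map_inv, h6, units_int_ne_one hs]; rfl)
        rw [Subgroup.coe_mul, hk, map_mul, map_inv, ← mul_assoc, ← mul_assoc, ← sc_comm]
        congr 2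
        change (EE hS h (ofS _ k0))⁻¹ = _
        rw [EE_ofS]
      have h9 := (spS f).mul_mem (EE_mem_spS hj hS h hmem) h8
      rwa [mul_inv_cancel_left] at h9
  intro g _
  by_cases hs : IsSquare ((mu Q g : Fˣ) : F)
  · exact claim1 g hs
  · have h2 : (2 : F) ≠ 0 := fun h2 => hs ⟨rt h2 (mu Q g), by rw [← pow_two, ← Units.val_pow_eq_pow_val, rt_sq]⟩
    have hr' : Odd r := hr.resolve_right h2
    have h2K : (2 : K) ≠ 0 := fun h => h2 ((two_bc j).2 h)
    obtain ⟨G0, hG1, hG2⟩ := hex h2K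
    have hmem : EE hS h G0 ∈ (sg Q).ker := by rw [MonoidHom.mem_ker, sg_EE, hG1]
    have h8 : (⟨EE hS h G0, hmem⟩ : ↥(sg Q).ker)⁻¹ * g ∈ spS f := by
      apply claim1
      change IsSquare ((mu Q ((EE hS h G0)⁻¹ * g) : Fˣ) : F)
      rw [map_mul, map_inv, mu_EE, Units.val_mul]
      refine sqc_mul_of_ns ?_ hs
      rw [Units.val_inv_eq_inv_val, isSquare_inv]
      exact fun h => hG2 ((isSquare_ext_odd j hr' hc _).2 h)
    have h9 := (spS f).mul_mem (EE_mem_spS hj hS h hmem) h8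
    rwa [mul_inv_cancel_left] at h9

omit [Fintype K] in
include hS h in
theorem exists_n1 [Finite K] (hsq : ∀ x : K, IsSquare (j x)) :
    ∃ n1 : OGrp Q, ofS Q n1 = sc Q (-1) ∧ spinHom hG.nd hG.rg n1 = 1 := by
  have := Fintype.ofFinite K
  obtain ⟨n0, hn0⟩ := exists_ofS (g := sc S0 (-1)) (by rw [mu_sc, neg_one_sq])
  have h1 : parityHom hG0.nd hG0.rg n0 = 1 := by rw [← sg_ofS, ← hn0, sg_sc]
  refine ⟨trO e d h.q (extO hS n0), ?_, spin_EE_one hS h hsq h1⟩
  rw [← EE_ofS hS h, ← hn0, EE_sc]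
  congr 1
  exact Units.ext (by rw [Units.coe_map, Units.val_neg, Units.val_one]; simp)

include hj hS h in
/-- the class splits into two or four -/
theorem count_two (h2 : (2 : F) ≠ 0) (hc : Fintype.card F = Fintype.card K ^ 2)
    (hex : ∃ a : SimG Q, sg Q a = 1 ∧ ¬ IsSquare ((mu Q a : Fˣ) : F)) {G0 : SimG S0} (hG1 : sg S0 G0 = 1)
    (hG2 : ¬ IsSquare ((mu S0 G0 : Kˣ) : K)) {b1 : Fˣ} {k1 : OGrp Q} (hk1 : EE hS h G0 = sc Q b1 * ofS Q k1) :
    (spinHom hG.nd hG.rg k1 = 1 →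
      Cfsg.splitClassCount ((sg Q).ker.map (dO Q)) (Cfsg.Inn (T Q)) (cO Q f) = 4) ∧
    (spinHom hG.nd hG.rg k1 = -1 →
      Cfsg.splitClassCount ((sg Q).ker.map (dO Q)) (Cfsg.Inn (T Q)) (cO Q f) = 2) := by
  have hdim := hG.dim
  have hsq := isSquare_ext_two j hc
  obtain ⟨n1, hn1, hn1'⟩ := exists_n1 hS h hsq
  have hmem : EE hS h G0 ∈ (sg Q).ker := by rw [MonoidHom.mem_ker, sg_EE, hG1]
  have hk1p : parityHom hG.nd hG.rg k1 = 1 := by
    have h3 := MonoidHom.mem_ker.1 hmem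
    rw [hk1, map_mul, sg_sc, one_mul, sg_ofS] at h3
    exact h3
  obtain ⟨a, ha1, ha2⟩ := hex
  let χ : ↥(sg Q).ker →* ℤˣ := ((OAut.sqU F).comp (mu Q)).comp (sg Q).ker.subtype
  have hχ1 : ∀ g : ↥(sg Q).ker, χ g = 1 ↔ IsSquare ((mu Q g : Fˣ) : F) := by
    intro g
    change sqc ((mu Q g : Fˣ) : F) = 1 ↔ _
    unfold sqc
    split_ifs with h3
    · exact ⟨fun _ => h3, fun _ => rfl⟩
    · exact ⟨fun h4 => absurd h4 (by decide), fun h4 => absurd h4 h3⟩
  have hχ : ∃ a : ↥(sg Q).ker, χ a = -1 := ⟨⟨a, ha1⟩, units_int_ne_one fun h3 => ha2 ((hχ1 _).1 h3)⟩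
  have hR : spS f ≤ χ.ker := by
    intro g hg
    obtain ⟨g0, b, t, hgg⟩ := (mem_splR_iff hj hS h (sg Q).ker (fun c => sg_sc c) om_mem_sg g).1 hg
    rw [MonoidHom.mem_ker, hχ1, hgg, map_mul, map_mul, mu_EE, mu_sc, mu_ofS, mul_one, Units.val_mul,
      Units.val_pow_eq_pow_val]
    exact (hsq _).mul ⟨b, pow_two _⟩
  -- elements of the form `EE g0`
  have hEE0 : ∀ g0 : SimG S0, sg S0 g0 = 1 → IsSquare ((mu S0 g0 : Kˣ) : K) →
      ∃ (b : Fˣ) (k : OGrp Q), EE hS h g0 = sc Q b * ofS Q k ∧ spinHom hG.nd hG.rg k = 1 := by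
    intro g0 h3 h4
    obtain ⟨b0, k0, hk0, hk0'⟩ := nf_sq h3 h4
    exact ⟨_, _, by rw [hk0, map_mul, EE_sc, EE_ofS], spin_EE_one hS h hsq hk0'⟩
  constructor
  · intro hs
    rw [count_index]
    obtain ⟨z, hz1, hz2⟩ := exists_spin_neg h2 hG.nd hG.rg (by omega)
    have hzm : ofS Q z ∈ (sg Q).ker := by rw [MonoidHom.mem_ker, sg_ofS, hz1]
    refine index_four χ hχ _ hR ⟨ofS Q z, hzm⟩ ?_ ?_ ?_
    · rw [hχ1]
      change IsSquare ((mu Q (ofS Q z) : Fˣ) : F)
      rw [mu_ofS]; exact IsSquare.one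
    · intro hm
      obtain ⟨g0, b, t, hgg⟩ := (mem_splR_iff hj hS h (sg Q).ker (fun c => sg_sc c) om_mem_sg _).1 hm
      have hgg' : ofS Q z = EE hS h g0 * sc Q b * ofS Q t := hgg
      have ht := (mem_commutator_iff_homs hG.nd hG.rg (t : OGrp Q)).1 t.2
      have hsg0 : sg S0 g0 = 1 := by
        have h3 : sg Q (EE hS h g0 * sc Q b * ofS Q t) = 1 := by rw [← hgg']; exact hzm
        rw [map_mul, map_mul, sg_sc, sg_ofS, ht.1, mul_one, mul_one, sg_EE] at h3
        exact h3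
      obtain ⟨b', k', hk', hk'1⟩ : ∃ (b : Fˣ) (k : OGrp Q), EE hS h g0 = sc Q b * ofS Q k ∧ spinHom hG.nd hG.rg k = 1 := by
        by_cases h4 : IsSquare ((mu S0 g0 : Kˣ) : K)
        · exact hEE0 g0 hsg0 h4
        · obtain ⟨b2, k2, h5, h6⟩ := hEE0 (G0⁻¹ * g0) (by rw [map_mul, map_inv, hG1, hsg0]; rfl) (by
            rw [map_mul, map_inv, Units.val_mul]
            refine sqc_mul_of_ns ?_ h4
            rw [Units.val_inv_eq_inv_val, isSquare_inv]
            exact hG2)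
          refine ⟨b1 * b2, k1 * k2, ?_, by rw [map_mul, hs, h6]; rfl⟩
          have h7 : EE hS h g0 = EE hS h G0 * EE hS h (G0⁻¹ * g0) := by rw [← map_mul, mul_inv_cancel_left]
          rw [h7, hk1, h5, sc_ofS_mul]
      have h8 : sc Q 1 * ofS Q z = sc Q (b' * b) * ofS Q (k' * t) := by
        rw [map_one, one_mul, hgg', hk', map_mul, map_mul, mul_assoc (sc Q b'), sc_comm]
        simp only [mul_assoc]
      have h9 := spin_uniq hn1 hn1' h8
      rw [hz2, map_mul, hk'1, ht.2] at h9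
      exact absurd h9 (by decide)
    · intro g hg
      obtain ⟨b, k, hk, hk'⟩ := nf_sq g.2 ((hχ1 g).1 hg)
      by_cases hs' : spinHom hG.nd hG.rg k = 1
      · left; exact mem_spS_of hk hk' hs'
      · right
        refine mem_spS_of (b := b) (k := k * z) ?_ (by rw [map_mul, hk', hz1]; rfl)
          (by rw [map_mul, hz2, units_int_ne_one hs']; rfl)
        rw [Subgroup.coe_mul, hk, map_mul, mul_assoc]
  · intro hs
    rw [count_index]
    refine index_two'' χ hχ _ hR ?_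
    intro g hg
    obtain ⟨b, k, hk, hk'⟩ := nf_sq g.2 ((hχ1 g).1 hg)
    by_cases hs' : spinHom hG.nd hG.rg k = 1
    · exact mem_spS_of hk hk' hs'
    · have h8 : (⟨EE hS h G0, hmem⟩ : ↥(sg Q).ker)⁻¹ * g ∈ spS f := by
        refine mem_spS_of (b := b1⁻¹ * b) (k := k1⁻¹ * k) ?_
          (by rw [map_mul, map_inv, hk1p, hk']; rfl) (by rw [map_mul, map_inv, hs, units_int_ne_one hs']; rfl)
        change (EE hS h G0)⁻¹ * (g : SimG Q) = _
        rw [hk1, hk, sc_ofS_inv, sc_ofS_mul]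
      have h9 := (spS f).mul_mem (EE_mem_spS hj hS h hmem) h8
      rwa [mul_inv_cancel_left] at h9

end cnt

end Cfsg.Agent.AutO
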