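import Cfsg.Agent.AutO.Cnt

/-!
Spinor norms of diagonal isometries; counts for `PΩ⁺`.
-/

set_option autoImplicit false

namespace Cfsg.Agent.AutO

open QuadraticMap Cfsg.Agent.ClassO Cfsg.Agent.AutLie Module
open Cfsg.Agent.Orth hiding map_mul two_ne_zero_of_odd

section diag
variable {F V : Type*} [Field F] [AddCommGroup V] [Module F V] {Q : QuadraticForm F V}

/-- the linear map attached to a hyperbolic family -/
noncomputable def hypL {n : ℕ} (e f : Fin n → V) : (Fin n ⊕ Fin n → F) →ₗ[F] V := Fintype.linearCombination F (Sum.elim e f)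

theorem hypL_single {n : ℕ} (e f : Fin n → V) (k : Fin n ⊕ Fin n) :
    hypL (F := F) e f (Pi.single k 1) = Sum.elim e f k := by
  rw [hypL, Fintype.linearCombination_apply_single, one_smul]

theorem hypL_q {n : ℕ} {e f : Fin n → V} (h : Hyp Q e f) (v : Fin n ⊕ Fin n → F) : Q (hypL e f v) = qfPlus n F v := by
  have h1 : Q.comp (hypL (F := F) e f) = qfPlus n F := by
    refine qf_ext_basis (Pi.basisFun F _) (fun k => ?_) (fun k l => ?_)
    · rw [Pi.basisFun_apply, QuadraticMap.comp_apply, hypL_single]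
      rcases k with k | k
      · exact (h.e0 k).trans (by simp [qfPlus_apply, Pi.single_apply])
      · exact (h.f0 k).trans (by simp [qfPlus_apply, Pi.single_apply])
    · have h2 : polar (Q.comp (hypL (F := F) e f)) (Pi.basisFun F _ k) (Pi.basisFun F _ l) =
          polar Q (Sum.elim e f k) (Sum.elim e f l) := by
        rw [Pi.basisFun_apply, Pi.basisFun_apply]
        simp only [QuadraticMap.polar, QuadraticMap.comp_apply, map_add, hypL_single]
      rw [h2, Pi.basisFun_apply, Pi.basisFun_apply, polar_qfPlus]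
      rcases k with k | k <;> rcases l with l | l
      · rw [Sum.elim_inl, Sum.elim_inl, h.ee]; simp [Pi.single_apply]
      · rw [Sum.elim_inl, Sum.elim_inr, h.ef]; simp [Pi.single_apply, eq_comm]
      · rw [Sum.elim_inl, Sum.elim_inr, h.fe]; simp [Pi.single_apply, eq_comm]
      · rw [Sum.elim_inr, Sum.elim_inr, h.ff]; simp [Pi.single_apply]
  rw [← h1]; rfl

theorem hypL_injective {n : ℕ} {e f : Fin n → V} (h : Hyp Q e f) : Function.Injective (hypL (F := F) e f) := by
  rw [injective_iff_map_eq_zero]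
  intro v hv
  refine (qfPlus_nondegenerate n F).1 v fun w => ?_
  change polar (qfPlus n F) v w = 0
  have h1 : polar (qfPlus n F) v w = polar Q (hypL e f v) (hypL e f w) := by
    simp only [QuadraticMap.polar, ← map_add, hypL_q h]
  rw [h1, hv]
  simp [QuadraticMap.polar]

/-- the spinor norm of a diagonal isometry -/
theorem diag_spin [Fintype F] [FiniteDimensional F V] [hG : Good Q] {n : ℕ} (hn : finrank F V = 2 * n) {e f : Fin n → V}
    (h : Hyp Q e f) {g : OGrp Q} {t : Fin n → Fˣ} (he : ∀ i, (g : V ≃ₗ[F] V) (e i) = ((t i)⁻¹ : Fˣ) • e i)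
    (hf : ∀ i, (g : V ≃ₗ[F] V) (f i) = t i • f i) :
    parityHom hG.nd hG.rg g = 1 ∧ spinHom hG.nd hG.rg g = sqc ((∏ i, t i : Fˣ) : F) := by
  have hdim := hG.dim
  have hGS : Good (qfPlus n F) := good_plus (by omega)
  let E : (Fin n ⊕ Fin n → F) ≃ₗ[F] V := LinearMap.linearEquivOfInjective (hypL (F := F) e f) (hypL_injective h)
    (by rw [finrank_V, hn])
  have hE : ∀ v, E v = hypL e f v := fun v => rfl
  have hq : ∀ v, Q (E v) = ((1 : Fˣ) : F) * qfPlus n F v := fun v => by rw [hE, hypL_q h, Units.val_one, one_mul]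
  have hg : g = trO E 1 hq (OAut.hd n F fun i => (t i)⁻¹) := by
    apply OGrp_ext
    intro v
    obtain ⟨w, rfl⟩ := E.surjective v
    rw [trO_apply]
    have h1 : ((g : V ≃ₗ[F] V) : V →ₗ[F] V).comp (E : (Fin n ⊕ Fin n → F) →ₗ[F] V) =
        (E : (Fin n ⊕ Fin n → F) →ₗ[F] V).comp (((OAut.hd n F fun i => (t i)⁻¹ : OGrp (qfPlus n F)) :
          (Fin n ⊕ Fin n → F) ≃ₗ[F] (Fin n ⊕ Fin n → F)) : (Fin n ⊕ Fin n → F) →ₗ[F] (Fin n ⊕ Fin n → F)) := by
      refine (Pi.basisFun F _).ext fun k => ?_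
      rw [Pi.basisFun_apply]
      change (g : V ≃ₗ[F] V) (E (Pi.single k 1)) = E ((OAut.dS (fun i => (t i)⁻¹) 1).T (Pi.single k 1))
      rcases k with k | k
      · have h2 : (OAut.dS (fun i => (t i)⁻¹) 1).T (Pi.single (.inl k) (1 : F)) = ((t k)⁻¹ : Fˣ) • Pi.single (.inl k) (1 : F) := by
          funext l
          rcases l with l | l
          · rw [OAut.dS_inl]
            by_cases hl : l = k
            · subst hl; rfl
            · simp [Pi.single_apply, hl, Units.smul_def]
          · rw [OAut.dS_inr]; simp [Units.smul_def]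
        rw [h2, Units.smul_def, map_smul, hE, hypL_single, Sum.elim_inl, he]; rfl
      · have h2 : (OAut.dS (fun i => (t i)⁻¹) 1).T (Pi.single (.inr k) (1 : F)) = (t k : Fˣ) • Pi.single (.inr k) (1 : F) := by
          funext l
          rcases l with l | l
          · rw [OAut.dS_inl]; simp [Units.smul_def]
          · rw [OAut.dS_inr]
            by_cases hl : l = k
            · subst hl
              simp [Units.smul_def]
            · simp [Pi.single_apply, hl, Units.smul_def]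
        rw [h2, Units.smul_def, map_smul, hE, hypL_single, Sum.elim_inr, hf]; rfl
    exact LinearMap.congr_fun h1 w
  have hp : parityHom hGS.nd hGS.rg (OAut.hd n F fun i => (t i)⁻¹) = 1 := OAut.parity_hd _ _ _
  constructor
  · rw [hg, parity_trO, hp]
  · rw [hg, spin_trO E 1 hq hp, OAut.spin_hd]
    have h3 : (∏ i, (t i)⁻¹ : Fˣ) = (∏ i, t i)⁻¹ := by rw [Finset.prod_inv_distrib]
    rw [h3]
    have h4 : (OAut.sqU F) (∏ i, t i)⁻¹ = (OAut.sqU F) (∏ i, t i) := by
      rw [map_inv]
      rcases Int.units_eq_one_or ((OAut.sqU F) (∏ i, t i)) with h5 | h5 <;> rw [h5] <;> rfl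
    exact h4

end diag

section sqrt
variable {K F : Type*} [Field K] [Fintype K] [Field F] [Fintype F] (j : K →+* F)

/-- square roots of nonsquares of the subfield -/
theorem sqrt_ns (hc : Fintype.card F = Fintype.card K ^ 2) (h2 : (2 : F) ≠ 0) {c : K} (hc0 : ¬ IsSquare c) {b : F} (hb : b ^ 2 = j c) :
    IsSquare b ↔ Fintype.card K % 4 = 3 := by
  have h2F : ringChar F ≠ 2 := by
    intro h
    have := ringChar.charP F
    rw [h] at this
    exact h2 (by have := CharP.cast_eq_zero F 2; simpa using this)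
  have h2K : ringChar K ≠ 2 := by rwa [ringChar_ext j]
  have hcn : c ≠ 0 := by rintro rfl; exact hc0 IsSquare.zero
  have hb0 : b ≠ 0 := by
    rintro rfl
    rw [zero_pow (by norm_num)] at hb
    exact hcn (j.injective (hb.symm.trans (map_zero j).symm))
  obtain ⟨k, hk⟩ := odd_card_K j h2F
  have e1 : Fintype.card F / 2 = (2 * (Fintype.card K / 2)) * (k + 1) := by
    rw [hc, hk]
    have e1 : (2 * k + 1) / 2 = k := by omega
    have e2 : (2 * k + 1) ^ 2 = 2 * (2 * k * (k + 1)) + 1 := by ring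
    rw [e1, e2]
    omega
  have e3 : b ^ (2 * (Fintype.card K / 2)) = -1 := by
    rw [pow_mul, hb, ← map_pow]
    have h3 := FiniteField.pow_dichotomy h2K hcn
    rcases h3 with h3 | h3
    · exact absurd ((FiniteField.isSquare_iff h2K hcn).2 h3) hc0
    · rw [h3, map_neg, map_one]
  rw [FiniteField.isSquare_iff h2F hb0, e1, pow_mul, e3]
  have hne : (-1 : F) ≠ 1 := by
    intro h
    apply h2
    linear_combination -h
  rcases Nat.even_or_odd (k + 1) with h4 | h4
  · rw [h4.neg_one_pow]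
    refine ⟨fun _ => ?_, fun _ => rfl⟩
    obtain ⟨l, hl⟩ := h4
    omega
  · rw [h4.neg_one_pow]
    refine ⟨fun h => absurd h hne, fun h => ?_⟩
    obtain ⟨l, hl⟩ := h4
    omega

/-- norms of squares -/
theorem ns_of_norm {σ : RingAut F} (hj : ∀ x, σ x = x ↔ x ∈ Set.range j) (hσ : σ ^ 2 = 1) {c : K} (hc0 : ¬ IsSquare c) {w : F}
    (hw : w * σ w = j c) : ¬ IsSquare w := by
  rintro ⟨u, hu⟩
  have h1 : σ (u * σ u) = u * σ u := by
    rw [map_mul]
    have h2 : σ (σ u) = u := by
      have := congrArg (fun τ : RingAut F => τ u) hσ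
      rw [pow_two] at this
      exact this
    rw [h2, mul_comm]
  obtain ⟨y, hy⟩ := (hj _).1 h1
  apply hc0
  refine ⟨y, j.injective ?_⟩
  rw [← hw, map_mul, hy, hu, map_mul]
  ring

end sqrt

section plus
variable {K F : Type*} [Field K] [Fintype K] [Field F] [Fintype F] {j : K →+* F} {σ : RingAut F}
  (hj : ∀ x, σ x = x ↔ x ∈ Set.range j) {m : ℕ}

theorem EE_Dp (c : Kˣ) : EE (isBC_plus j m) (isFm_stdF_plus (n := m) σ) (Dp m c) = Dp m (Units.map (j : K →* F) c) := by
  apply sim_ext_bv j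
  intro w
  have h1 := EE_bv (isBC_plus j m) (isFm_stdF_plus (n := m) σ) (Dp m c) w
  rw [LinearEquiv.refl_apply, LinearEquiv.refl_apply] at h1
  rw [h1]
  funext i
  rw [bv_apply, Dp_apply, Dp_apply, map_mul, bv_apply]
  rcases i with i | i
  · rw [Sum.elim_inl, Sum.elim_inl, map_one]
  · rfl

theorem Dp_sq (b : Fˣ) : (Dp m (b ^ 2) : SimG (qfPlus m F)) = sc _ b * ofS _ (OAut.hd m F fun _ => b⁻¹) := by
  apply sim_ext
  intro v
  change _ = (b : F) • (OAut.dS (fun _ => b⁻¹) 1).T v
  funext i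
  rw [Dp_apply, Pi.smul_apply]
  rcases i with i | i
  · rw [OAut.dS_inl, Sum.elim_inl, smul_eq_mul, ← mul_assoc, ← Units.val_mul, mul_inv_cancel, Units.val_one]
  · rw [OAut.dS_inr, Sum.elim_inr, smul_eq_mul, one_mul, inv_inv, Units.val_pow_eq_pow_val]; ring

theorem exists_Dp_ns (h2 : (2 : F) ≠ 0) [hG : EvG (qfPlus m F)] [hP : PlusT (qfPlus m F)] :
    ∃ c : Fˣ, ¬ IsSquare (c : F) ∧ sg (qfPlus m F) (Dp m c) = 1 ∧ mu (qfPlus m F) (Dp m c) = c := by
  obtain ⟨c, hc⟩ : ∃ c : F, ¬ IsSquare c := FiniteField.exists_nonsquare (by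
    intro h
    have := ringChar.charP F
    rw [h] at this
    exact h2 (by have := CharP.cast_eq_zero F 2; simpa using this))
  have hc0 : c ≠ 0 := by rintro rfl; exact hc (IsSquare.zero)
  exact ⟨Units.mk0 c hc0, hc, by rw [← sw_sg, sw_Dp], mu_Dp _⟩

theorem sqc_pow' {b : F} (hb : b ≠ 0) (n : ℕ) : sqc (b ^ n) = sqc b ^ n := by
  induction n with
  | zero => rw [pow_zero, pow_zero, sqc, if_pos IsSquare.one]
  | succ n ih => rw [pow_succ, pow_succ, sqc_mul (pow_ne_zero n hb) hb, ih]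

include hj in
/-- class counts for standard field automorphisms of `PΩ⁺` -/
theorem count_plus (hm : 4 ≤ m) {r : ℕ} (hc : Fintype.card F = Fintype.card K ^ r) [hG : EvG (qfPlus m F)] :
    ((Odd r ∨ (2 : F) = 0) → Cfsg.splitClassCount ((sg (qfPlus m F)).ker.map (dO _)) (Cfsg.Inn (T (qfPlus m F)))
      (cO _ (stdF std_plus σ)) = 1) ∧
    ((r = 2 ∧ (2 : F) ≠ 0 ∧ Odd m ∧ Fintype.card K % 4 = 1) → Cfsg.splitClassCount ((sg (qfPlus m F)).ker.map (dO _))
      (Cfsg.Inn (T (qfPlus m F))) (cO _ (stdF std_plus σ)) = 2) ∧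
    ((r = 2 ∧ (2 : F) ≠ 0 ∧ ¬ (Odd m ∧ Fintype.card K % 4 = 1)) → Cfsg.splitClassCount ((sg (qfPlus m F)).ker.map (dO _))
      (Cfsg.Inn (T (qfPlus m F))) (cO _ (stdF std_plus σ)) = 4) := by
  have hG0 : EvG (qfPlus m K) := evG_plus hm
  have hP : PlusT (qfPlus m F) := plusT_plus m
  have hP0 : PlusT (qfPlus m K) := plusT_plus m
  have hh := isFm_stdF_plus (F := F) (n := m) σ
  have key : r = 2 → (2 : F) ≠ 0 →
      ((Odd m ∧ Fintype.card K % 4 = 1) → Cfsg.splitClassCount ((sg (qfPlus m F)).ker.map (dO _))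
        (Cfsg.Inn (T (qfPlus m F))) (cO _ (stdF std_plus σ)) = 2) ∧
      (¬ (Odd m ∧ Fintype.card K % 4 = 1) → Cfsg.splitClassCount ((sg (qfPlus m F)).ker.map (dO _))
        (Cfsg.Inn (T (qfPlus m F))) (cO _ (stdF std_plus σ)) = 4) := by
    intro hr h2
    subst hr
    have h2K : (2 : K) ≠ 0 := fun h => h2 ((two_bc j).2 h)
    obtain ⟨c, hc0, hc1, hc2⟩ := exists_Dp_ns (F := K) (m := m) h2K
    obtain ⟨a, ha0, ha1, ha2⟩ := exists_Dp_ns (F := F) (m := m) h2
    obtain ⟨b, hb⟩ := isSquare_ext_two j hc (c : K)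
    have hb' : b ^ 2 = j (c : K) := by rw [hb, pow_two]
    have hb0 : b ≠ 0 := by
      rintro rfl
      rw [zero_pow (by norm_num)] at hb'
      exact c.ne_zero (j.injective (hb'.symm.trans (map_zero j).symm))
    have hbu : Units.map (j : K →* F) c = Units.mk0 b hb0 ^ 2 := Units.ext (by
      rw [Units.val_pow_eq_pow_val, Units.val_mk0, hb']; rfl)
    have hsp : spinHom hG.nd hG.rg (OAut.hd m F fun _ => (Units.mk0 b hb0)⁻¹) = sqc b ^ m := by
      rw [OAut.spin_hd, Finset.prod_const, Finset.card_univ, Fintype.card_fin, Units.val_pow_eq_pow_val,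
        sqc_pow' (Units.ne_zero _)]
      congr 1
      have h4 : (OAut.sqU F) (Units.mk0 b hb0)⁻¹ = (OAut.sqU F) (Units.mk0 b hb0) := by
        rw [map_inv]
        rcases Int.units_eq_one_or ((OAut.sqU F) (Units.mk0 b hb0)) with h5 | h5 <;> rw [h5] <;> rfl
      exact h4
    have hcnt := count_two hj (isBC_plus j m) hh h2 hc ⟨Dp m a, ha1, by rw [ha2]; exact ha0⟩ hc1 (by rw [hc2]; exact hc0)
      (b1 := Units.mk0 b hb0) (k1 := OAut.hd m F fun _ => (Units.mk0 b hb0)⁻¹) (by rw [EE_Dp, hbu, Dp_sq])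
    rw [hsp] at hcnt
    have hsq := sqrt_ns j hc h2 hc0 hb'
    have hodd : Fintype.card K % 2 = 1 := by
      by_contra h
      have h5 := FiniteField.even_card_iff_char_two.2 (show Fintype.card K % 2 = 0 by omega)
      have := ringChar.charP K
      rw [h5] at this
      exact h2K (by have := CharP.cast_eq_zero K 2; simpa using this)
    constructor
    · rintro ⟨h3, h4⟩
      apply hcnt.2
      rw [sqc, if_neg (fun h => by have := hsq.1 h; omega)]
      exact h3.neg_one_pow
    · intro h3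
      apply hcnt.1
      by_cases h4 : IsSquare b
      · rw [sqc, if_pos h4, one_pow]
      · rw [sqc, if_neg h4]
        have h5 : ¬ Odd m := fun h5 => h3 ⟨h5, by
          have := mt hsq.2 h4
          omega⟩
        exact (Nat.not_odd_iff_even.1 h5).neg_one_pow
  refine ⟨fun hr => ?_, fun h => (key h.1 h.2.1).1 h.2.2, fun h => (key h.1 h.2.1).2 h.2.2⟩
  exact count_one hj (isBC_plus j m) hh hr hc (fun h2K => by
    obtain ⟨c, hc0, hc1, hc2⟩ := exists_Dp_ns (F := K) (m := m) h2K
    exact ⟨_, hc1, by rw [hc2]; exact hc0⟩)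

end plus

end Cfsg.Agent.AutO
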