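import Cfsg.Agent.AutO.Cnt2

/-!
Similarities of the minus type form; counts for graph-field automorphisms of `PΩ⁺` and field automorphisms of `PΩ⁻`.
-/

set_option autoImplicit false

namespace Cfsg.Agent.AutO

open QuadraticMap Cfsg.Agent.ClassO Cfsg.Agent.AutLie Module
open Cfsg.Agent.Orth hiding map_mul two_ne_zero_of_odd

section simOf
variable {F V : Type*} [Field F] [AddCommGroup V] [Module F V] [FiniteDimensional F V] {Q : QuadraticForm F V}

omit [FiniteDimensional F V] in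
theorem inj_of_simil (hQ : (polarBilin Q).Nondegenerate) (f : V →ₗ[F] V) (c : Fˣ) (h : ∀ v, Q (f v) = c * Q v) :
    Function.Injective f := by
  rw [injective_iff_map_eq_zero]
  intro v hv
  refine hQ.1 v fun w => ?_
  change polar Q v w = 0
  have h1 : (c : F) * polar Q v w = polar Q (f v) (f w) := by
    simp only [QuadraticMap.polar, ← map_add, h]
    ring
  rw [hv] at h1
  have h2 : polar Q 0 (f w) = 0 := by simp [QuadraticMap.polar]
  rw [h2] at h1
  exact (mul_eq_zero.1 h1).resolve_left c.ne_zero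

/-- a similarity from a linear map -/
noncomputable def simOf (hQ : (polarBilin Q).Nondegenerate) (f : V →ₗ[F] V) (c : Fˣ) (h : ∀ v, Q (f v) = c * Q v) : SimG Q :=
  ⟨LinearEquiv.ofInjectiveEndo f (inj_of_simil hQ f c h), c, h⟩

theorem sa_simOf (hQ : (polarBilin Q).Nondegenerate) (f : V →ₗ[F] V) (c : Fˣ) (h : ∀ v, Q (f v) = c * Q v) (v : V) :
    sa (simOf hQ f c h) v = f v := rfl

end simOf

section dm
variable {F : Type*} [Field F] (m : ℕ) (a b w1 w2 : F)

/-- multiplication by an element of the quadratic algebra -/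
def DmL : ((Fin m ⊕ Fin m) ⊕ Fin 2 → F) →ₗ[F] ((Fin m ⊕ Fin m) ⊕ Fin 2 → F) where
  toFun v := Sum.elim (Sum.elim (fun i => v (.inl (.inl i))) (fun i => (w1 ^ 2 + a * w1 * w2 + b * w2 ^ 2) * v (.inl (.inr i))))
    ![w1 * v (.inr 0) - b * w2 * v (.inr 1), w1 * v (.inr 1) + w2 * v (.inr 0) + a * w2 * v (.inr 1)]
  map_add' u v := by
    funext k
    rcases k with (k | k) | k
    · rfl
    · change _ * (u _ + v _) = _ * u _ + _ * v _
      ring
    · fin_cases k
      · change w1 * (u _ + v _) - b * w2 * (u _ + v _) = (w1 * u _ - b * w2 * u _) + (w1 * v _ - b * w2 * v _)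
        ring
      · change w1 * (u _ + v _) + w2 * (u _ + v _) + a * w2 * (u _ + v _) =
          (w1 * u _ + w2 * u _ + a * w2 * u _) + (w1 * v _ + w2 * v _ + a * w2 * v _)
        ring
  map_smul' c v := by
    funext k
    rcases k with (k | k) | k
    · rfl
    · change _ * (c * v _) = c * (_ * v _)
      ring
    · fin_cases k
      · change w1 * (c * v _) - b * w2 * (c * v _) = c * (w1 * v _ - b * w2 * v _)
        ring
      · change w1 * (c * v _) + w2 * (c * v _) + a * w2 * (c * v _) = c * (w1 * v _ + w2 * v _ + a * w2 * v _)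
        ring

variable {m a b w1 w2}

theorem DmL_ll (v : (Fin m ⊕ Fin m) ⊕ Fin 2 → F) (i : Fin m) : DmL m a b w1 w2 v (.inl (.inl i)) = v (.inl (.inl i)) := rfl

theorem DmL_lr (v : (Fin m ⊕ Fin m) ⊕ Fin 2 → F) (i : Fin m) :
    DmL m a b w1 w2 v (.inl (.inr i)) = (w1 ^ 2 + a * w1 * w2 + b * w2 ^ 2) * v (.inl (.inr i)) := rfl

theorem DmL_r0 (v : (Fin m ⊕ Fin m) ⊕ Fin 2 → F) : DmL m a b w1 w2 v (.inr 0) = w1 * v (.inr 0) - b * w2 * v (.inr 1) := rfl

theorem DmL_r1 (v : (Fin m ⊕ Fin m) ⊕ Fin 2 → F) :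
    DmL m a b w1 w2 v (.inr 1) = w1 * v (.inr 1) + w2 * v (.inr 0) + a * w2 * v (.inr 1) := rfl

theorem DmL_q (v : (Fin m ⊕ Fin m) ⊕ Fin 2 → F) :
    qfMinus m F a b (DmL m a b w1 w2 v) = (w1 ^ 2 + a * w1 * w2 + b * w2 ^ 2) * qfMinus m F a b v := by
  have h1 : ∑ i, DmL m a b w1 w2 v (.inl (.inl i)) * DmL m a b w1 w2 v (.inl (.inr i)) =
      (w1 ^ 2 + a * w1 * w2 + b * w2 ^ 2) * ∑ i, v (.inl (.inl i)) * v (.inl (.inr i)) := by
    rw [Finset.mul_sum]
    refine Finset.sum_congr rfl fun i _ => ?_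
    rw [DmL_ll, DmL_lr]; ring
  rw [qfMinus_apply, qfMinus_apply, DmL_r0, DmL_r1, h1]
  ring

/-- the similarity -/
noncomputable def Dm (hd : a ^ 2 - 4 * b ≠ 0) (w1 w2 : F) (c : Fˣ) (hc : (c : F) = w1 ^ 2 + a * w1 * w2 + b * w2 ^ 2) :
    SimG (qfMinus m F a b) :=
  simOf (qfMinus_nondegenerate m F hd) (DmL m a b w1 w2) c (fun v => by rw [DmL_q, hc])

theorem sa_Dm (hd : a ^ 2 - 4 * b ≠ 0) (c : Fˣ) (hc : (c : F) = w1 ^ 2 + a * w1 * w2 + b * w2 ^ 2)
    (v : (Fin m ⊕ Fin m) ⊕ Fin 2 → F) : sa (Dm hd w1 w2 c hc) v = DmL m a b w1 w2 v := rfl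

/-- binary forms are universal -/
theorem exists_w [Finite F] (hd : a ^ 2 - 4 * b ≠ 0) (c : F) : ∃ w1 w2 : F, c = w1 ^ 2 + a * w1 * w2 + b * w2 ^ 2 := by
  obtain ⟨v, hv⟩ := exists_q_eq (qfMinus_nondegenerate 0 F hd) (by rw [finrank_minus]) c
  rw [qfMinus_apply, Finset.univ_eq_empty, Finset.sum_empty, zero_add] at hv
  exact ⟨_, _, hv.symm⟩

/-- singular vectors of the binary part -/
def zr (m : ℕ) (ρ : F) : (Fin m ⊕ Fin m) ⊕ Fin 2 → F := Sum.elim 0 ![-ρ, 1]

theorem DmL_zr {ρ : F} (h : ρ ^ 2 - a * ρ + b = 0) : DmL m a b w1 w2 (zr m ρ) = (w1 + w2 * (a - ρ)) • zr m ρ := by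
  funext k
  rcases k with (k | k) | k
  · change (0 : F) = _ * 0
    rw [mul_zero]
  · change _ * (0 : F) = _ * 0
    rw [mul_zero, mul_zero]
  · fin_cases k
    · change w1 * (-ρ) - b * w2 * 1 = (w1 + w2 * (a - ρ)) * (-ρ)
      linear_combination -w2 * h
    · change w1 * 1 + w2 * (-ρ) + a * w2 * 1 = (w1 + w2 * (a - ρ)) * 1
      ring

/-- the hyperbolic family -/
noncomputable def eM (m : ℕ) (ρ : F) : Fin (m + 1) → ((Fin m ⊕ Fin m) ⊕ Fin 2 → F) :=
  Fin.cons (zr m ρ) (fun i => Pi.single (.inl (.inl i)) 1)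

noncomputable def fM (m : ℕ) (a b ρ : F) : Fin (m + 1) → ((Fin m ⊕ Fin m) ⊕ Fin 2 → F) :=
  Fin.cons ((4 * b - a ^ 2)⁻¹ • zr m (a - ρ)) (fun i => Pi.single (.inl (.inr i)) 1)

theorem hyp_eM {ρ : F} (h : ρ ^ 2 - a * ρ + b = 0) (hd : a ^ 2 - 4 * b ≠ 0) : Hyp (qfMinus m F a b) (eM m ρ) (fM m a b ρ) := by
  have hd' : 4 * b - a ^ 2 ≠ 0 := fun h0 => hd (by linear_combination -h0)
  have hz : ∀ ρ : F, ρ ^ 2 - a * ρ + b = 0 → qfMinus m F a b (zr m ρ) = 0 := by
    intro ρ h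
    rw [qfMinus_apply]
    simp only [zr, Sum.elim_inl, Sum.elim_inr, Pi.zero_apply, mul_zero, Finset.sum_const_zero, zero_add, Matrix.cons_val_zero,
      Matrix.cons_val_one]
    linear_combination h
  have h' : (a - ρ) ^ 2 - a * (a - ρ) + b = 0 := by linear_combination h
  have hp : polar (qfMinus m F a b) (zr m ρ) (zr m (a - ρ)) = 4 * b - a ^ 2 := by
    rw [polar_qfMinus]
    simp only [zr, Sum.elim_inl, Sum.elim_inr, Pi.zero_apply, mul_zero, Finset.sum_const_zero, zero_add, Matrix.cons_val_zero,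
      Matrix.cons_val_one, add_zero]
    linear_combination (-2) * h
  refine ⟨fun i => ?_, fun i => ?_, fun i k => ?_, fun i k => ?_, fun i k => ?_⟩
  · refine Fin.cases ?_ (fun i => ?_) i
    · exact hz ρ h
    · simp [eM, qfMinus_apply, Pi.single_apply]
  · refine Fin.cases ?_ (fun i => ?_) i
    · change qfMinus m F a b ((4 * b - a ^ 2)⁻¹ • zr m (a - ρ)) = 0
      rw [qsmul, hz _ h', mul_zero]
    · simp [fM, qfMinus_apply, Pi.single_apply]
  · refine Fin.cases ?_ (fun i => ?_) i <;> refine Fin.cases ?_ (fun k => ?_) k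
    · change polar (qfMinus m F a b) (zr m ρ) (zr m ρ) = 0
      rw [QuadraticMap.polar_self, hz ρ h, smul_zero]
    · simp [eM, zr, polar_qfMinus, Pi.single_apply]
    · simp [eM, zr, polar_qfMinus, Pi.single_apply]
    · simp [eM, polar_qfMinus, Pi.single_apply]
  · refine Fin.cases ?_ (fun i => ?_) i <;> refine Fin.cases ?_ (fun k => ?_) k
    · change polar (qfMinus m F a b) ((4 * b - a ^ 2)⁻¹ • zr m (a - ρ)) ((4 * b - a ^ 2)⁻¹ • zr m (a - ρ)) = 0
      rw [QuadraticMap.polar_self, qsmul, hz _ h', mul_zero, smul_zero]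
    · simp [fM, zr, polar_qfMinus, Pi.single_apply]
    · simp [fM, zr, polar_qfMinus, Pi.single_apply]
    · simp [fM, polar_qfMinus, Pi.single_apply]
  · refine Fin.cases ?_ (fun i => ?_) i <;> refine Fin.cases ?_ (fun k => ?_) k
    · change polar (qfMinus m F a b) (zr m ρ) ((4 * b - a ^ 2)⁻¹ • zr m (a - ρ)) = _
      rw [psr, hp, if_pos rfl, inv_mul_cancel₀ hd']
    · rw [if_neg (Fin.succ_ne_zero k).symm]
      simp [eM, fM, zr, polar_qfMinus, Pi.single_apply]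
    · rw [if_neg (Fin.succ_ne_zero i)]
      simp [eM, fM, zr, polar_qfMinus, Pi.single_apply]
    · simp [eM, fM, polar_qfMinus, Pi.single_apply, eq_comm]

/-- the spinor norm attached to `Dm` -/
theorem Dm_spin [Fintype F] [hG : Good (qfMinus m F a b)] (hd : a ^ 2 - 4 * b ≠ 0) {ρ : F} (h : ρ ^ 2 - a * ρ + b = 0)
    {b1 : Fˣ} (hb1 : ((b1 ^ 2 : Fˣ) : F) = w1 ^ 2 + a * w1 * w2 + b * w2 ^ 2) :
    ∃ k1 : OGrp (qfMinus m F a b), Dm hd w1 w2 (b1 ^ 2) hb1 = sc _ b1 * ofS _ k1 ∧ parityHom hG.nd hG.rg k1 = 1 ∧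
      spinHom hG.nd hG.rg k1 = sqc (b1 : F) ^ (m + 1) * sqc (w1 + w2 * ρ) := by
  have hmul : (w1 + w2 * (a - ρ)) * (w1 + w2 * ρ) = (b1 : F) ^ 2 := by
    rw [← Units.val_pow_eq_pow_val, hb1]
    linear_combination -w2 ^ 2 * h
  have hl0 : w1 + w2 * ρ ≠ 0 := by
    intro h0
    rw [h0, mul_zero] at hmul
    exact pow_ne_zero 2 b1.ne_zero hmul.symm
  obtain ⟨k1, hk1⟩ := exists_ofS (g := sc (qfMinus m F a b) b1⁻¹ * Dm hd w1 w2 (b1 ^ 2) hb1) (by
    rw [map_mul, mu_sc, show mu _ (Dm hd w1 w2 (b1 ^ 2) hb1) = b1 ^ 2 from mu_eq (fun v => by rw [sa_Dm, DmL_q, hb1]),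
      inv_pow, inv_mul_cancel])
  have hk : Dm hd w1 w2 (b1 ^ 2) hb1 = sc _ b1 * ofS _ k1 := by
    rw [← hk1, ← mul_assoc, ← map_mul, mul_inv_cancel, map_one, one_mul]
  have hact : ∀ v, (k1 : _ ≃ₗ[F] _) v = ((b1⁻¹ : Fˣ) : F) • DmL m a b w1 w2 v := by
    intro v
    have h1 := congrArg (fun t : SimG (qfMinus m F a b) => sa t v) hk1
    exact h1.symm
  refine ⟨k1, hk, ?_⟩
  have h' : (a - ρ) ^ 2 - a * (a - ρ) + b = 0 := by linear_combination h
  have hsp := diag_spin (Q := qfMinus m F a b) (n := m + 1) finrank_minus (hyp_eM h hd) (g := k1)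
    (t := Fin.cons (b1⁻¹ * Units.mk0 _ hl0) (fun _ => b1)) (fun i => by
      refine Fin.cases ?_ (fun i => ?_) i
      · rw [hact]
        change _ • DmL m a b w1 w2 (zr m ρ) = (b1⁻¹ * Units.mk0 _ hl0)⁻¹ • zr m ρ
        rw [DmL_zr h, smul_smul, Units.smul_def]
        congr 1
        rw [mul_inv, inv_inv, Units.val_mul, Units.val_inv_eq_inv_val, Units.val_inv_eq_inv_val, Units.val_mk0]
        have hb := b1.ne_zero
        field_simp
        linear_combination hmul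
      · rw [hact]
        change _ • DmL m a b w1 w2 (Pi.single (.inl (.inl i)) 1) = b1⁻¹ • (Pi.single (.inl (.inl i)) 1 : (Fin m ⊕ Fin m) ⊕ Fin 2 → F)
        rw [Units.smul_def]
        congr 1
        funext k
        rcases k with (k | k) | k
        · rw [DmL_ll]
        · rw [DmL_lr]; simp
        · fin_cases k
          · exact (DmL_r0 _).trans (by simp)
          · exact (DmL_r1 _).trans (by simp)) (fun i => by
      refine Fin.cases ?_ (fun i => ?_) i
      · rw [hact]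
        change _ • DmL m a b w1 w2 ((4 * b - a ^ 2)⁻¹ • zr m (a - ρ)) = (b1⁻¹ * Units.mk0 _ hl0) • ((4 * b - a ^ 2)⁻¹ • zr m (a - ρ))
        rw [map_smul, DmL_zr h', Units.smul_def, smul_smul, smul_smul, smul_smul]
        congr 1
        rw [Units.val_mul, Units.val_mk0]
        ring
      · rw [hact]
        change _ • DmL m a b w1 w2 (Pi.single (.inl (.inr i)) 1) = b1 • (Pi.single (.inl (.inr i)) 1 : (Fin m ⊕ Fin m) ⊕ Fin 2 → F)
        funext k
        rw [Pi.smul_apply, Pi.smul_apply, Units.smul_def, smul_eq_mul, smul_eq_mul, Units.val_inv_eq_inv_val]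
        have hb := b1.ne_zero
        rcases k with (k | k) | k
        · rw [DmL_ll]; simp
        · rw [DmL_lr, ← hb1, Units.val_pow_eq_pow_val]
          by_cases hk : k = i
          · subst hk; simp; field_simp
          · simp [Pi.single_apply, hk]
        · fin_cases k
          · have h0 : DmL m a b w1 w2 (Pi.single (.inl (.inr i)) 1) (.inr 0) = 0 := (DmL_r0 _).trans (by simp)
            change _ * DmL m a b w1 w2 (Pi.single (.inl (.inr i)) 1) (.inr 0) = _ * 0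
            rw [h0, mul_zero, mul_zero]
          · have h0 : DmL m a b w1 w2 (Pi.single (.inl (.inr i)) 1) (.inr 1) = 0 := (DmL_r1 _).trans (by simp)
            change _ * DmL m a b w1 w2 (Pi.single (.inl (.inr i)) 1) (.inr 1) = _ * 0
            rw [h0, mul_zero, mul_zero])
  refine ⟨hsp.1, hsp.2.trans ?_⟩
  rw [Fin.prod_univ_succ, Fin.cons_zero]
  simp only [Fin.cons_succ]
  rw [Finset.prod_const, Finset.card_univ, Fintype.card_fin]
  change (OAut.sqU F) (b1⁻¹ * Units.mk0 _ hl0 * b1 ^ m) = _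
  rw [map_mul, map_mul, map_inv, map_pow]
  have h5 : (OAut.sqU F) b1 = sqc (b1 : F) := rfl
  have h6 : (OAut.sqU F) (Units.mk0 _ hl0) = sqc (w1 + w2 * ρ) := rfl
  rw [h5, h6, pow_succ]
  rcases Int.units_eq_one_or (sqc (b1 : F)) with h7 | h7 <;> rw [h7]
  · simp
  · rw [mul_comm ((-1 : ℤˣ) ^ m), mul_assoc, mul_comm _ ((-1 : ℤˣ) ^ m)]
    simp [mul_assoc]

end dm

section dmEE
variable {K F V : Type*} [Field K] [Field F] [AddCommGroup V] [Module F V] {m : ℕ} (j : K →+* F) {σ : RingAut F} {a b : K}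

theorem DmL_bv (w1 w2 : K) (v : (Fin m ⊕ Fin m) ⊕ Fin 2 → K) :
    DmL m (j a) (j b) (j w1) (j w2) (bv j v) = bv j (DmL m a b w1 w2 v) := by
  funext k
  rcases k with (k | k) | k
  · rfl
  · rw [DmL_lr, bv_apply, bv_apply, DmL_lr]
    simp only [map_mul, map_add, map_pow]
  · fin_cases k
    · change DmL m (j a) (j b) (j w1) (j w2) (bv j v) (.inr 0) = j (DmL m a b w1 w2 v (.inr 0))
      rw [DmL_r0, DmL_r0, bv_apply, bv_apply]
      simp only [map_mul, map_sub]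
    · change DmL m (j a) (j b) (j w1) (j w2) (bv j v) (.inr 1) = j (DmL m a b w1 w2 v (.inr 1))
      rw [DmL_r1, DmL_r1, bv_apply, bv_apply]
      simp only [map_mul, map_add]

theorem extS_Dm (hd : a ^ 2 - 4 * b ≠ 0) (w1 w2 : K) (c : Kˣ) (hc : (c : K) = w1 ^ 2 + a * w1 * w2 + b * w2 ^ 2) (c' : Fˣ)
    (hc' : (c' : F) = (j w1) ^ 2 + j a * j w1 * j w2 + j b * (j w2) ^ 2) :
    extS (isBC_minus j m a b) (Dm hd w1 w2 c hc) = Dm (disc_bc j hd) (j w1) (j w2) c' hc' := by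
  apply sim_ext_bv j
  intro v
  rw [extS_bv, sa_Dm, sa_Dm, DmL_bv]

end dmEE

end Cfsg.Agent.AutO
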