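import Cfsg.Agent.AutO.Cnt2

/-!
Field automorphisms of prime order of `PΩ⁺`, assuming that the inner-diagonal group is normal.
-/

set_option autoImplicit false

namespace Cfsg.Agent.AutO

open QuadraticMap Cfsg.Agent.ClassO Cfsg.Agent.AutLie Module
open Cfsg.Agent.Orth hiding map_mul two_ne_zero_of_odd

section plus
variable {K F : Type*} [Field K] [Fintype K] [Field F] [Fintype F] {j : K →+* F} {σ : RingAut F}
  (hj : ∀ x, σ x = x ↔ x ∈ Set.range j) {m : ℕ}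
include hj

theorem cent_plus (hm : 4 ≤ m) [hG : EvG (qfPlus m F)] [hG0 : EvG (qfPlus m K)] :
    Nonempty (↥((sg (qfPlus m F)).ker.map (dO _) ⊓ Subgroup.centralizer {cO _ (stdF std_plus σ)}) ≃*
      ↥((sg (qfPlus m K)).ker.map (dO _))) :=
  cent_iso hj (isBC_plus j m) (isFm_stdF_plus σ) _ _ (fun g => by
    rw [MonoidHom.mem_ker, MonoidHom.mem_ker, sg_EE]) (fun c => sg_sc c)

end plus

theorem row_plus {F : Type*} [Field F] [Fintype F] {p f : ℕ} [Fact p.Prime] (hF : Fintype.card F = p ^ f) {m : ℕ}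
    (hm : 4 ≤ m) {r : ℕ} (F₀ : Type*) [Field F₀] [Fintype F₀] (hF₀ : Fintype.card F₀ = p ^ (f / r))
    (x : MulAut (Cfsg.POmega F ⇑(qfPlus m F))) (hx : Cfsg.IsFieldAutClassPOmega (⇑(qfPlus m F)) x) (hxr : orderOf x = r)
    (hN : (inndP ⇑(qfPlus m F)).Normal) :
    r ∣ f ∧ Nonempty (↥(inndP ⇑(qfPlus m F) ⊓ Subgroup.centralizer {x}) ≃* ↥(inndP ⇑(qfPlus m F₀))) ∧
    ((Odd r ∨ p = 2) → Cfsg.splitClassCount (inndP ⇑(qfPlus m F)) (Cfsg.Inn (Cfsg.POmega F ⇑(qfPlus m F))) x = 1) ∧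
    ((r = 2 ∧ p ≠ 2 ∧ Odd m ∧ p ^ (f / 2) % 4 = 1) → Cfsg.splitClassCount (inndP ⇑(qfPlus m F)) (Cfsg.Inn (Cfsg.POmega F ⇑(qfPlus m F))) x = 2) ∧
    ((r = 2 ∧ p ≠ 2 ∧ ¬ (Odd m ∧ p ^ (f / 2) % 4 = 1)) → Cfsg.splitClassCount (inndP ⇑(qfPlus m F)) (Cfsg.Inn (Cfsg.POmega F ⇑(qfPlus m F))) x = 4) := by
  have hcp : CharP F p := AutLie.charP_of_card hF
  have hG : EvG (qfPlus m F) := evG_plus hm
  have hG0 : EvG (qfPlus m F₀) := evG_plus hm
  have hp2 : (2 : F) = 0 ↔ p = 2 := by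
    constructor
    · intro h
      have h1 := (CharP.cast_eq_zero_iff F p 2).1 (by exact_mod_cast h)
      exact (Nat.prime_dvd_prime_iff_eq (Fact.out : p.Prime) Nat.prime_two).1 h1
    · rintro rfl
      have := CharP.cast_eq_zero F 2
      exact_mod_cast this
  obtain ⟨α, σ, hσ, hα⟩ := fieldClass_gen std_plus hx
  have hord : orderOf σ = r := by
    rw [← orderOf_cO_std (Q := qfPlus m F) (isSemi_stdF std_plus σ) (stdF_pow_plus σ), ← hα,
      AutLie.orderOf_conj', orderOf_aE, hxr]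
  have hrf : r ∣ f := hord ▸ AutLie.orderOf_ringAut_dvd hF σ
  obtain ⟨j, hj⟩ := AutLie.exists_embedding hF σ F₀ (by rw [hord]; exact hF₀)
  have hcard : Fintype.card F = Fintype.card F₀ ^ r := by
    rw [hF, hF₀, ← pow_mul, Nat.div_mul_cancel hrf]
  have hN1 : ((sg (qfPlus m F)).ker.map (dO _)).Normal := by
    rw [← inndP_map]
    exact hN.map _ (aE (qfPlus m F)).surjective
  have hN2 : (Cfsg.Inn (T (qfPlus m F))).Normal := AutPSL.normal_inn
  have hcnt := count_plus hj hm hcard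
  refine ⟨hrf, ?_, ?_⟩
  · obtain ⟨e⟩ := cent_plus hj hm
    rw [← hα] at e
    have e1 := centMap (aE (qfPlus m F)) (inndP ⇑(qfPlus m F)) x
    rw [inndP_map] at e1
    have e2 := AutLie.centConj ((sg (qfPlus m F)).ker.map (dO _)) α (aE (qfPlus m F) x)
    have e3 := (inndP ⇑(qfPlus m F₀)).equivMapOfInjective (aE (qfPlus m F₀)).toMonoidHom
      (aE (qfPlus m F₀)).injective
    rw [inndP_map] at e3
    exact ⟨((e1.trans e2).trans e).trans e3.symm⟩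
  · have h3 : Cfsg.splitClassCount (inndP ⇑(qfPlus m F)) (Cfsg.Inn (Cfsg.POmega F ⇑(qfPlus m F))) x =
        Cfsg.splitClassCount ((sg (qfPlus m F)).ker.map (dO _))
          (Cfsg.Inn (T (qfPlus m F))) (cO _ (stdF std_plus σ)) := by
      rw [splitClassCount_map (aE (qfPlus m F)), inndP_map, inn_map_congr, ← hα,
        AutLie.splitClassCount_conj]
    rw [h3]
    refine ⟨fun h => hcnt.1 (h.imp id hp2.2), ?_, ?_⟩
    · rintro ⟨h1, h2, h4, h5⟩
      subst h1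
      exact hcnt.2.1 ⟨rfl, fun h => h2 (hp2.1 h), h4, by rw [hF₀]; exact h5⟩
    · rintro ⟨h1, h2, h4⟩
      subst h1
      exact hcnt.2.2 ⟨rfl, fun h => h2 (hp2.1 h), by rw [hF₀]; exact h4⟩

/-- the frozen form of the statement about field automorphisms, assuming normality of the inner-diagonal group -/
theorem row_plus_of_normal {F : Type*} [Field F] [Fintype F] {p f : ℕ} [Fact p.Prime] (hF : Fintype.card F = p ^ f)
    {m : ℕ} (hm : 4 ≤ m) (x : MulAut (Cfsg.POmega F (Cfsg.quadFormPlus m F))) (hx : Cfsg.IsFieldAutClassPOmega (Cfsg.quadFormPlus m F) x)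
    {r : ℕ} (hxr : orderOf x = r) (F₀ : Type*) [Field F₀] [Fintype F₀] (hF₀ : Fintype.card F₀ = p ^ (f / r))
    (hN : (Cfsg.inndiagPOmegaPlus m F).Normal) :
    r ∣ f ∧ Nonempty (↥(Cfsg.inndiagPOmegaPlus m F ⊓ Subgroup.centralizer {x}) ≃* ↥(Cfsg.inndiagPOmegaPlus m F₀)) ∧ ((Odd r ∨ p = 2) → Cfsg.splitClassCount (Cfsg.inndiagPOmegaPlus m F) (Cfsg.Inn (Cfsg.POmega F (Cfsg.quadFormPlus m F))) x = 1) ∧ ((r = 2 ∧ p ≠ 2 ∧ Odd m ∧ p ^ (f / 2) % 4 = 1) → Cfsg.splitClassCount (Cfsg.inndiagPOmegaPlus m F) (Cfsg.Inn (Cfsg.POmega F (Cfsg.quadFormPlus m F))) x = 2) ∧ ((r = 2 ∧ p ≠ 2 ∧ ¬ (Odd m ∧ p ^ (f / 2) % 4 = 1)) → Cfsg.splitClassCount (Cfsg.inndiagPOmegaPlus m F) (Cfsg.Inn (Cfsg.POmega F (Cfsg.quadFormPlus m F))) x = 4) := by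
  have key : ∀ R : (Fin m ⊕ Fin m → F) → F, R = ⇑(qfPlus m F) →
      ∀ R0 : (Fin m ⊕ Fin m → F₀) → F₀, R0 = ⇑(qfPlus m F₀) → ∀ x : MulAut (Cfsg.POmega F R),
      Cfsg.IsFieldAutClassPOmega R x → orderOf x = r → (inndP R).Normal →
      r ∣ f ∧ Nonempty (↥(inndP R ⊓ Subgroup.centralizer {x}) ≃* ↥(inndP R0)) ∧
      ((Odd r ∨ p = 2) → Cfsg.splitClassCount (inndP R) (Cfsg.Inn (Cfsg.POmega F R)) x = 1) ∧
      ((r = 2 ∧ p ≠ 2 ∧ Odd m ∧ p ^ (f / 2) % 4 = 1) → Cfsg.splitClassCount (inndP R) (Cfsg.Inn (Cfsg.POmega F R)) x = 2) ∧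
      ((r = 2 ∧ p ≠ 2 ∧ ¬ (Odd m ∧ p ^ (f / 2) % 4 = 1)) → Cfsg.splitClassCount (inndP R) (Cfsg.Inn (Cfsg.POmega F R)) x = 4) := by
    rintro R rfl R0 rfl x hx hxr hN
    exact row_plus hF hm F₀ hF₀ x hx hxr hN
  exact key _ (coe_qfPlus m F).symm _ (coe_qfPlus m F₀).symm x hx hxr hN

/-- normality from the other model -/
theorem normal_of_map {F : Type*} [Field F] [Fintype F] {m : ℕ} [hG : EvG (qfPlus m F)]
    (h1 : ((sg (qfPlus m F)).ker.map (dO _)).Normal) : (inndP ⇑(qfPlus m F)).Normal := by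
  have h2 : inndP ⇑(qfPlus m F) = ((sg (qfPlus m F)).ker.map (dO _)).comap (aE (qfPlus m F)).toMonoidHom := by
    rw [← inndP_map]
    exact (Subgroup.comap_map_eq_self_of_injective (aE (qfPlus m F)).injective _).symm
  rw [h2]
  exact h1.comap _

/-- the inner-diagonal group is normal in dimension at least ten -/
theorem normal_inndP {F : Type*} [Field F] [Fintype F] {m : ℕ} (hm : 5 ≤ m) : (Cfsg.inndiagPOmegaPlus m F).Normal := by
  have hEv := evG_plus (F := F) (m := m) (by omega)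
  have key : ∀ R : (Fin m ⊕ Fin m → F) → F, R = ⇑(qfPlus m F) → Cfsg.gammaPOmega F R = ⊤ → (inndP R).Normal := by
    rintro R rfl hall
    have h1 := normal_sg (Q := qfPlus m F) (hall_of_gamma hall)
    have h2 : inndP ⇑(qfPlus m F) = ((sg (qfPlus m F)).ker.map (dO _)).comap (aE (qfPlus m F)).toMonoidHom := by
      rw [← inndP_map]
      exact (Subgroup.comap_map_eq_self_of_injective (aE (qfPlus m F)).injective _).symm
    rw [h2]
    exact h1.comap _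
  exact key _ (coe_qfPlus m F).symm (S2695.result hm)

end Cfsg.Agent.AutO
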