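import Cfsg.Agent.AutO.Dm
import Cfsg.Agent.AutO.RowPlus

/-!
Involutory graph-field automorphisms of `PΩ⁺` and field automorphisms of `PΩ⁻`.
-/

set_option autoImplicit false

namespace Cfsg.Agent.AutO

open QuadraticMap Cfsg.Agent.ClassO Cfsg.Agent.AutLie Module
open Cfsg.Agent.Orth hiding map_mul two_ne_zero_of_odd

section graph
variable {K F : Type*} [Field K] [Fintype K] [Field F] [Fintype F] {j : K →+* F} {σ : RingAut F}
  {ζ : K} (hζ : ∀ t : K, t ^ 2 + t + ζ ≠ 0)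

include hζ in
/-- a root of the polynomial of the descended form -/
theorem exists_rho (j : K →+* F) (hc : Fintype.card F = Fintype.card K ^ 2) : ∃ ρ : F, ρ ^ 2 - j 1 * ρ + j ζ = 0 := by
  letI := j.toAlgebra
  have h : finrank K F = 2 := by
    have h1 := Module.card_eq_pow_finrank (K := K) (V := F)
    rw [hc] at h1
    exact (Nat.pow_right_injective (Fintype.one_lt_card) h1).symm
  exact exists_rootQ (aniso_of_root hζ) F h

theorem exists_ns_unit (h2 : (2 : K) ≠ 0) : ∃ c : Kˣ, ¬ IsSquare (c : K) := by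
  obtain ⟨c, hc⟩ : ∃ c : K, ¬ IsSquare c := FiniteField.exists_nonsquare (by
    intro h
    have := ringChar.charP K
    rw [h] at this
    exact h2 (by have := CharP.cast_eq_zero K 2; simpa using this))
  have hc0 : c ≠ 0 := by rintro rfl; exact hc (IsSquare.zero)
  exact ⟨Units.mk0 c hc0, hc⟩

theorem odd_card_of_two_ne (h2 : (2 : K) ≠ 0) : Fintype.card K % 2 = 1 := by
  by_contra h
  have h5 := FiniteField.even_card_iff_char_two.2 (show Fintype.card K % 2 = 0 by omega)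
  have := ringChar.charP K
  rw [h5] at this
  exact h2 (by have := CharP.cast_eq_zero K 2; simpa using this)

variable (hj : ∀ x, σ x = x ↔ x ∈ Set.range j)

include hj hζ in
/-- class counts for involutory graph-field automorphisms -/
theorem count_graph {m : ℕ} (hm : 5 ≤ m) {f : GamO (qfPlus m F)}
    {e : ((Fin (m - 1) ⊕ Fin (m - 1)) ⊕ Fin 2 → F) ≃ₗ[F] (Fin m ⊕ Fin m → F)} {d : Fˣ}
    (h : IsFm σ (qfMinus (m - 1) F (j 1) (j ζ)) (qfPlus m F) f e d) (hord : orderOf σ = 2)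
    (hc : Fintype.card F = Fintype.card K ^ 2) [hG : EvG (qfPlus m F)] :
    ((2 : F) = 0 → Cfsg.splitClassCount ((sg (qfPlus m F)).ker.map (dO _)) (Cfsg.Inn (T (qfPlus m F))) (cO _ f) = 1) ∧
    (((2 : F) ≠ 0 ∧ Odd m ∧ Fintype.card K % 4 = 1) → Cfsg.splitClassCount ((sg (qfPlus m F)).ker.map (dO _))
      (Cfsg.Inn (T (qfPlus m F))) (cO _ f) = 4) ∧
    (((2 : F) ≠ 0 ∧ ¬ (Odd m ∧ Fintype.card K % 4 = 1)) → Cfsg.splitClassCount ((sg (qfPlus m F)).ker.map (dO _))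
      (Cfsg.Inn (T (qfPlus m F))) (cO _ f) = 2) := by
  have hdK := disc_ne_zero_of_aniso (aniso_of_root hζ)
  have hdF := disc_bc j hdK
  have hG0 : EvG (qfMinus (m - 1) K 1 ζ) := evG_minus (by omega) hdK
  have hGS : EvG (qfMinus (m - 1) F (j 1) (j ζ)) := evG_minus (by omega) hdF
  have hP : PlusT (qfPlus m F) := plusT_plus m
  have hS := isBC_minus j (m - 1) 1 ζ
  have key : (2 : F) ≠ 0 →
      ((Odd m ∧ Fintype.card K % 4 = 1) → Cfsg.splitClassCount ((sg (qfPlus m F)).ker.map (dO _))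
        (Cfsg.Inn (T (qfPlus m F))) (cO _ f) = 4) ∧
      (¬ (Odd m ∧ Fintype.card K % 4 = 1) → Cfsg.splitClassCount ((sg (qfPlus m F)).ker.map (dO _))
        (Cfsg.Inn (T (qfPlus m F))) (cO _ f) = 2) := by
    intro h2
    have h2K : (2 : K) ≠ 0 := fun h => h2 ((two_bc j).2 h)
    obtain ⟨c, hc0⟩ := exists_ns_unit h2K
    obtain ⟨a, ha0, ha1, ha2⟩ := exists_Dp_ns (F := F) (m := m) h2
    obtain ⟨b, hb⟩ := isSquare_ext_two j hc (c : K)
    have hb' : b ^ 2 = j (c : K) := by rw [hb, pow_two]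
    have hb0 : b ≠ 0 := by
      rintro rfl
      rw [zero_pow (by norm_num)] at hb'
      exact c.ne_zero (j.injective (hb'.symm.trans (map_zero j).symm))
    obtain ⟨w1, w2, hw⟩ := exists_w hdK (c : K)
    have hw' : ((Units.mk0 b hb0 ^ 2 : Fˣ) : F) = (j w1) ^ 2 + j 1 * j w1 * j w2 + j ζ * (j w2) ^ 2 := by
      rw [Units.val_pow_eq_pow_val, Units.val_mk0, hb', hw]
      simp only [map_add, map_mul, map_pow]
    obtain ⟨ρ, hρ⟩ := exists_rho hζ j hc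
    obtain ⟨k1, hk1, hk1p, hk1s⟩ := Dm_spin (m := m - 1) hdF hρ hw'
    have hEE : EE hS h (Dm hdK w1 w2 c hw) = sc _ (Units.mk0 b hb0) * ofS _ (trO e d h.q k1) := by
      change trS e d h.q (extS hS (Dm hdK w1 w2 c hw)) = _
      rw [extS_Dm j hdK w1 w2 c hw _ hw', hk1, map_mul, trS_sc, trS_ofS]
    have hp1 : parityHom hG.nd hG.rg (trO e d h.q k1) = 1 := by rw [parity_trO, hk1p]
    have hs1 : spinHom hG.nd hG.rg (trO e d h.q k1) = - sqc b ^ m := by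
      rw [spin_trO e d h.q hk1p, hk1s, Nat.sub_add_cancel (by omega)]
      have hσ2 : σ ^ 2 = 1 := by rw [← hord, pow_orderOf_eq_one]
      have hσρ : σ ρ = j 1 - ρ := by
        have h3 := root_not_fixed j hj hζ ρ hρ
        have h4 := congrArg σ hρ
        rw [map_add, map_sub, map_mul, map_pow, map_zero, fix_j _ hj 1, fix_j _ hj ζ] at h4
        have h5 : (σ ρ - ρ) * (σ ρ - (j 1 - ρ)) = 0 := by linear_combination h4 - hρ
        exact sub_eq_zero.1 ((mul_eq_zero.1 h5).resolve_left (sub_ne_zero.2 h3))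
      have hns : ¬ IsSquare (j w1 + j w2 * ρ) := ns_of_norm j hj hσ2 hc0 (by
        rw [map_add, map_mul, fix_j _ hj, fix_j _ hj, hσρ, hw]
        simp only [map_add, map_mul, map_pow]
        linear_combination (-(j w2) ^ 2) * hρ)
      rw [show sqc (j w1 + j w2 * ρ) = -1 from if_neg hns, mul_neg, mul_one]; rfl
    have hmuG : mu _ (Dm (m := m - 1) hdK w1 w2 c hw) = c := mu_eq (fun v => by rw [sa_Dm, DmL_q, hw])
    have hsgG : sg _ (Dm (m := m - 1) hdK w1 w2 c hw) = 1 := by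
      rw [← sg_EE hS h, hEE, map_mul, sg_sc, one_mul, sg_ofS, hp1]
    have hcnt := count_two hj hS h h2 hc ⟨Dp m a, ha1, by rw [ha2]; exact ha0⟩ hsgG (by rw [hmuG]; exact hc0) hEE
    rw [hs1] at hcnt
    have hsq := sqrt_ns j hc h2 hc0 hb'
    have hodd := odd_card_of_two_ne h2K
    constructor
    · rintro ⟨h3, h4⟩
      apply hcnt.1
      rw [sqc, if_neg (fun h => by have := hsq.1 h; omega), h3.neg_one_pow, neg_neg]
    · intro h3
      apply hcnt.2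
      by_cases h4 : IsSquare b
      · rw [sqc, if_pos h4, one_pow]
      · rw [sqc, if_neg h4]
        have h5 : ¬ Odd m := fun h5 => h3 ⟨h5, by
          have := mt hsq.2 h4
          omega⟩
        rw [(Nat.not_odd_iff_even.1 h5).neg_one_pow]
  refine ⟨fun h2 => ?_, fun h => (key h.1).1 h.2, fun h => (key h.1).2 h.2⟩
  exact count_one hj hS h (Or.inr h2) hc (fun h2K => absurd ((two_bc j).1 h2) h2K)

include hj hζ in
theorem cent_graph {m : ℕ} (hm : 5 ≤ m) {f : GamO (qfPlus m F)}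
    {e : ((Fin (m - 1) ⊕ Fin (m - 1)) ⊕ Fin 2 → F) ≃ₗ[F] (Fin m ⊕ Fin m → F)} {d : Fˣ}
    (h : IsFm σ (qfMinus (m - 1) F (j 1) (j ζ)) (qfPlus m F) f e d) [hG : EvG (qfPlus m F)] [hG0 : EvG (qfMinus (m - 1) K 1 ζ)] :
    Nonempty (↥((sg (qfPlus m F)).ker.map (dO _) ⊓ Subgroup.centralizer {cO _ f}) ≃*
      ↥((sg (qfMinus (m - 1) K 1 ζ)).ker.map (dO _))) := by
  have hGS : EvG (qfMinus (m - 1) F (j 1) (j ζ)) := evG_minus (by omega) (disc_bc j (disc_ne_zero_of_aniso (aniso_of_root hζ)))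
  exact cent_iso hj (isBC_minus j (m - 1) 1 ζ) h _ _ (fun g => by
    rw [MonoidHom.mem_ker, MonoidHom.mem_ker, sg_EE]) (fun c => sg_sc c)

include hj hζ in
theorem cent_minus {m : ℕ} (hm : 3 ≤ m) {a b : F} {f : GamO (qfMinus m F a b)}
    {e : ((Fin m ⊕ Fin m) ⊕ Fin 2 → F) ≃ₗ[F] ((Fin m ⊕ Fin m) ⊕ Fin 2 → F)} {d : Fˣ}
    (h : IsFm σ (qfMinus m F (j 1) (j ζ)) (qfMinus m F a b) f e d) [hG : EvG (qfMinus m F a b)] [hG0 : EvG (qfMinus m K 1 ζ)] :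
    Nonempty (↥((sg (qfMinus m F a b)).ker.map (dO _) ⊓ Subgroup.centralizer {cO _ f}) ≃*
      ↥((sg (qfMinus m K 1 ζ)).ker.map (dO _))) := by
  have hGS : EvG (qfMinus m F (j 1) (j ζ)) := evG_minus hm (disc_bc j (disc_ne_zero_of_aniso (aniso_of_root hζ)))
  exact cent_iso hj (isBC_minus j m 1 ζ) h _ _ (fun g => by
    rw [MonoidHom.mem_ker, MonoidHom.mem_ker, sg_EE]) (fun c => sg_sc c)

include hj hζ in
theorem count_minus {m : ℕ} (hm : 3 ≤ m) {a b : F} {f : GamO (qfMinus m F a b)}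
    {e : ((Fin m ⊕ Fin m) ⊕ Fin 2 → F) ≃ₗ[F] ((Fin m ⊕ Fin m) ⊕ Fin 2 → F)} {d : Fˣ}
    (h : IsFm σ (qfMinus m F (j 1) (j ζ)) (qfMinus m F a b) f e d) {r : ℕ} (hr : Odd r)
    (hc : Fintype.card F = Fintype.card K ^ r) [hG : EvG (qfMinus m F a b)] :
    Cfsg.splitClassCount ((sg (qfMinus m F a b)).ker.map (dO _)) (Cfsg.Inn (T (qfMinus m F a b))) (cO _ f) = 1 := by
  have hdK := disc_ne_zero_of_aniso (aniso_of_root hζ)
  have hG0 : EvG (qfMinus m K 1 ζ) := evG_minus hm hdK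
  have hGS : EvG (qfMinus m F (j 1) (j ζ)) := evG_minus hm (disc_bc j hdK)
  refine count_one hj (isBC_minus j m 1 ζ) h (Or.inl hr) hc (fun h2K => ?_)
  obtain ⟨c, hc0⟩ := exists_ns_unit h2K
  obtain ⟨w1, w2, hw⟩ := exists_w hdK (c : K)
  have hmuG : mu _ (Dm (m := m) hdK w1 w2 c hw) = c := mu_eq (fun v => by rw [sa_Dm, DmL_q, hw])
  by_cases hs : sg _ (Dm (m := m) hdK w1 w2 c hw) = 1
  · exact ⟨_, hs, by rw [hmuG]; exact hc0⟩
  · obtain ⟨v, hv⟩ := exists_q_ne (Q := qfMinus m K 1 ζ)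
    exact ⟨_, sg_adjust hs hv, by rw [map_mul, mu_ofS, mul_one, hmuG]; exact hc0⟩

end graph

section rows

/-- involutions of the automorphism group of a finite field -/
theorem ringAut_inv_unique {F : Type*} [Field F] [Fintype F] {p f : ℕ} [Fact p.Prime] (hF : Fintype.card F = p ^ f)
    {σ τ : RingAut F} (hσ : orderOf σ = 2) (hτ : orderOf τ = 2) : σ = τ := by
  classical
  have hfin : Finite (RingAut F) :=
    Finite.of_injective (fun τ : RingAut F => (τ : F → F)) (fun a b h => RingEquiv.ext (congrFun h))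
  have hfint := Fintype.ofFinite (RingAut F)
  have hcyc := (AutPSL.ringAut_cyclic_card F hF).1
  by_contra hne
  have h1 := IsCyclic.card_pow_eq_one_le (α := RingAut F) (n := 2) (by norm_num)
  have hσ1 : σ ≠ 1 := fun h => by rw [h, orderOf_one] at hσ; omega
  have hτ1 : τ ≠ 1 := fun h => by rw [h, orderOf_one] at hτ; omega
  have h2 : ({1, σ, τ} : Finset (RingAut F)) ⊆ Finset.univ.filter (fun a => a ^ 2 = 1) := by
    intro x hx
    rw [Finset.mem_filter]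
    refine ⟨Finset.mem_univ _, ?_⟩
    simp only [Finset.mem_insert, Finset.mem_singleton] at hx
    rcases hx with rfl | rfl | rfl
    · exact one_pow 2
    · rw [← hσ, pow_orderOf_eq_one]
    · rw [← hτ, pow_orderOf_eq_one]
  have h3 := Finset.card_le_card h2
  rw [Finset.card_eq_three.2 ⟨1, σ, τ, hσ1.symm, hτ1.symm, hne, rfl⟩] at h3
  omega

theorem iso_inndM {F : Type*} [Field F] [Fintype F] {m : ℕ} (hm : 3 ≤ m) {a b : F}
    (hab : ∀ z₁ z₂ : F, z₁ ^ 2 + a * z₁ * z₂ + b * z₂ ^ 2 = 0 → z₁ = 0 ∧ z₂ = 0) [hG : EvG (qfMinus m F a b)] :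
    Nonempty (↥(inndM a b ⇑(qfMinus m F a b)) ≃* ↥((sg (qfMinus m F a b)).ker.map (dO _))) :=
  ⟨((inndM a b ⇑(qfMinus m F a b)).equivMapOfInjective (aE (qfMinus m F a b)).toMonoidHom
      (aE (qfMinus m F a b)).injective).trans (MulEquiv.subgroupCongr (inndM_map hm hab))⟩

theorem cent_inndM {F : Type*} [Field F] [Fintype F] {m : ℕ} (hm : 3 ≤ m) {a b : F}
    (hab : ∀ z₁ z₂ : F, z₁ ^ 2 + a * z₁ * z₂ + b * z₂ ^ 2 = 0 → z₁ = 0 ∧ z₂ = 0) [hG : EvG (qfMinus m F a b)]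
    (x : MulAut (Cfsg.POmega F ⇑(qfMinus m F a b))) :
    Nonempty (↥(inndM a b ⇑(qfMinus m F a b) ⊓ Subgroup.centralizer {x}) ≃*
      ↥((sg (qfMinus m F a b)).ker.map (dO _) ⊓ Subgroup.centralizer {aE _ x})) :=
  ⟨(centMap (aE (qfMinus m F a b)) (inndM a b ⇑(qfMinus m F a b)) x).trans (MulEquiv.subgroupCongr (by
    rw [inndM_map hm hab]))⟩

/-- a standard form of involutory graph-field automorphisms -/
theorem gf_std {F : Type*} [Field F] [Fintype F] {m : ℕ} [hG : EvG (qfPlus m F)] [hP : PlusT (qfPlus m F)]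
    (hall : ∀ α : MulAut (T (qfPlus m F)), ∃ f : GamO (qfPlus m F), α = cO _ f) {x : MulAut (Cfsg.POmega F ⇑(qfPlus m F))}
    (hx : IsGFR (⇑(qfPlus m F)) x) (hx2 : orderOf x = 2) : ∃ (f1 : GamO (qfPlus m F)) (σ : RingAut F) (c : Fˣ),
      aE _ x = cO _ f1 ∧ IsSemi (qfPlus m F) (f1 : Equiv.Perm _) σ c ∧ sw _ f1 = -1 ∧ orderOf σ = 2 ∧ f1 ^ orderOf σ = 1 := by
  obtain ⟨f0, σ, c, hσ, h1, h2, h3⟩ := gf_f0 hall hx
  have hx2' : (cO (qfPlus m F) f0) ^ 2 = 1 := by rw [← h1, ← hx2, ← orderOf_aE, pow_orderOf_eq_one]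
  have hord : orderOf σ = 2 := orderOf_of_prime h2 hσ Nat.prime_two hx2'
  obtain ⟨b0, hb0⟩ := AutO.exists_adjust h2 (by rw [hord]; exact hx2')
  obtain ⟨c0', hf0'⟩ := semi_scl_mul b0 h2
  exact ⟨scl _ b0 * f0, σ, c0', by rw [map_mul, cO_scl, one_mul, h1], hf0', by rw [map_mul, sw_scl, one_mul, h3], hord, hb0⟩

set_option maxHeartbeats 1600000 in
theorem row_gf {F : Type*} [Field F] [Fintype F] {p f : ℕ} [Fact p.Prime] (hF : Fintype.card F = p ^ f) {m : ℕ} (hm : 5 ≤ m)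
    (F₀ : Type*) [Field F₀] [Fintype F₀] (hF₀ : Fintype.card F₀ = p ^ (f / 2))
    (hall : ∀ α : MulAut (T (qfPlus m F)), ∃ f : GamO (qfPlus m F), α = cO _ f)
    (x : MulAut (Cfsg.POmega F ⇑(qfPlus m F))) (hx : IsGFR (⇑(qfPlus m F)) x) (hx2 : orderOf x = 2) :
    Even f ∧ (∀ y : MulAut (Cfsg.POmega F ⇑(qfPlus m F)), IsGFR (⇑(qfPlus m F)) y → orderOf y = 2 →
      Cfsg.IsConjUnder (inndP ⇑(qfPlus m F)) x y) ∧
    (∃ a₀ b₀ : F₀, (∀ z₁ z₂ : F₀, z₁ ^ 2 + a₀ * z₁ * z₂ + b₀ * z₂ ^ 2 = 0 → z₁ = 0 ∧ z₂ = 0) ∧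
      Nonempty (↥(inndP ⇑(qfPlus m F) ⊓ Subgroup.centralizer {x}) ≃* ↥(inndM a₀ b₀ ⇑(qfMinus (m - 1) F₀ a₀ b₀)))) ∧
    (p = 2 → Cfsg.splitClassCount (inndP ⇑(qfPlus m F)) (Cfsg.Inn (Cfsg.POmega F ⇑(qfPlus m F))) x = 1) ∧
    ((p ≠ 2 ∧ Odd m ∧ p ^ (f / 2) % 4 = 1) → Cfsg.splitClassCount (inndP ⇑(qfPlus m F)) (Cfsg.Inn (Cfsg.POmega F ⇑(qfPlus m F))) x = 4) ∧
    ((p ≠ 2 ∧ ¬ (Odd m ∧ p ^ (f / 2) % 4 = 1)) → Cfsg.splitClassCount (inndP ⇑(qfPlus m F)) (Cfsg.Inn (Cfsg.POmega F ⇑(qfPlus m F))) x = 2) := by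
  have hcp : CharP F p := AutLie.charP_of_card hF
  have hG : EvG (qfPlus m F) := evG_plus (by omega)
  have hP : PlusT (qfPlus m F) := plusT_plus m
  have hp2 : (2 : F) = 0 ↔ p = 2 := by
    constructor
    · intro h
      have h1 := (CharP.cast_eq_zero_iff F p 2).1 (by exact_mod_cast h)
      exact (Nat.prime_dvd_prime_iff_eq (Fact.out : p.Prime) Nat.prime_two).1 h1
    · rintro rfl
      have := CharP.cast_eq_zero F 2
      exact_mod_cast this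
  obtain ⟨f1, σ, c, h1, h2, h3, hord, hfn⟩ := gf_std hall hx hx2
  have hrf : 2 ∣ f := hord ▸ AutLie.orderOf_ringAut_dvd hF σ
  obtain ⟨j, hj⟩ := AutLie.exists_embedding hF σ F₀ (by rw [hord]; exact hF₀)
  have hcard : Fintype.card F = Fintype.card F₀ ^ 2 := by
    rw [hF, hF₀, ← pow_mul, Nat.div_mul_cancel hrf]
  obtain ⟨ζ, hζ⟩ := exists_zeta F₀
  obtain ⟨e, d, h⟩ := fm_graph j hj hζ h2 hfn h3
  have hcnt := count_graph hζ hj hm h hord hcard
  refine ⟨even_iff_two_dvd.2 hrf, ?_, ⟨1, ζ, aniso_of_root hζ, ?_⟩, ?_⟩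
  · intro y hy hy2
    obtain ⟨f2, σ', c', h1', h2', h3', hord', hfn'⟩ := gf_std hall hy hy2
    have hσ : σ' = σ := ringAut_inv_unique hF hord' hord
    subst hσ
    obtain ⟨k, hk, hk'⟩ := lang_plus_graph h2 hfn h3 h2' hfn' h3'
    rw [isConjUnder_map (aE _), inndP_map, h1, h1']
    exact ⟨dO _ k, ⟨k, hk, rfl⟩, by rw [hk', map_mul, map_mul, map_inv]; rfl⟩
  · have hG0 : EvG (qfMinus (m - 1) F₀ 1 ζ) := evG_minus (by omega) (disc_ne_zero_of_aniso (aniso_of_root hζ))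
    obtain ⟨e4⟩ := cent_graph hζ hj hm h
    rw [← h1] at e4
    have e1 := centMap (aE (qfPlus m F)) (inndP ⇑(qfPlus m F)) x
    rw [inndP_map] at e1
    obtain ⟨e3⟩ := iso_inndM (m := m - 1) (by omega) (aniso_of_root hζ)
    exact ⟨(e1.trans e4).trans e3.symm⟩
  · have h4 : Cfsg.splitClassCount (inndP ⇑(qfPlus m F)) (Cfsg.Inn (Cfsg.POmega F ⇑(qfPlus m F))) x =
        Cfsg.splitClassCount ((sg (qfPlus m F)).ker.map (dO _)) (Cfsg.Inn (T (qfPlus m F))) (cO _ f1) := by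
      rw [splitClassCount_map (aE (qfPlus m F)), inndP_map, inn_map_congr, ← h1]
    rw [h4]
    refine ⟨fun h5 => hcnt.1 (hp2.2 h5), ?_, ?_⟩
    · rintro ⟨h5, h6, h7⟩
      exact hcnt.2.1 ⟨fun h8 => h5 (hp2.1 h8), h6, by rw [hF₀]; exact h7⟩
    · rintro ⟨h5, h6⟩
      exact hcnt.2.2 ⟨fun h8 => h5 (hp2.1 h8), by rw [hF₀]; exact h6⟩

set_option maxHeartbeats 1600000 in
theorem row_minus {F : Type*} [Field F] [Fintype F] {p f : ℕ} [Fact p.Prime] (hF : Fintype.card F = p ^ f) {m : ℕ} (hm : 3 ≤ m)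
    (a b : F) (hab : ∀ z₁ z₂ : F, z₁ ^ 2 + a * z₁ * z₂ + b * z₂ ^ 2 = 0 → z₁ = 0 ∧ z₂ = 0) {r : ℕ} (hr : r.Prime)
    (F₀ : Type*) [Field F₀] [Fintype F₀] (hF₀ : Fintype.card F₀ = p ^ (f / r))
    (hall : ∀ α : MulAut (T (qfMinus m F a b)), ∃ f : GamO (qfMinus m F a b), α = cO _ f)
    (x : MulAut (Cfsg.POmega F ⇑(qfMinus m F a b))) (hx : IsFMR (fun a b => ⇑(qfMinus m F a b)) a b x) (hxr : orderOf x = r) :
    Odd r ∧ r ∣ f ∧ (∃ a₀ b₀ : F₀, (∀ z₁ z₂ : F₀, z₁ ^ 2 + a₀ * z₁ * z₂ + b₀ * z₂ ^ 2 = 0 → z₁ = 0 ∧ z₂ = 0) ∧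
      Nonempty (↥(inndM a b ⇑(qfMinus m F a b) ⊓ Subgroup.centralizer {x}) ≃* ↥(inndM a₀ b₀ ⇑(qfMinus m F₀ a₀ b₀)))) ∧
    Cfsg.splitClassCount (inndM a b ⇑(qfMinus m F a b)) (Cfsg.Inn (Cfsg.POmega F ⇑(qfMinus m F a b))) x = 1 := by
  have hd := disc_ne_zero_of_aniso hab
  have hG : EvG (qfMinus m F a b) := evG_minus hm hd
  obtain ⟨f0, σ, c, hσ, h1, h2⟩ := minus_f0 hab hall hx
  have hx2' : (cO (qfMinus m F a b) f0) ^ r = 1 := by rw [← h1, ← hxr, ← orderOf_aE, pow_orderOf_eq_one]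
  have hord : orderOf σ = r := orderOf_of_prime h2 hσ hr hx2'
  obtain ⟨b0, hb0⟩ := AutO.exists_adjust h2 (by rw [hord]; exact hx2')
  obtain ⟨c0', hf0'⟩ := semi_scl_mul b0 h2
  have h1' : aE _ x = cO _ (scl _ b0 * f0) := by rw [map_mul, cO_scl, one_mul, h1]
  have hrf : r ∣ f := hord ▸ AutLie.orderOf_ringAut_dvd hF σ
  obtain ⟨j, hj⟩ := AutLie.exists_embedding hF σ F₀ (by rw [hord]; exact hF₀)
  have hcard : Fintype.card F = Fintype.card F₀ ^ r := by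
    rw [hF, hF₀, ← pow_mul, Nat.div_mul_cancel hrf]
  obtain ⟨ζ, hζ⟩ := exists_zeta F₀
  obtain ⟨e, d, h⟩ := fm_minus j hj hζ hab hf0' hb0
  have hodd : Odd r := by
    rcases hr.eq_two_or_odd' with h5 | h5
    · exfalso
      subst h5
      obtain ⟨ρ, hρ⟩ := exists_rho hζ j hcard
      have hU : TS (qfMinus m F a b) ((Urho m ρ).map (e : ((Fin m ⊕ Fin m) ⊕ Fin 2 → F) →ₗ[F] _)) := by
        rintro _ ⟨u, hu, rfl⟩
        change qfMinus m F a b (e u) = 0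
        rw [h.q, TS_Urho hρ u hu, mul_zero]
      have h6 := hU.finrank_le_minus hd hab
      rw [LinearEquiv.finrank_map_eq, finrank_Urho] at h6
      omega
    · exact h5
  refine ⟨hodd, hrf, ⟨1, ζ, aniso_of_root hζ, ?_⟩, ?_⟩
  · have hG0 : EvG (qfMinus m F₀ 1 ζ) := evG_minus hm (disc_ne_zero_of_aniso (aniso_of_root hζ))
    obtain ⟨e4⟩ := cent_minus hζ hj hm h
    rw [← h1'] at e4
    obtain ⟨e1⟩ := cent_inndM hm hab x
    obtain ⟨e3⟩ := iso_inndM hm (aniso_of_root hζ)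
    exact ⟨(e1.trans e4).trans e3.symm⟩
  · rw [splitClassCount_map (aE (qfMinus m F a b)), inndM_map hm hab, inn_map_congr, h1']
    exact count_minus hζ hj hm h hodd hcard

end rows

end Cfsg.Agent.AutO
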